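import Mathlib

/-!
# Carmichael's presentation of the alternating group: the upper bound by coset enumeration
-/

set_option autoImplicit false

namespace Cfsg.Agent.Lib.GS1.Carm

variable {G : Type*} [Group G]

/-- The relations of Carmichael's presentation. -/
structure CR (x : ℕ → G) (m : ℕ) : Prop where
  r0 : 0 < m → x 0 ^ 3 = 1
  r1 : ∀ i, 1 ≤ i → i < m → x i ^ 2 = 1
  r2 : ∀ i, i + 1 < m → (x i * x (i + 1)) ^ 3 = 1
  r3 : ∀ i j, i + 1 < j → j < m → (x i * x j) ^ 2 = 1

variable {x : ℕ → G} {m : ℕ}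

namespace CR

theorem mul_self (h : CR x m) {i : ℕ} (h1 : 1 ≤ i) (h2 : i < m) : x i * x i = 1 := by
  rw [← pow_two]
  exact h.r1 i h1 h2

theorem inv_eq (h : CR x m) {i : ℕ} (h1 : 1 ≤ i) (h2 : i < m) : (x i)⁻¹ = x i :=
  inv_eq_of_mul_eq_one_left (h.mul_self h1 h2)

/-- Far apart involutions commute. -/
theorem comm (h : CR x m) {a b : ℕ} (ha : 1 ≤ a) (hab : a + 1 < b) (hb : b < m) :
    x a * x b = x b * x a := by
  have h1 := h.r3 a b hab hb
  rw [pow_two] at h1
  have h2 : x a * x b = (x a * x b)⁻¹ := eq_inv_of_mul_eq_one_left h1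
  rw [h2, mul_inv_rev, h.inv_eq (by omega) hb, h.inv_eq ha (by omega)]

/-- Far away involutions invert the first generator. -/
theorem zero_inv (h : CR x m) {b : ℕ} (hb2 : 2 ≤ b) (hb : b < m) :
    x b * x 0 = (x 0)⁻¹ * x b := by
  have h1 := h.r3 0 b (by omega) hb
  rw [pow_two] at h1
  have h3 : (x 0) * (x b * x 0) * x b = 1 := by
    rw [← h1]
    simp only [mul_assoc]
  have hi := h.inv_eq (i := b) (by omega) hb
  calc x b * x 0 = (x 0)⁻¹ * ((x 0) * (x b * x 0) * x b) * (x b)⁻¹ := by group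
    _ = (x 0)⁻¹ * x b := by rw [h3, hi]; group

theorem zero_inv' (h : CR x m) {b : ℕ} (hb2 : 2 ≤ b) (hb : b < m) :
    x b * (x 0)⁻¹ = x 0 * x b := by
  have h1 := h.zero_inv hb2 hb
  calc x b * (x 0)⁻¹ = x 0 * ((x 0)⁻¹ * x b) * (x 0)⁻¹ := by group
    _ = x 0 * (x b * x 0) * (x 0)⁻¹ := by rw [h1]
    _ = x 0 * x b := by group

/-- The braid relation. -/
theorem braid (h : CR x m) {a : ℕ} (ha : 1 ≤ a) (hb : a + 1 < m) :
    x (a + 1) * x a * x (a + 1) = x a * x (a + 1) * x a := by
  have h1 := h.r2 a hb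
  have e : (x a * x (a + 1)) ^ 3 = (x a * x (a + 1) * x a) * (x (a + 1) * x a * x (a + 1)) := by
    simp only [pow_succ, pow_zero, one_mul, mul_assoc]
  rw [e] at h1
  have h2 := eq_inv_of_mul_eq_one_right h1
  rw [h2]
  simp only [mul_inv_rev, h.inv_eq ha (by omega), h.inv_eq (i := a + 1) (by omega) hb, mul_assoc]

theorem one_zero (h : CR x m) (hb : 1 < m) :
    x 1 * x 0 * x 1 = (x 0)⁻¹ * x 1 * (x 0)⁻¹ := by
  have h1 := h.r2 0 hb
  have e : (x 0 * x 1) ^ 3 = (x 0 * x 1 * x 0) * (x 1 * x 0 * x 1) := by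
    simp only [zero_add, pow_succ, pow_zero, one_mul, mul_assoc]
  rw [e] at h1
  have h2 := eq_inv_of_mul_eq_one_right h1
  rw [h2]
  simp only [mul_inv_rev, h.inv_eq (i := 1) (by omega) hb, mul_assoc]

theorem one_zero' (h : CR x m) (hb : 1 < m) :
    x 1 * (x 0)⁻¹ * x 1 = x 0 * x 1 * x 0 := by
  have h1 := h.one_zero hb
  have h2 := congrArg (fun y => y⁻¹) h1
  simp only [mul_inv_rev, inv_inv, h.inv_eq (i := 1) (by omega) hb, mul_assoc] at h2
  simp only [mul_assoc]
  exact h2

end CR

/-- The coset representatives `x_t x_{t-1} ⋯ x_{t-d+1}`. -/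
def W (x : ℕ → G) (t : ℕ) : ℕ → G
  | 0 => 1
  | d + 1 => W x t d * x (t - d)

/-- The subgroup generated by the first `t` generators. -/
def K (x : ℕ → G) (t : ℕ) : Subgroup G := Subgroup.closure (x '' {i | i < t})

theorem x_mem_K {t i : ℕ} (h : i < t) : x i ∈ K x t :=
  Subgroup.subset_closure ⟨i, h, rfl⟩

section chain

variable (h : CR x m) {t : ℕ} (ht : t < m)
include h ht

theorem W_comm (d a : ℕ) (ha : 1 ≤ a) (hd : a + 1 ≤ t - d) (hdt : d ≤ t) :
    W x t d * x a = x a * W x t d := by
  induction d with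
  | zero => simp [W]
  | succ d ih =>
    have ha2 : a + 1 < t - d := by omega
    have h1 := h.comm ha ha2 (by omega)
    calc W x t (d + 1) * x a = W x t d * (x (t - d) * x a) := by simp only [W, mul_assoc]
      _ = W x t d * (x a * x (t - d)) := by rw [h1]
      _ = (W x t d * x a) * x (t - d) := by simp only [mul_assoc]
      _ = x a * W x t (d + 1) := by
          rw [ih (by omega) (by omega)]
          simp only [W, mul_assoc]

theorem W_zero (d : ℕ) (hd : d < t) :
    (∃ k ∈ K x t, W x t d * x 0 = k * W x t d) ∧ (∃ k ∈ K x t, W x t d * (x 0)⁻¹ = k * W x t d) := by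
  have h0 : x 0 ∈ K x t := x_mem_K (by omega)
  induction d with
  | zero =>
    exact ⟨⟨x 0, h0, by simp [W]⟩, ⟨(x 0)⁻¹, inv_mem h0, by simp [W]⟩⟩
  | succ d ih =>
    obtain ⟨⟨k1, hk1, e1⟩, ⟨k2, hk2, e2⟩⟩ := ih (by omega)
    have hb2 : 2 ≤ t - d := by omega
    have hbm : t - d < m := by omega
    constructor
    · refine ⟨k2, hk2, ?_⟩
      calc W x t (d + 1) * x 0 = W x t d * (x (t - d) * x 0) := by simp only [W, mul_assoc]
        _ = (W x t d * (x 0)⁻¹) * x (t - d) := by rw [h.zero_inv hb2 hbm]; simp only [mul_assoc]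
        _ = k2 * W x t (d + 1) := by rw [e2]; simp only [W, mul_assoc]
    · refine ⟨k1, hk1, ?_⟩
      calc W x t (d + 1) * (x 0)⁻¹ = W x t d * (x (t - d) * (x 0)⁻¹) := by simp only [W, mul_assoc]
        _ = (W x t d * x 0) * x (t - d) := by rw [h.zero_inv' hb2 hbm]; simp only [mul_assoc]
        _ = k1 * W x t (d + 1) := by rw [e1]; simp only [W, mul_assoc]

theorem W_high (d : ℕ) (hd : d ≤ t) (i : ℕ) (h1 : t - d + 2 ≤ i) (h2 : i ≤ t) :
    W x t d * x i = x (i - 1) * W x t d := by
  induction d generalizing i with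
  | zero => omega
  | succ d ih =>
    have ha : 1 ≤ t - d := by omega
    have hae : t - (d + 1) + 1 = t - d := by omega
    by_cases hi : t - d + 2 ≤ i
    · have hc := h.comm ha (by omega : t - d + 1 < i) (by omega)
      calc W x t (d + 1) * x i = W x t d * (x (t - d) * x i) := by simp only [W, mul_assoc]
        _ = (W x t d * x i) * x (t - d) := by rw [hc]; simp only [mul_assoc]
        _ = x (i - 1) * W x t (d + 1) := by
            rw [ih (by omega) i hi h2]
            simp only [W, mul_assoc]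
    · have hi2 : i = t - d + 1 := by omega
      subst hi2
      obtain ⟨d', rfl⟩ : ∃ d', d = d' + 1 := ⟨d - 1, by omega⟩
      have hd' : t - d' = t - (d' + 1) + 1 := by omega
      set a := t - (d' + 1) with ha_def
      have hbr := h.braid (a := a) (by omega) (by omega)
      have hcm := W_comm h ht d' a (by omega) (by omega) (by omega)
      calc W x t (d' + 1 + 1) * x (a + 1)
          = W x t d' * (x (a + 1) * x a * x (a + 1)) := by
            simp only [W, mul_assoc, hd', ← ha_def]
        _ = (W x t d' * x a) * x (a + 1) * x a := by rw [hbr]; simp only [mul_assoc]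
        _ = x (a + 1 - 1) * W x t (d' + 1 + 1) := by
            rw [hcm]
            simp only [W, mul_assoc, hd', ← ha_def, Nat.add_sub_cancel]

/-- The representatives of the cosets. -/
def rep (x : ℕ → G) (t j : ℕ) : G :=
  if j ≤ t then W x t j else if j = t + 1 then W x t t * x 0 else W x t t * (x 0)⁻¹

omit h ht in
theorem rep_le {t j : ℕ} (hj : j ≤ t) : rep x t j = W x t j := if_pos hj

omit h ht in
theorem rep_succ {t : ℕ} : rep x t (t + 1) = W x t t * x 0 := by
  unfold rep
  rw [if_neg (by omega), if_pos rfl]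

omit h ht in
theorem rep_succ2 {t : ℕ} : rep x t (t + 2) = W x t t * (x 0)⁻¹ := by
  unfold rep
  rw [if_neg (by omega), if_neg (by omega)]

/-- Being in one of the cosets. -/
def InC (x : ℕ → G) (t : ℕ) (g : G) : Prop := ∃ k ∈ K x t, ∃ j ≤ t + 2, g = k * rep x t j

omit h ht in
theorem InC.left {t : ℕ} {g k : G} (hk : k ∈ K x t) (hg : InC x t g) : InC x t (k * g) := by
  obtain ⟨k', hk', j, hj, rfl⟩ := hg
  exact ⟨k * k', mul_mem hk hk', j, hj, by simp only [mul_assoc]⟩

omit h ht in
theorem InC.rep {t j : ℕ} (hj : j ≤ t + 2) : InC x t (rep x t j) :=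
  ⟨1, one_mem _, j, hj, by simp⟩

theorem W_step (d : ℕ) (hd : d ≤ t) (i : ℕ) (hi1 : 1 ≤ i) (hit : i ≤ t) :
    InC x t (W x t d * x i) := by
  by_cases h1 : i = t - d
  · have hdt : d + 1 ≤ t := by omega
    have : W x t d * x i = rep x t (d + 1) := by
      rw [rep_le hdt, h1]
      rfl
    rw [this]
    exact InC.rep (by omega)
  by_cases h2 : i = t - d + 1
  · obtain ⟨d', rfl⟩ : ∃ d', d = d' + 1 := ⟨d - 1, by omega⟩
    have he : t - d' = i := by omega
    have : W x t (d' + 1) * x i = rep x t d' := by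
      rw [rep_le (by omega)]
      simp only [W, he, mul_assoc, h.mul_self hi1 (by omega), mul_one]
    rw [this]
    exact InC.rep (by omega)
  by_cases h3 : t - d + 2 ≤ i
  · rw [W_high h ht d hd i h3 hit, ← rep_le (x := x) hd]
    exact InC.left (x_mem_K (by omega)) (InC.rep (by omega))
  · have h4 : i + 1 ≤ t - d := by omega
    rw [W_comm h ht d i hi1 h4 hd, ← rep_le (x := x) hd]
    exact InC.left (x_mem_K (by omega)) (InC.rep (by omega))

theorem W_step0 (d : ℕ) (hd : d ≤ t) :
    InC x t (W x t d * x 0) ∧ InC x t (W x t d * (x 0)⁻¹) := by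
  by_cases hdt : d < t
  · obtain ⟨⟨k1, hk1, e1⟩, ⟨k2, hk2, e2⟩⟩ := W_zero h ht d hdt
    rw [e1, e2, ← rep_le (x := x) hd]
    exact ⟨InC.left hk1 (InC.rep (by omega)), InC.left hk2 (InC.rep (by omega))⟩
  · have hd' : d = t := by omega
    subst hd'
    rw [← rep_succ, ← rep_succ2]
    exact ⟨InC.rep (by omega), InC.rep (by omega)⟩

theorem c0_step0 : InC x t (rep x t (t + 1) * x 0) ∧ InC x t (rep x t (t + 1) * (x 0)⁻¹) ∧
    InC x t (rep x t (t + 2) * x 0) ∧ InC x t (rep x t (t + 2) * (x 0)⁻¹) := by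
  have h03 : x 0 ^ 3 = 1 := h.r0 (by omega)
  have h1 : x 0 * x 0 = (x 0)⁻¹ := by
    apply eq_inv_of_mul_eq_one_left
    rw [← h03]
    simp only [pow_succ, pow_zero, one_mul]
  have h2 : (x 0)⁻¹ * (x 0)⁻¹ = x 0 := by
    rw [← h1]
    have h3 : x 0 * x 0 * x 0 = 1 := by
      rw [← h03]
      simp only [pow_succ, pow_zero, one_mul]
    calc x 0 * x 0 * (x 0 * x 0) = (x 0 * x 0 * x 0) * x 0 := by simp only [mul_assoc]
      _ = x 0 := by rw [h3, one_mul]
  refine ⟨?_, ?_, ?_, ?_⟩
  · rw [rep_succ, mul_assoc, h1, ← rep_succ2]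
    exact InC.rep (by omega)
  · rw [rep_succ, mul_inv_cancel_right, ← rep_le (x := x) (le_refl t)]
    exact InC.rep (by omega)
  · rw [rep_succ2, inv_mul_cancel_right, ← rep_le (x := x) (le_refl t)]
    exact InC.rep (by omega)
  · rw [rep_succ2, mul_assoc, h2, ← rep_succ]
    exact InC.rep (by omega)

theorem c0_step (i : ℕ) (hi1 : 1 ≤ i) (hit : i ≤ t) :
    InC x t (rep x t (t + 1) * x i) ∧ InC x t (rep x t (t + 2) * x i) := by
  by_cases hi : i = 1
  · subst hi
    obtain ⟨t', rfl⟩ : ∃ t', t = t' + 1 := ⟨t - 1, by omega⟩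
    have hm1 : 1 < m := by omega
    have hW : W x (t' + 1) (t' + 1) = W x (t' + 1) t' * x 1 := by
      have : t' + 1 - t' = 1 := by omega
      simp only [W, this]
    obtain ⟨⟨k1, hk1, e1⟩, ⟨k2, hk2, e2⟩⟩ := W_zero h ht t' (by omega)
    constructor
    · rw [rep_succ, hW]
      have : W x (t' + 1) t' * x 1 * x 0 * x 1 = k2 * (W x (t' + 1) t' * x 1 * (x 0)⁻¹) := by
        calc W x (t' + 1) t' * x 1 * x 0 * x 1 = W x (t' + 1) t' * (x 1 * x 0 * x 1) := by
              simp only [mul_assoc]
          _ = (W x (t' + 1) t' * (x 0)⁻¹) * (x 1 * (x 0)⁻¹) := by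
              rw [h.one_zero hm1]
              simp only [mul_assoc]
          _ = k2 * (W x (t' + 1) t' * x 1 * (x 0)⁻¹) := by
              rw [e2]
              simp only [mul_assoc]
      rw [this, ← hW, ← rep_succ2]
      exact InC.left hk2 (InC.rep (by omega))
    · rw [rep_succ2, hW]
      have : W x (t' + 1) t' * x 1 * (x 0)⁻¹ * x 1 = k1 * (W x (t' + 1) t' * x 1 * x 0) := by
        calc W x (t' + 1) t' * x 1 * (x 0)⁻¹ * x 1 = W x (t' + 1) t' * (x 1 * (x 0)⁻¹ * x 1) := by
              simp only [mul_assoc]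
          _ = (W x (t' + 1) t' * x 0) * (x 1 * x 0) := by
              rw [h.one_zero' hm1]
              simp only [mul_assoc]
          _ = k1 * (W x (t' + 1) t' * x 1 * x 0) := by
              rw [e1]
              simp only [mul_assoc]
      rw [this, ← hW, ← rep_succ]
      exact InC.left hk1 (InC.rep (by omega))
  · have hi2 : 2 ≤ i := by omega
    have him : i < m := by omega
    have hhigh := W_high h ht t le_rfl i (by omega) hit
    have hm1 : x (i - 1) ∈ K x t := x_mem_K (by omega)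
    have e1 : x 0 * x i = x i * (x 0)⁻¹ := (h.zero_inv' hi2 him).symm
    have e2 : (x 0)⁻¹ * x i = x i * x 0 := (h.zero_inv hi2 him).symm
    constructor
    · rw [rep_succ, mul_assoc, e1, ← mul_assoc, hhigh, mul_assoc, ← rep_succ2]
      exact InC.left hm1 (InC.rep (by omega))
    · rw [rep_succ2, mul_assoc, e2, ← mul_assoc, hhigh, mul_assoc, ← rep_succ]
      exact InC.left hm1 (InC.rep (by omega))

/-- The cosets are permuted by the generators. -/
theorem InC_step {g : G} (hg : InC x t g) (i : ℕ) (hi : i ≤ t) :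
    InC x t (g * x i) ∧ InC x t (g * (x i)⁻¹) := by
  obtain ⟨k, hk, j, hj, rfl⟩ := hg
  have key : InC x t (rep x t j * x i) ∧ InC x t (rep x t j * (x i)⁻¹) := by
    by_cases hi0 : i = 0
    · subst hi0
      by_cases hjt : j ≤ t
      · rw [rep_le hjt]
        exact W_step0 h ht j hjt
      · have h3 := c0_step0 h ht
        by_cases hj1 : j = t + 1
        · subst hj1
          exact ⟨h3.1, h3.2.1⟩
        · have hj2 : j = t + 2 := by omega
          subst hj2
          exact ⟨h3.2.2.1, h3.2.2.2⟩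
    · have hi1 : 1 ≤ i := by omega
      rw [h.inv_eq hi1 (by omega), and_self]
      by_cases hjt : j ≤ t
      · rw [rep_le hjt]
        exact W_step h ht j hjt i hi1 hi
      · have h3 := c0_step h ht i hi1 hi
        by_cases hj1 : j = t + 1
        · subst hj1
          exact h3.1
        · have hj2 : j = t + 2 := by omega
          subst hj2
          exact h3.2
  rw [mul_assoc, mul_assoc]
  exact ⟨InC.left hk key.1, InC.left hk key.2⟩

theorem K_succ_sub {g : G} (hg : g ∈ K x (t + 1)) : InC x t g := by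
  unfold K at hg
  induction hg using Subgroup.closure_induction_right with
  | one => exact ⟨1, one_mem _, 0, by omega, by rw [rep_le (by omega)]; simp [W]⟩
  | mul_right a b _ hb ih =>
    obtain ⟨i, hi, rfl⟩ := hb
    exact (InC_step h ht ih i (by simpa [Nat.lt_succ_iff] using hi)).1
  | mul_inv_cancel a b _ hb ih =>
    obtain ⟨i, hi, rfl⟩ := hb
    exact (InC_step h ht ih i (by simpa [Nat.lt_succ_iff] using hi)).2

end chain

/-- The bound on the orders. -/
def P : ℕ → ℕ
  | 0 => 1
  | t + 1 => (t + 3) * P t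

theorem two_mul_P (t : ℕ) : 2 * P t = (t + 2).factorial := by
  induction t with
  | zero => rfl
  | succ t ih =>
    have : (t + 1 + 2).factorial = (t + 3) * (t + 2).factorial := Nat.factorial_succ (t + 2)
    rw [this, ← ih]
    simp only [P]
    ring

/-- Coset enumeration: the subgroups generated by the first generators are finite of bounded order. -/
theorem card_K (h : CR x m) (t : ℕ) (ht : t ≤ m) : Finite (K x t) ∧ Nat.card (K x t) ≤ P t := by
  classical
  induction t with
  | zero =>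
    have : K x 0 = ⊥ := by
      unfold K
      have : x '' {i | i < 0} = ∅ := by simp
      rw [this, Subgroup.closure_empty]
    rw [this]
    exact ⟨inferInstance, by simp [P]⟩
  | succ t ih =>
    obtain ⟨hf, hc⟩ := ih (by omega)
    have hc1 : ∀ y : K x (t + 1), ∃ p : K x t × Fin (t + 3), (y : G) = p.1 * rep x t p.2 := by
      intro y
      obtain ⟨k, hk, j, hj, e⟩ := K_succ_sub h (by omega) y.2
      exact ⟨(⟨k, hk⟩, ⟨j, by omega⟩), e⟩
    choose f hf' using hc1
    have hinj : Function.Injective f := by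
      intro a b hab
      apply Subtype.ext
      rw [hf' a, hf' b, hab]
    refine ⟨Finite.of_injective f hinj, ?_⟩
    have h1 := Nat.card_le_card_of_injective f hinj
    rw [Nat.card_prod, Nat.card_eq_fintype_card (α := Fin (t + 3)), Fintype.card_fin] at h1
    calc Nat.card (K x (t + 1)) ≤ Nat.card (K x t) * (t + 3) := h1
      _ ≤ P t * (t + 3) := Nat.mul_le_mul_right _ hc
      _ = P (t + 1) := by simp only [P]; ring

end Cfsg.Agent.Lib.GS1.Carm
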