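import Mathlib
import Cfsg.Agent.Lib.GS1.Miller2

/-! Miller's theorem, third part: in a `2`-group without cyclic maximal subgroups, the number of
maximal subgroups with commutator quotient of order four is even. -/

set_option autoImplicit false

namespace Cfsg.Agent.Lib.GS1.Miller

open Subgroup

universe u

variable {G : Type u} [Group G]

/-- Elements commuting with `h` modulo `W`. -/
def cm (W : Subgroup G) [hW : W.Normal] (h : G) : Subgroup G where
  carrier := {g | g * h * g⁻¹ * h⁻¹ ∈ W}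
  one_mem' := by
    show 1 * h * 1⁻¹ * h⁻¹ ∈ W
    simp [W.one_mem]
  mul_mem' := fun {g₁ g₂} h₁ h₂ => by
    show g₁ * g₂ * h * (g₁ * g₂)⁻¹ * h⁻¹ ∈ W
    have e : g₁ * g₂ * h * (g₁ * g₂)⁻¹ * h⁻¹ = g₁ * (g₂ * h * g₂⁻¹ * h⁻¹) * g₁⁻¹ * (g₁ * h * g₁⁻¹ * h⁻¹) := by
      group
    rw [e]
    exact W.mul_mem (hW.conj_mem _ h₂ _) h₁
  inv_mem' := fun {g} h₁ => by
    show g⁻¹ * h * g⁻¹⁻¹ * h⁻¹ ∈ W
    have e : g⁻¹ * h * g⁻¹⁻¹ * h⁻¹ = g⁻¹ * (g * h * g⁻¹ * h⁻¹)⁻¹ * g⁻¹⁻¹ := by group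
    rw [e]
    exact hW.conj_mem _ (W.inv_mem h₁) _

theorem mem_cm {W : Subgroup G} [W.Normal] {g h : G} : g ∈ cm W h ↔ g * h * g⁻¹ * h⁻¹ ∈ W := Iff.rfl

theorem cm_symm {W : Subgroup G} [W.Normal] {g h : G} : g ∈ cm W h ↔ h ∈ cm W g := by
  rw [mem_cm, mem_cm]
  have e : h * g * h⁻¹ * g⁻¹ = (g * h * g⁻¹ * h⁻¹)⁻¹ := by group
  rw [e, Subgroup.inv_mem_iff]

theorem cm_self {W : Subgroup G} [W.Normal] (g : G) : g ∈ cm W g := by
  rw [mem_cm]
  simp [W.one_mem]

theorem cm_xor {W N : Subgroup G} [W.Normal] (hcomm : ∀ g h : G, g * h * g⁻¹ * h⁻¹ ∈ N)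
    (hNc : ∀ g : G, ∀ n ∈ N, g * n * g⁻¹ * n⁻¹ ∈ W)
    (hN2 : ∀ n₁ ∈ N, ∀ n₂ ∈ N, n₁ ∉ W → n₂ ∉ W → n₁ * n₂ ∈ W) (g₁ g₂ h : G) :
    g₁ * g₂ ∈ cm W h ↔ (g₁ ∈ cm W h ↔ g₂ ∈ cm W h) := by
  by_cases h₁ : g₁ ∈ cm W h
  · rw [Subgroup.mul_mem_cancel_left _ h₁]
    tauto
  · by_cases h₂ : g₂ ∈ cm W h
    · rw [Subgroup.mul_mem_cancel_right _ h₂]
      tauto
    · have hh : g₁ * g₂ ∈ cm W h := by
        rw [mem_cm] at h₁ h₂ ⊢
        have e : g₁ * g₂ * h * (g₁ * g₂)⁻¹ * h⁻¹ =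
            (g₁ * (g₂ * h * g₂⁻¹ * h⁻¹) * g₁⁻¹ * (g₂ * h * g₂⁻¹ * h⁻¹)⁻¹) *
              ((g₂ * h * g₂⁻¹ * h⁻¹) * (g₁ * h * g₁⁻¹ * h⁻¹)) := by
          group
        rw [e]
        exact W.mul_mem (hNc _ _ (hcomm _ _)) (hN2 _ (hcomm _ _) _ (hcomm _ _) h₂ h₁)
      tauto

section card

variable [Finite G]

theorem comm_map (M : Subgroup G) : (commutator M).map M.subtype = ⁅M, M⁆ := by
  have h : (⊤ : Subgroup M).map M.subtype = M := by
    rw [← MonoidHom.range_eq_map, Subgroup.range_subtype]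
  rw [commutator_def, Subgroup.map_commutator, h]

theorem card_comm_map (M : Subgroup G) : Nat.card (commutator M) = Nat.card (⁅M, M⁆ : Subgroup G) := by
  rw [← comm_map, Subgroup.card_map_of_injective M.subtype_injective]

theorem idx_iff (M : Subgroup G) : (commutator M).index = 4 ↔ Nat.card M = 4 * Nat.card (⁅M, M⁆ : Subgroup G) := by
  have h := Subgroup.card_mul_index (commutator M)
  rw [card_comm_map] at h
  have hpos : 0 < Nat.card (⁅M, M⁆ : Subgroup G) := Nat.card_pos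
  constructor
  · intro h1
    rw [h1] at h
    rw [← h, mul_comm]
  · intro h1
    rw [h1, mul_comm 4] at h
    exact Nat.eq_of_mul_eq_mul_left hpos h

/-- The structure of a maximal subgroup with commutator quotient of order four. -/
theorem sub_pack (M₀ : Subgroup G) {n : ℕ} (hcM : Nat.card M₀ = 2 ^ n) (hn : 3 ≤ n) (hbad : BadG M₀) :
    ∃ (x y : G) (t : ℤ), x ∈ M₀ ∧ y ∈ M₀ ∧ orderOf x = 2 ^ (n - 1) ∧ y ∉ zpowers x ∧
      y * x * y⁻¹ = x ^ (4 * t + 3) ∧ x ^ (2 * (4 * t + 4)) = 1 ∧ (y ^ 2 = 1 ∨ y ^ 2 = x ^ (2 ^ (n - 2))) ∧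
      (∀ m ∈ M₀, (∃ i : ℤ, m = x ^ i) ∨ (∃ i : ℤ, m = x ^ i * y)) ∧ (⁅M₀, M₀⁆ : Subgroup G) = zpowers (x ^ 2) := by
  obtain ⟨a, b, t, ho, hi, hb, hconj, h2, hb2⟩ := bad_pack hcM hn hbad
  obtain ⟨k, hk⟩ : ∃ k, n - 1 = k := ⟨_, rfl⟩
  have hpw : a ^ (2 ^ (n - 1)) = 1 := by rw [← ho]; exact pow_orderOf_eq_one a
  refine ⟨a, b, t, a.2, b.2, ?_, ?_, ?_, ?_, ?_, ?_, ?_⟩
  · rw [Subgroup.orderOf_coe, ho]
  · rintro ⟨i, hi'⟩
    apply hb
    refine ⟨i, ?_⟩
    apply Subtype.ext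
    simpa using hi'
  · have := congrArg (Subtype.val) hconj
    simpa using this
  · have := congrArg (Subtype.val) h2
    simpa using this
  · rcases hb2 with h | h
    · left
      have := congrArg (Subtype.val) h
      simpa using this
    · right
      have := congrArg (Subtype.val) h
      simpa using this
  · intro m hm
    rcases coset_form hi hb ⟨m, hm⟩ with ⟨i, h⟩ | ⟨i, h⟩
    · left
      refine ⟨i, ?_⟩
      have := congrArg (Subtype.val) h
      simpa using this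
    · right
      refine ⟨i, ?_⟩
      have := congrArg (Subtype.val) h
      simpa using this
  · rw [← comm_map, di_comm hi hb hconj hpw, MonoidHom.map_zpowers]
    rfl

end card

/-- The squares-in-`N` claim. -/
theorem squares_in_N [Finite G] {n : ℕ} {M₀ : Subgroup G} (hM₀ : M₀.index = 2) (hc : Nat.card G = 2 ^ (n + 1)) (hn : 3 ≤ n)
    (hnc : ¬ IsCyclic G) (h0 : ∀ M : Subgroup G, M.index = 2 → ¬ IsCyclic M) {x y : G} {t : ℤ}
    (hxM : x ∈ M₀) (ho : orderOf x = 2 ^ (n - 1))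
    (hconj : y * x * y⁻¹ = x ^ (4 * t + 3)) (h2 : x ^ (2 * (4 * t + 4)) = 1)
    (hy2 : y ^ 2 = 1 ∨ y ^ 2 = x ^ (2 ^ (n - 2)))
    (hform : ∀ m ∈ M₀, (∃ i : ℤ, m = x ^ i) ∨ (∃ i : ℤ, m = x ^ i * y)) (g : G) :
    g ^ 2 ∈ zpowers (x ^ 2) := by
  obtain ⟨k, rfl⟩ : ∃ k, n = k + 3 := ⟨n - 3, by omega⟩
  have e1 : k + 3 - 1 = k + 2 := by omega
  have e2 : k + 3 - 2 = k + 1 := by omega
  rw [e1] at ho
  rw [e2] at hy2
  have hpw : x ^ (2 ^ (k + 2)) = 1 := by rw [← ho]; exact pow_orderOf_eq_one x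
  have hpwz : x ^ ((2 : ℤ) ^ (k + 2)) = 1 := by exact_mod_cast hpw
  -- no big cyclic subgroups
  have hbig : ∀ g : G, 2 ^ (k + 3) ≤ orderOf g → False := by
    intro g hg
    have h1 : orderOf g ∣ 2 ^ (k + 3 + 1) := by
      rw [← hc]
      exact orderOf_dvd_natCard g
    obtain ⟨j, hj, hj2⟩ := (Nat.dvd_prime_pow Nat.prime_two).1 h1
    rw [hj2] at hg
    have h3 : k + 3 ≤ j := (Nat.pow_le_pow_iff_right (by norm_num)).1 hg
    have h4 : j = k + 3 ∨ j = k + 3 + 1 := by omega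
    rcases h4 with rfl | rfl
    · apply h0 (zpowers g)
      · have h5 := Subgroup.card_mul_index (zpowers g)
        rw [Nat.card_zpowers, hj2, hc, pow_succ] at h5
        exact Nat.eq_of_mul_eq_mul_left (by positivity) h5
      · infer_instance
    · apply hnc
      exact isCyclic_of_orderOf_eq_card g (by rw [hj2, hc])
  have hsq : ∀ i : ℤ, (x ^ i * y) ^ 2 = x ^ (i * (4 * t + 4)) * y ^ 2 := by
    intro i
    have e : (x ^ i * y) ^ 2 = x ^ i * (y * x ^ i * y⁻¹) * y ^ 2 := by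
      rw [pow_two, pow_two]
      group
    rw [e, conj_zpow_eq hconj, ← zpow_add]
    congr 2
    ring
  have hyN : y ^ 2 ∈ zpowers (x ^ 2) := by
    rcases hy2 with h | h
    · rw [h]
      exact one_mem _
    · have e : x ^ (2 ^ (k + 1)) = (x ^ 2) ^ (2 ^ k) := by rw [← pow_mul, pow_succ']
      rw [h, e]
      exact npow_mem_zpowers _ _
  have hzN : ∀ e : ℤ, Even e → x ^ e ∈ zpowers (x ^ 2) := by
    rintro e ⟨f, rfl⟩
    refine ⟨f, ?_⟩
    show (x ^ 2) ^ f = _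
    rw [← zpow_natCast x 2, ← zpow_mul]
    congr 1
    push_cast
    ring
  have hevmul : ∀ i : ℤ, Even (i * (4 * t + 4)) := by
    intro i
    exact Even.mul_left ⟨2 * t + 2, by ring⟩ i
  by_cases hg : g ∈ M₀
  · rcases hform g hg with ⟨i, rfl⟩ | ⟨i, rfl⟩
    · rw [← zpow_natCast (x ^ i) 2, ← zpow_mul]
      apply hzN
      exact Even.mul_left (by norm_num) i
    · rw [hsq]
      exact mul_mem (hzN _ (hevmul i)) hyN
  by_contra hu
  have hgM : g ^ 2 ∈ M₀ := Subgroup.sq_mem_of_index_two hM₀ g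
  rcases hform _ hgM with ⟨i, hi⟩ | ⟨i, hi⟩
  · have hodd : Odd i := by
      by_contra hev
      rw [Int.not_odd_iff_even] at hev
      apply hu
      rw [hi]
      exact hzN _ hev
    have h1 : x ∈ zpowers g := by
      have h3 := zpow_odd_gen hpw hodd
      rw [← hi] at h3
      have h4 : zpowers (g ^ 2) ≤ zpowers g := zpowers_le.2 (npow_mem_zpowers g 2)
      exact h4 h3
    have hp : IsPGroup 2 G := IsPGroup.of_card hc
    have hne : zpowers x ≠ zpowers g := by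
      intro h
      apply hg
      have h3 : g ∈ zpowers x := by
        rw [h]
        exact mem_zpowers g
      exact (zpowers_le.2 hxM) h3
    have h5 := Cfsg.Agent.Lib.ClassSizes.KulSylow.le_pow_card (p := 2) (hp.to_subgroup (zpowers g))
      (zpowers_le.2 h1) hne
    rw [Nat.card_zpowers, Nat.card_zpowers, ho] at h5
    apply hbig g
    calc 2 ^ (k + 3) = 2 * 2 ^ (k + 2) := by rw [pow_succ']
      _ ≤ _ := h5
  · -- `g²` lies outside `⟨x⟩`
    have hconjM : g * x * g⁻¹ ∈ M₀ := by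
      haveI := Subgroup.normal_of_index_eq_two hM₀
      exact Subgroup.Normal.conj_mem inferInstance x hxM g
    rcases hform _ hconjM with ⟨s, hs⟩ | ⟨j, hj⟩
    · exfalso
      have h3 : (g ^ 2) * x * (g ^ 2)⁻¹ = x ^ (s * s) := by
        have e : (g ^ 2) * x * (g ^ 2)⁻¹ = g * (g * x * g⁻¹) * g⁻¹ := by
          rw [pow_two]
          group
        rw [e, hs, conj_zpow_eq hs]
      have h4 : (g ^ 2) * x * (g ^ 2)⁻¹ = x ^ (4 * t + 3) := by
        have e : (x ^ i * y) * x * (x ^ i * y)⁻¹ = x ^ i * (y * x * y⁻¹) * x ^ (-i) := by group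
        rw [hi, e, hconj, ← zpow_add, ← zpow_add]
        congr 1
        ring
      have h5 : x ^ (s * s) = x ^ (4 * t + 3) := h3.symm.trans h4
      rw [zpow_eq_zpow_iff_modEq, ho] at h5
      have h6 : (4 : ℤ) ∣ (4 * t + 3) - s * s := by
        have h7 := h5.dvd
        refine Dvd.dvd.trans ?_ h7
        push_cast
        exact ⟨2 ^ k, by ring⟩
      rcases Int.even_or_odd' s with ⟨f, rfl | rfl⟩
      · have e : 4 * t + 3 - 2 * f * (2 * f) = 4 * (t - f * f) + 3 := by ring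
        rw [e] at h6
        omega
      · have e : 4 * t + 3 - (2 * f + 1) * (2 * f + 1) = 4 * (t - f * f - f) + 2 := by ring
        rw [e] at h6
        omega
    · -- the conjugate of `x` lies outside `⟨x⟩`
      have hc2 : (g * x * g⁻¹) ^ 2 = g * x ^ 2 * g⁻¹ := by
        rw [pow_two, pow_two]
        group
      have hc4 : (g * x * g⁻¹) ^ 4 = g * x ^ 4 * g⁻¹ := by
        rw [← conj_pow]
      have hyy : ∃ e : ℤ, y ^ 2 = x ^ e ∧ x ^ (2 * e) = 1 := by
        rcases hy2 with h | h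
        · exact ⟨0, by rw [h, zpow_zero], by simp⟩
        · refine ⟨2 ^ (k + 1), by rw [h]; exact_mod_cast rfl, ?_⟩
          rw [← pow_succ', hpwz]
      obtain ⟨e, he, he2⟩ := hyy
      have h4c : (g * x * g⁻¹) ^ 4 = 1 := by
        rw [hj]
        have e3 : (x ^ j * y) ^ 4 = ((x ^ j * y) ^ 2) ^ 2 := by
          rw [← pow_mul]
        rw [e3, hsq, he, ← zpow_add, ← zpow_natCast (x ^ _) 2, ← zpow_mul]
        have e4 : (j * (4 * t + 4) + e) * ((2 : ℕ) : ℤ) = j * (2 * (4 * t + 4)) + 2 * e := by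
          push_cast
          ring
        rw [e4, zpow_add, he2, mul_one, mul_comm j, zpow_mul, h2, one_zpow]
      have hx4 : x ^ 4 = 1 := by
        rw [hc4] at h4c
        have h5 : x ^ 4 = g⁻¹ * (g * x ^ 4 * g⁻¹) * g := by group
        rw [h5, h4c]
        group
      have hk0 : k = 0 := by
        have h6 : orderOf x ∣ 4 := orderOf_dvd_of_pow_eq_one hx4
        rw [ho] at h6
        have h7 := Nat.le_of_dvd (by norm_num) h6
        by_contra hne
        have h8 : 2 ^ 3 ≤ 2 ^ (k + 2) := Nat.pow_le_pow_right (by norm_num) (by omega)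
        omega
      subst hk0
      have hx4z : x ^ (4 * t + 4) = 1 := by
        have e5 : 4 * t + 4 = 4 * (t + 1) := by ring
        rw [e5, zpow_mul]
        have : x ^ (4 : ℤ) = 1 := by exact_mod_cast hx4
        rw [this, one_zpow]
      have hsq2 : ∀ i : ℤ, (x ^ i * y) ^ 2 = y ^ 2 := by
        intro i
        rw [hsq, mul_comm, zpow_mul, hx4z, one_zpow, one_mul]
      have hx2 : x ^ 2 ≠ 1 := by
        intro h
        have h6 : orderOf x ∣ 2 := orderOf_dvd_of_pow_eq_one h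
        rw [ho] at h6
        have := Nat.le_of_dvd (by norm_num) h6
        norm_num at this
      have hy21 : y ^ 2 ≠ 1 := by
        intro h
        apply hx2
        have h5 : (g * x * g⁻¹) ^ 2 = 1 := by
          rw [hj, hsq2, h]
        rw [hc2] at h5
        have h6 : x ^ 2 = g⁻¹ * (g * x ^ 2 * g⁻¹) * g := by group
        rw [h6, h5]
        group
      have hy4 : y ^ 4 = 1 := by
        rcases hy2 with h | h
        · exact absurd h hy21
        · have e6 : y ^ 4 = (y ^ 2) ^ 2 := by rw [← pow_mul]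
          rw [e6, h, ← pow_mul]
          exact hx4
      have hg4 : g ^ 4 = y ^ 2 := by
        have e6 : g ^ 4 = (g ^ 2) ^ 2 := by rw [← pow_mul]
        rw [e6, hi, hsq2]
      have hg8 : g ^ 8 = 1 := by
        have e6 : g ^ 8 = (g ^ 4) ^ 2 := by rw [← pow_mul]
        rw [e6, hg4, ← pow_mul]
        exact hy4
      have hog : orderOf g = 2 ^ 3 := by
        apply orderOf_eq_prime_pow (p := 2) (n := 2)
        · show ¬ g ^ 4 = 1
          rw [hg4]
          exact hy21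
        · exact hg8
      apply hbig g
      rw [hog]

end Cfsg.Agent.Lib.GS1.Miller
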