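import Mathlib
import Cfsg.Agent.Lib.GS1.Miller3

/-! Miller's theorem, fourth part: in a `2`-group without cyclic maximal subgroups, the number of
maximal subgroups with commutator quotient of order four is even. -/

set_option autoImplicit false

namespace Cfsg.Agent.Lib.GS1.Miller

open Subgroup

universe u

variable {G : Type u} [Group G]

/-- The third maximal subgroup containing the intersection of two maximal subgroups. -/
def third (M T : Subgroup G) (hM : M.index = 2) (hT : T.index = 2) : Subgroup G where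
  carrier := {g | g ∈ M ↔ g ∈ T}
  one_mem' := by
    show 1 ∈ M ↔ 1 ∈ T
    simp [one_mem]
  mul_mem' := fun {a b} ha hb => by
    show a * b ∈ M ↔ a * b ∈ T
    rw [Subgroup.mul_mem_iff_of_index_two hM, Subgroup.mul_mem_iff_of_index_two hT]
    have ha' : a ∈ M ↔ a ∈ T := ha
    have hb' : b ∈ M ↔ b ∈ T := hb
    tauto
  inv_mem' := fun {a} ha => by
    show a⁻¹ ∈ M ↔ a⁻¹ ∈ T
    rw [Subgroup.inv_mem_iff, Subgroup.inv_mem_iff]
    exact ha

theorem mem_third {M T : Subgroup G} {hM : M.index = 2} {hT : T.index = 2} {g : G} :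
    g ∈ third M T hM hT ↔ (g ∈ M ↔ g ∈ T) := Iff.rfl

theorem third_index {M T : Subgroup G} {hM : M.index = 2} {hT : T.index = 2} {r : G} (h1 : r ∉ M) (h2 : r ∈ T) :
    (third M T hM hT).index = 2 := by
  rw [Subgroup.index_eq_two_iff_exists_notMem_and]
  refine ⟨r, ?_, fun b => ?_⟩
  · rw [mem_third]
    tauto
  · rw [mem_third, mem_third, Subgroup.mul_mem_iff_of_index_two hM, Subgroup.mul_mem_iff_of_index_two hT]
    by_cases h3 : b ∈ M <;> by_cases h4 : b ∈ T <;> simp [*]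

open scoped Classical in
theorem even_not_mem [Finite G] {n : ℕ} (hc : Nat.card G = 2 ^ n) (hnc : ¬ IsCyclic G) (r : G) :
    haveI : Fact (Nat.Prime 2) := ⟨Nat.prime_two⟩
    Even ((Mx G 2).filter (fun M => r ∉ M)).card := by
  haveI : Fact (Nat.Prime 2) := ⟨Nat.prime_two⟩
  have hp : IsPGroup 2 G := IsPGroup.of_card hc
  have hU : zpowers r ≠ ⊤ := by
    intro h
    apply hnc
    exact ⟨⟨r, fun y => by
      have : y ∈ zpowers r := by rw [h]; trivial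
      exact this⟩⟩
  obtain ⟨T, hrT, hT⟩ := Cfsg.Agent.Lib.ClassSizes.Kulakoff.exists_index_p hp hU
  have hr : r ∈ T := hrT (mem_zpowers r)
  have hTne : ∃ g, g ∉ T := by
    by_contra hcon
    push Not at hcon
    have : T = ⊤ := (Subgroup.eq_top_iff' _).2 hcon
    rw [this, Subgroup.index_top] at hT
    omega
  have hindex : ∀ M, M ∈ (Mx G 2).filter (fun M => r ∉ M) → M.index = 2 := fun M hM =>
    mem_Mx.1 (Finset.mem_filter.1 hM).1
  have key : ∑ M ∈ (Mx G 2).filter (fun M => r ∉ M), (1 : ZMod 2) = 0 := by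
    refine Finset.sum_involution (fun M hM => third M T (hindex M hM) hT) ?_ ?_ ?_ ?_
    · intro M hM
      exact CharTwo.add_self_eq_zero (1 : ZMod 2)
    · intro M hM _ h
      obtain ⟨g, hg⟩ := hTne
      have h1 : g ∈ third M T (hindex M hM) hT ↔ g ∈ M := by rw [h]
      rw [mem_third] at h1
      tauto
    · intro M hM
      have hrM : r ∉ M := (Finset.mem_filter.1 hM).2
      rw [Finset.mem_filter]
      refine ⟨mem_Mx.2 (third_index hrM hr), ?_⟩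
      rw [mem_third]
      tauto
    · intro M hM
      ext g
      simp only [mem_third]
      tauto
  rw [Finset.sum_const, nsmul_eq_mul, mul_one] at key
  exact (ZMod.natCast_eq_zero_iff_even).1 key

theorem bad_of_not_mem [Finite G] {N W : Subgroup G} [W.Normal] {x y r : G} {M : Subgroup G} (hM : M.index = 2)
    (hcomm : ∀ g h : G, g * h * g⁻¹ * h⁻¹ ∈ N)
    (hNc : ∀ g : G, ∀ n ∈ N, g * n * g⁻¹ * n⁻¹ ∈ W)
    (hN2 : ∀ n₁ ∈ N, ∀ n₂ ∈ N, n₁ ∉ W → n₂ ∉ W → n₁ * n₂ ∈ W)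
    (hr0 : ∀ h, r ∈ cm W h) (hxy : x ∉ cm W y) (hgen : ∀ n ∈ N, n ∉ W → N ≤ zpowers n)
    (hcardM : Nat.card M = 4 * Nat.card N) (hN1 : 1 < Nat.card N) (hr : r ∉ M) : BadG M := by
  have adjust : ∀ v : G, ∃ v' ∈ M, ∀ h, (v' ∈ cm W h ↔ v ∈ cm W h) := by
    intro v
    by_cases hv : v ∈ M
    · exact ⟨v, hv, fun _ => Iff.rfl⟩
    · refine ⟨v * r, ?_, fun h => ?_⟩
      · rw [Subgroup.mul_mem_iff_of_index_two hM]
        tauto
      · rw [cm_xor hcomm hNc hN2]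
        have := hr0 h
        tauto
  obtain ⟨x', hx'M, hx'⟩ := adjust x
  obtain ⟨y', hy'M, hy'⟩ := adjust y
  have hne : x' ∉ cm W y' := by
    rw [hx', cm_symm, hy', cm_symm]
    exact hxy
  have hmemN : x' * y' * x'⁻¹ * y'⁻¹ ∈ N := hcomm _ _
  have hgenN := hgen _ hmemN hne
  have hcommM : (⁅M, M⁆ : Subgroup G) = N := by
    apply le_antisymm
    · rw [Subgroup.commutator_le]
      intro a _ b _
      rw [commutatorElement_def]
      exact hcomm a b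
    · refine hgenN.trans (zpowers_le.2 ?_)
      rw [← commutatorElement_def]
      exact Subgroup.commutator_mem_commutator hx'M hy'M
  refine ⟨?_, (idx_iff M).2 (by rw [hcommM]; exact hcardM)⟩
  intro hcyc
  have h1 := commutator_le_bot_of_comm (comm_of_cyclic hcyc)
  have h2 := card_comm_map M
  rw [h1, hcommM, Subgroup.card_bot] at h2
  omega

theorem not_bad_of_mem [Finite G] {N W : Subgroup G} [W.Normal] {r : G} {M : Subgroup G}
    (hcomm : ∀ g h : G, g * h * g⁻¹ * h⁻¹ ∈ N)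
    (hNc : ∀ g : G, ∀ n ∈ N, g * n * g⁻¹ * n⁻¹ ∈ W)
    (hr0 : ∀ h, r ∈ cm W h) (hp : IsPGroup 2 G) (hr : r ∈ M) (hNM : N ≤ M) (hrN : r ∉ N)
    (hcM : Nat.card M = 4 * Nat.card N) (hW : 2 * Nat.card W ≤ Nat.card N) : ¬ BadG M := by
  haveI : Fact (Nat.Prime 2) := ⟨Nat.prime_two⟩
  rintro ⟨-, hidx⟩
  rw [idx_iff] at hidx
  have hTM : N ⊔ zpowers r ≤ M := sup_le hNM (zpowers_le.2 hr)
  have hTcm : ∀ h, N ⊔ zpowers r ≤ cm W h := by
    intro h
    refine sup_le ?_ (zpowers_le.2 (hr0 h))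
    intro n hn
    rw [cm_symm]
    exact hNc h n hn
  have hTcard : 2 * Nat.card N ≤ Nat.card (N ⊔ zpowers r : Subgroup G) := by
    apply Cfsg.Agent.Lib.ClassSizes.KulSylow.le_pow_card (p := 2) (hp.to_subgroup _) le_sup_left
    intro h
    apply hrN
    rw [h]
    exact mem_sup_right (mem_zpowers r)
  have key : ∀ m ∈ M, M ≤ cm W m := by
    intro m hm g hg
    by_cases hmT : m ∈ N ⊔ zpowers r
    · rw [cm_symm]
      exact hTcm g hmT
    · have hL : N ⊔ zpowers r ≤ M ⊓ cm W m := le_inf hTM (hTcm m)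
      have hne : N ⊔ zpowers r ≠ M ⊓ cm W m := by
        intro h
        apply hmT
        rw [h]
        exact ⟨hm, cm_self m⟩
      have h2 := Cfsg.Agent.Lib.ClassSizes.KulSylow.le_pow_card (p := 2) (hp.to_subgroup _) hL hne
      have hLM : M ⊓ cm W m = M := by
        apply Subgroup.eq_of_le_of_card_ge inf_le_left
        omega
      have h3 : g ∈ M ⊓ cm W m := by
        rw [hLM]
        exact hg
      exact h3.2
  have hle : (⁅M, M⁆ : Subgroup G) ≤ W := by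
    rw [Subgroup.commutator_le]
    intro g₁ h₁ g₂ h₂
    rw [commutatorElement_def]
    exact key g₂ h₂ h₁
  have h4 := Subgroup.card_le_of_le hle
  have h5 : 0 < Nat.card W := Nat.card_pos
  omega

theorem W_normal {x : G} (hN : (zpowers (x ^ 2)).Normal) : (zpowers (x ^ 4)).Normal := by
  constructor
  rintro _ ⟨i, rfl⟩ g
  obtain ⟨e, he⟩ := hN.conj_mem (x ^ 2) (mem_zpowers _) g
  have he' : g * x ^ 2 * g⁻¹ = (x ^ 2) ^ e := he.symm
  have e1 : g * x ^ 4 * g⁻¹ = (x ^ 4) ^ e := by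
    have e2 : g * x ^ 4 * g⁻¹ = (g * x ^ 2 * g⁻¹) ^ 2 := by
      rw [conj_pow, ← pow_mul]
    rw [e2, he', ← zpow_natCast, ← zpow_mul, ← zpow_natCast x 2, ← zpow_mul, ← zpow_natCast x 4, ← zpow_mul]
    congr 1
    push_cast
    ring
  refine ⟨e * i, ?_⟩
  show (x ^ 4) ^ (e * i) = g * (x ^ 4) ^ i * g⁻¹
  exact (conj_zpow_eq e1 i).symm

theorem exists_radical [Finite G] {n : ℕ} (hc : Nat.card G = 2 ^ (n + 1)) (hn : 3 ≤ n) (hnc : ¬ IsCyclic G)
    (h0 : ∀ M : Subgroup G, M.index = 2 → ¬ IsCyclic M) {M₀ : Subgroup G} (hM₀ : M₀.index = 2) (hbad : BadG M₀) :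
    ∃ r : G, ∀ M : Subgroup G, M.index = 2 → (BadG M ↔ r ∉ M) := by
  have hp : IsPGroup 2 G := IsPGroup.of_card hc
  have hMc : ∀ M : Subgroup G, M.index = 2 → Nat.card M = 2 ^ n := by
    intro M hM
    have h := Subgroup.card_mul_index M
    rw [hM, hc, pow_succ] at h
    exact Nat.eq_of_mul_eq_mul_right (by norm_num) h
  obtain ⟨x, y, t, hxM, hyM, ho, hyx, hconj, h2, hy2, hform, hNeq⟩ := sub_pack M₀ (hMc M₀ hM₀) hn hbad
  have hsq := squares_in_N hM₀ hc hn hnc h0 hxM ho hconj h2 hy2 hform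
  obtain ⟨k, rfl⟩ : ∃ k, n = k + 3 := ⟨n - 3, by omega⟩
  have e1 : k + 3 - 1 = k + 2 := by omega
  rw [e1] at ho
  haveI hM₀n : M₀.Normal := Subgroup.normal_of_index_eq_two hM₀
  haveI hNn : (zpowers (x ^ 2)).Normal := by
    rw [← hNeq]
    infer_instance
  haveI hWn : (zpowers (x ^ 4)).Normal := W_normal hNn
  have hpw : x ^ (2 ^ (k + 2)) = 1 := by rw [← ho]; exact pow_orderOf_eq_one x
  have ho2 : orderOf (x ^ 2) = 2 ^ (k + 1) := order_sq ho
  have ho4 : orderOf (x ^ 4) = 2 ^ k := by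
    have : x ^ 4 = (x ^ 2) ^ 2 := by rw [← pow_mul]
    rw [this]
    exact order_sq ho2
  have hpw2 : (x ^ 2) ^ (2 ^ (k + 1)) = 1 := by rw [← ho2]; exact pow_orderOf_eq_one _
  have e24 : ∀ f : ℤ, (x ^ 2) ^ (2 * f) = (x ^ 4) ^ f := by
    intro f
    rw [zpow_mul]
    have : (x ^ 2) ^ (2 : ℤ) = x ^ 4 := by
      rw [zpow_ofNat, ← pow_mul]
    rw [this]
  have hx2W : x ^ 2 ∉ zpowers (x ^ 4) := by
    rintro ⟨f, hf⟩
    have hf' : (x ^ 4) ^ f = x ^ 2 := hf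
    have h3 : x ^ (4 * f) = x ^ (2 : ℤ) := by
      rw [zpow_mul, zpow_ofNat, hf', zpow_ofNat]
    rw [zpow_eq_zpow_iff_modEq, ho] at h3
    have h4 := h3.dvd
    have h5 : (4 : ℤ) ∣ 2 - 4 * f := by
      refine Dvd.dvd.trans ?_ h4
      push_cast
      exact ⟨2 ^ k, by ring⟩
    omega
  have hoddN : ∀ i : ℤ, (x ^ 2) ^ i ∉ zpowers (x ^ 4) → Odd i := by
    intro i hi
    by_contra hev
    rw [Int.not_odd_iff_even] at hev
    obtain ⟨f, rfl⟩ := hev
    apply hi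
    rw [← two_mul, e24]
    exact zpow_mem_zpowers _ _
  -- the commutators
  have hcomm : ∀ g h : G, g * h * g⁻¹ * h⁻¹ ∈ zpowers (x ^ 2) := by
    intro g h
    have e : g * h * g⁻¹ * h⁻¹ = (g * h) ^ 2 * (h⁻¹ * (g ^ 2)⁻¹ * h⁻¹⁻¹) * (h ^ 2)⁻¹ := by
      rw [pow_two, pow_two, pow_two]
      group
    rw [e]
    exact mul_mem (mul_mem (hsq _) (hNn.conj_mem _ (inv_mem (hsq g)) _)) (inv_mem (hsq h))
  have hNc : ∀ g : G, ∀ n ∈ zpowers (x ^ 2), g * n * g⁻¹ * n⁻¹ ∈ zpowers (x ^ 4) := by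
    rintro g _ ⟨i, rfl⟩
    obtain ⟨e, he⟩ := hNn.conj_mem (x ^ 2) (mem_zpowers _) g
    have he' : g * x ^ 2 * g⁻¹ = (x ^ 2) ^ e := he.symm
    have hodd : Odd e := by
      apply hoddN
      rw [← he']
      intro h3
      apply hx2W
      have h4 := hWn.conj_mem _ h3 g⁻¹
      have e5 : g⁻¹ * (g * x ^ 2 * g⁻¹) * g⁻¹⁻¹ = x ^ 2 := by group
      rwa [e5] at h4
    obtain ⟨f, rfl⟩ := hodd
    show g * (x ^ 2) ^ i * g⁻¹ * ((x ^ 2) ^ i)⁻¹ ∈ _
    rw [conj_zpow_eq he']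
    have e6 : (x ^ 2) ^ ((2 * f + 1) * i) * ((x ^ 2) ^ i)⁻¹ = (x ^ 2) ^ (2 * (f * i)) := by
      rw [← zpow_neg, ← zpow_add]
      congr 1
      ring
    rw [e6, e24]
    exact zpow_mem_zpowers _ _
  have hN2 : ∀ n₁ ∈ zpowers (x ^ 2), ∀ n₂ ∈ zpowers (x ^ 2), n₁ ∉ zpowers (x ^ 4) → n₂ ∉ zpowers (x ^ 4) →
      n₁ * n₂ ∈ zpowers (x ^ 4) := by
    rintro _ ⟨i, rfl⟩ _ ⟨j, rfl⟩ h3 h4
    obtain ⟨f, rfl⟩ := hoddN i h3
    obtain ⟨g, rfl⟩ := hoddN j h4
    show (x ^ 2) ^ (2 * f + 1) * (x ^ 2) ^ (2 * g + 1) ∈ _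
    rw [← zpow_add]
    have e7 : 2 * f + 1 + (2 * g + 1) = 2 * (f + g + 1) := by ring
    rw [e7, e24]
    exact zpow_mem_zpowers _ _
  have hgen : ∀ n ∈ zpowers (x ^ 2), n ∉ zpowers (x ^ 4) → zpowers (x ^ 2) ≤ zpowers n := by
    rintro _ ⟨i, rfl⟩ h3
    rw [zpowers_le]
    exact zpow_odd_gen hpw2 (hoddN i h3)
  have hxy : x ∉ cm (zpowers (x ^ 4)) y := by
    rw [mem_cm]
    intro h3
    have e8 : x * y * x⁻¹ * y⁻¹ = (x ^ 2) ^ (-(2 * t + 1)) := by
      have e9 : x * y * x⁻¹ * y⁻¹ = x * (y * x * y⁻¹)⁻¹ := by group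
      rw [e9, hconj, ← zpow_natCast x 2, ← zpow_mul, ← zpow_neg, ← zpow_one_add]
      congr 1
      push_cast
      ring
    rw [e8] at h3
    have h4 := hoddN _ (by
      intro h5
      exact hx2W ((zpowers_le.2 h5) (zpow_odd_gen hpw2 (w := -(2 * t + 1)) ⟨-t - 1, by ring⟩)))
    apply hx2W
    exact (zpowers_le.2 h3) (zpow_odd_gen hpw2 (w := -(2 * t + 1)) ⟨-t - 1, by ring⟩)
  have hxor := cm_xor hcomm hNc hN2
  obtain ⟨g, hg⟩ : ∃ g, g ∉ M₀ := by
    by_contra hcon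
    push Not at hcon
    have : M₀ = ⊤ := (Subgroup.eq_top_iff' _).2 hcon
    rw [this, Subgroup.index_top] at hM₀
    omega
  obtain ⟨g₁, hg₁, hg₁x⟩ : ∃ g₁, g₁ ∉ M₀ ∧ g₁ ∈ cm (zpowers (x ^ 4)) x := by
    by_cases h : g ∈ cm (zpowers (x ^ 4)) x
    · exact ⟨g, hg, h⟩
    · refine ⟨g * y, ?_, ?_⟩
      · rw [Subgroup.mul_mem_cancel_right _ hyM]
        exact hg
      · rw [hxor]
        have h3 : y ∉ cm (zpowers (x ^ 4)) x := by
          rw [cm_symm]
          exact hxy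
        tauto
  obtain ⟨r, hr, hrx, hry⟩ : ∃ r, r ∉ M₀ ∧ r ∈ cm (zpowers (x ^ 4)) x ∧ r ∈ cm (zpowers (x ^ 4)) y := by
    by_cases h : g₁ ∈ cm (zpowers (x ^ 4)) y
    · exact ⟨g₁, hg₁, hg₁x, h⟩
    · refine ⟨g₁ * x, ?_, ?_, ?_⟩
      · rw [Subgroup.mul_mem_cancel_right _ hxM]
        exact hg₁
      · rw [hxor]
        have := cm_self (W := zpowers (x ^ 4)) x
        tauto
      · rw [hxor]
        tauto
  have hr0 : ∀ h, r ∈ cm (zpowers (x ^ 4)) h := by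
    intro h
    rw [cm_symm]
    have hx : x ∈ cm (zpowers (x ^ 4)) r := cm_symm.1 hrx
    have hy : y ∈ cm (zpowers (x ^ 4)) r := cm_symm.1 hry
    have hM : ∀ m ∈ M₀, m ∈ cm (zpowers (x ^ 4)) r := by
      intro m hm
      rcases hform m hm with ⟨i, rfl⟩ | ⟨i, rfl⟩
      · exact Subgroup.zpow_mem _ hx i
      · exact mul_mem (Subgroup.zpow_mem _ hx i) hy
    by_cases hh : h ∈ M₀
    · exact hM h hh
    · have h3 : h * r⁻¹ ∈ M₀ := by
        rw [Subgroup.mul_mem_iff_of_index_two hM₀, Subgroup.inv_mem_iff]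
        tauto
      have e : h = (h * r⁻¹) * r := by group
      rw [e]
      exact mul_mem (hM _ h3) (cm_self r)
  have hNc' : Nat.card (zpowers (x ^ 2)) = 2 ^ (k + 1) := by rw [Nat.card_zpowers, ho2]
  have hWc' : Nat.card (zpowers (x ^ 4)) = 2 ^ k := by rw [Nat.card_zpowers, ho4]
  refine ⟨r, fun M hM => ⟨fun hB hrM => ?_, fun hrM => ?_⟩⟩
  · refine not_bad_of_mem hcomm hNc hr0 hp hrM (zpowers_le.2 (Subgroup.sq_mem_of_index_two hM x)) ?_ ?_ ?_ hB
    · intro h3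
      apply hr
      exact (zpowers_le.2 (Subgroup.sq_mem_of_index_two hM₀ x)) h3
    · rw [hMc M hM, hNc']
      ring
    · rw [hNc', hWc']
      rw [pow_succ']
  · refine bad_of_not_mem hM hcomm hNc hN2 hr0 hxy hgen ?_ ?_ hrM
    · rw [hMc M hM, hNc']
      ring
    · rw [hNc']
      exact Nat.one_lt_two_pow (by omega)

end Cfsg.Agent.Lib.GS1.Miller
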