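import Mathlib
import Cfsg.Agent.Lib.GS1.Miller4

/-! Miller's theorem, fifth part: the induction. -/

set_option autoImplicit false

namespace Cfsg.Agent.Lib.GS1.Miller

open Subgroup

universe u

section parity

variable {G : Type u} [Group G] [Finite G]

open scoped Classical in
theorem card_filter_three {A B C : Subgroup G} {s : Finset (Subgroup G)} (χ : Subgroup G → Prop)
    [DecidablePred χ] (hset : s = {A, B, C}) (hAB : A ≠ B) (hAC : A ≠ C) (hBC : B ≠ C) :
    (s.filter χ).card = (if χ A then 1 else 0) + (if χ B then 1 else 0) + (if χ C then 1 else 0) := by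
  rw [hset, Finset.card_filter, Finset.sum_insert (by simp [hAB, hAC]), Finset.sum_insert (by simp [hBC]),
    Finset.sum_singleton, add_assoc]

open scoped Classical in
theorem P_bad {n : ℕ} (hc : Nat.card G = 2 ^ (n + 1)) (hn : 2 ≤ n) (hbad : BadG G) :
    haveI : Fact (Nat.Prime 2) := ⟨Nat.prime_two⟩
    Odd ((Mx G 2).filter (fun M : Subgroup G => IsCyclic M)).card ∧
      (3 ≤ n → Odd ((Mx G 2).filter (fun M : Subgroup G => IsCyclic M ∨ BadG M)).card) := by
  haveI : Fact (Nat.Prime 2) := ⟨Nat.prime_two⟩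
  obtain ⟨a, b, t, ho, hi, hb, hconj, h2, hb2⟩ := bad_pack hc (by omega) hbad
  have e1 : n + 1 - 1 = n := by omega
  have e2 : n + 1 - 2 = n - 1 := by omega
  rw [e1] at ho
  rw [e2] at hb2
  obtain ⟨hset, hAB, hAC, hBC⟩ := three_max hc (by omega) hbad.1 hi hb
  set B := zpowers (a ^ 2) ⊔ zpowers b with hB
  set C := zpowers (a ^ 2) ⊔ zpowers (a * b) with hC
  have hBmem : B ∈ Mx G 2 := by rw [hset]; simp
  have hCmem : C ∈ Mx G 2 := by rw [hset]; simp
  have hBi : B.index = 2 := mem_Mx.1 hBmem
  have hCi : C.index = 2 := mem_Mx.1 hCmem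
  have hMc : ∀ M : Subgroup G, M.index = 2 → Nat.card M = 2 ^ n := by
    intro M hM
    have h := Subgroup.card_mul_index M
    rw [hM, hc, pow_succ] at h
    exact Nat.eq_of_mul_eq_mul_right (by norm_num) h
  have hAcyc : IsCyclic (zpowers a) := inferInstance
  have hbK : b ∉ zpowers (a ^ 2) := fun h => hb ((zpowers_le.2 (npow_mem_zpowers a 2)) h)
  have habA : a * b ∉ zpowers a := by
    intro h
    apply hb
    have h3 : b = a⁻¹ * (a * b) := by group
    rw [h3]
    exact mul_mem (inv_mem (mem_zpowers a)) h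
  have habK : a * b ∉ zpowers (a ^ 2) := fun h => habA ((zpowers_le.2 (npow_mem_zpowers a 2)) h)
  have hS := card_filter_three (s := Mx G 2) (fun M : Subgroup G => IsCyclic M) hset hAB hAC hBC
  have hS2 := card_filter_three (s := Mx G 2) (fun M : Subgroup G => IsCyclic M ∨ BadG M) hset hAB hAC hBC
  by_cases hn3 : 3 ≤ n
  · obtain ⟨k, rfl⟩ : ∃ k, n = k + 3 := ⟨n - 3, by omega⟩
    have ho2 : orderOf (a ^ 2) = 2 ^ (k + 2) := order_sq ho
    have hconj2 : b * a ^ 2 * b⁻¹ = (a ^ 2) ^ (4 * t + 3) := by
      have h3 := conj_zpow_eq hconj 2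
      rw [zpow_ofNat] at h3
      rw [h3, ← zpow_natCast a 2, ← zpow_mul]
      congr 1
      push_cast
      ring
    have hconj3 : (a * b) * a ^ 2 * (a * b)⁻¹ = (a ^ 2) ^ (4 * t + 3) := by
      have e : (a * b) * a ^ 2 * (a * b)⁻¹ = a * (b * a ^ 2 * b⁻¹) * a⁻¹ := by group
      rw [e, hconj2, ← zpow_natCast a 2, ← zpow_mul, ← zpow_one_add, ← zpow_sub_one]
      congr 1
      ring
    have hBbad : BadG B := sub_bad B (u := a ^ 2) (v := b) (t := t) (k := k) (mem_sup_left (mem_zpowers _))
      (mem_sup_right (mem_zpowers _)) (by rw [hMc B hBi, ho2]; ring) hbK hconj2 ho2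
    have hCbad : BadG C := sub_bad C (u := a ^ 2) (v := a * b) (t := t) (k := k) (mem_sup_left (mem_zpowers _))
      (mem_sup_right (mem_zpowers _)) (by rw [hMc C hCi, ho2]; ring) habK hconj3 ho2
    constructor
    · rw [hS]
      simp only [hAcyc, hBbad.1, hCbad.1, if_true, if_false]
      decide
    · intro _
      rw [hS2]
      have h1 : (IsCyclic (zpowers a) ∨ BadG (zpowers a)) := Or.inl hAcyc
      have h3 : (IsCyclic B ∨ BadG B) := Or.inr hBbad
      have h4 : (IsCyclic C ∨ BadG C) := Or.inr hCbad
      simp only [h1, h3, h4, if_true]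
      decide
  · refine ⟨?_, fun h => absurd h hn3⟩
    obtain rfl : n = 2 := by omega
    have hapw : a ^ 4 = 1 := by
      have : a ^ (2 ^ 2) = 1 := by rw [← ho]; exact pow_orderOf_eq_one a
      exact this
    have hab2 : (a * b) ^ 2 = b ^ 2 := by
      have e : (a * b) ^ 2 = a * (b * a * b⁻¹) * b ^ 2 := by
        rw [pow_two, pow_two]
        group
      rw [e, hconj, ← zpow_one_add]
      have e3 : 1 + (4 * t + 3) = 4 * (t + 1) := by ring
      have : a ^ (4 : ℤ) = 1 := by exact_mod_cast hapw
      rw [e3, zpow_mul, this, one_zpow, one_mul]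
    rcases hb2 with hb1 | hb1
    · -- both noncyclic
      have ho2 : orderOf (a ^ 2) = 2 := by
        have := order_sq (k := 1) ho
        simpa using this
      have hz1 : a ^ 2 ≠ 1 := by
        intro h
        rw [h, orderOf_one] at ho2
        omega
      have hz2 : (a ^ 2) ^ 2 = 1 := by
        rw [← pow_mul]
        exact hapw
      have hb0 : b ≠ 1 := fun h => hb (by rw [h]; exact one_mem _)
      have hab0 : a * b ≠ 1 := fun h => habA (by rw [h]; exact one_mem _)
      have hBnc : ¬ IsCyclic B := nc_two_inv B (u := b) (w := a ^ 2) (mem_sup_right (mem_zpowers _))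
        (mem_sup_left (mem_zpowers _)) hb1 hz2 hb0 hz1 (fun h => hbK (by rw [h]; exact mem_zpowers _))
      have hCnc : ¬ IsCyclic C := nc_two_inv C (u := a * b) (w := a ^ 2) (mem_sup_right (mem_zpowers _))
        (mem_sup_left (mem_zpowers _)) (hab2.trans hb1) hz2 hab0 hz1 (fun h => habK (by rw [h]; exact mem_zpowers _))
      rw [hS]
      simp only [hAcyc, hBnc, hCnc, if_true, if_false]
      decide
    · -- both cyclic
      have hb1' : b ^ 2 = a ^ 2 := by simpa using hb1
      have hBeq : B = zpowers b := by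
        rw [hB]
        apply sup_eq_right.2
        rw [zpowers_le, ← hb1']
        exact npow_mem_zpowers b 2
      have hCeq : C = zpowers (a * b) := by
        rw [hC]
        apply sup_eq_right.2
        rw [zpowers_le, ← hb1', ← hab2]
        exact npow_mem_zpowers _ 2
      have hBc : IsCyclic B := by rw [hBeq]; infer_instance
      have hCc : IsCyclic C := by rw [hCeq]; infer_instance
      rw [hS]
      simp only [hAcyc, hBc, hCc, if_true]
      decide

open scoped Classical in
theorem P_good {n : ℕ} (hc : Nat.card G = 2 ^ (n + 1)) (hn : 2 ≤ n) (hnc : ¬ IsCyclic G) (hnb : ¬ BadG G) :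
    haveI : Fact (Nat.Prime 2) := ⟨Nat.prime_two⟩
    Even ((Mx G 2).filter (fun M : Subgroup G => IsCyclic M)).card ∧
      (3 ≤ n → Even ((Mx G 2).filter (fun M : Subgroup G => IsCyclic M ∨ BadG M)).card) := by
  haveI : Fact (Nat.Prime 2) := ⟨Nat.prime_two⟩
  have hidx : (commutator G).index ≠ 4 := fun h => hnb ⟨hnc, h⟩
  by_cases hex : ∃ M : Subgroup G, M.index = 2 ∧ IsCyclic M
  · obtain ⟨M₁, hM₁, hM₁c⟩ := hex
    obtain ⟨a, b, s, w, ho, hi, hb, hb2, hconj, h1, hw, hsw⟩ : ∃ (a b : G) (s w : ℤ), orderOf a = 2 ^ (n + 1 - 1) ∧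
        (zpowers a).index = 2 ∧ b ∉ zpowers a ∧ b ^ 2 = 1 ∧ b * a * b⁻¹ = a ^ s ∧ a ^ (2 * (s - 1)) = 1 ∧
        Odd w ∧ 1 + s = 2 * w := by
      by_cases hcomm : ∀ x y : G, x * y = y * x
      · exact good_pack_ab hc (by omega) hcomm hnc M₁ hM₁c hM₁
      · push Not at hcomm
        exact good_pack_nonab hc (by omega) hidx M₁ hM₁c hM₁ hcomm
    have e1 : n + 1 - 1 = n := by omega
    rw [e1] at ho
    obtain ⟨hset, hAB, hAC, hBC⟩ := three_max hc (by omega) hnc hi hb
    set B := zpowers (a ^ 2) ⊔ zpowers b with hB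
    set C := zpowers (a ^ 2) ⊔ zpowers (a * b) with hC
    have hBmem : B ∈ Mx G 2 := by rw [hset]; simp
    have hBi : B.index = 2 := mem_Mx.1 hBmem
    have hMc : ∀ M : Subgroup G, M.index = 2 → Nat.card M = 2 ^ n := by
      intro M hM
      have h := Subgroup.card_mul_index M
      rw [hM, hc, pow_succ] at h
      exact Nat.eq_of_mul_eq_mul_right (by norm_num) h
    have hAcyc : IsCyclic (zpowers a) := inferInstance
    have hbK : b ∉ zpowers (a ^ 2) := fun h => hb ((zpowers_le.2 (npow_mem_zpowers a 2)) h)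
    obtain ⟨k, rfl⟩ : ∃ k, n = k + 2 := ⟨n - 2, by omega⟩
    have ho2 : orderOf (a ^ 2) = 2 ^ (k + 1) := order_sq ho
    have hpw2 : (a ^ 2) ^ (2 ^ (k + 1)) = 1 := by rw [← ho2]; exact pow_orderOf_eq_one _
    -- `C` is cyclic
    have hab2 : (a * b) ^ 2 = (a ^ 2) ^ w := by
      have e : (a * b) ^ 2 = a * (b * a * b⁻¹) * b ^ 2 := by
        rw [pow_two, pow_two]
        group
      rw [e, hconj, ← zpow_one_add, hb2, mul_one, hsw, ← zpow_natCast a 2, ← zpow_mul]
      congr 1
    have hCeq : C = zpowers (a * b) := by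
      rw [hC]
      apply sup_eq_right.2
      rw [zpowers_le]
      have h3 := zpow_odd_gen hpw2 hw
      rw [← hab2] at h3
      exact (zpowers_le.2 (npow_mem_zpowers _ 2)) h3
    have hCc : IsCyclic C := by rw [hCeq]; infer_instance
    -- `B` is noncyclic
    have hz : a ^ (2 ^ (k + 1)) ≠ 1 := by
      apply pow_ne_one_of_lt_orderOf (by positivity)
      rw [ho]
      exact Nat.pow_lt_pow_right (by norm_num) (by omega)
    have hz2 : (a ^ (2 ^ (k + 1))) ^ 2 = 1 := by
      rw [← pow_mul, ← pow_succ, ← ho]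
      exact pow_orderOf_eq_one a
    have hzK : a ^ (2 ^ (k + 1)) ∈ zpowers (a ^ 2) := by
      have e : a ^ (2 ^ (k + 1)) = (a ^ 2) ^ (2 ^ k) := by rw [← pow_mul, pow_succ']
      rw [e]
      exact npow_mem_zpowers _ _
    have hb0 : b ≠ 1 := fun h => hb (by rw [h]; exact one_mem _)
    have hBnc : ¬ IsCyclic B := nc_two_inv B (u := b) (w := a ^ (2 ^ (k + 1))) (mem_sup_right (mem_zpowers _))
      (mem_sup_left hzK) hb2 hz2 hb0 hz (fun h => hbK (by rw [h]; exact hzK))
    constructor
    · rw [card_filter_three (s := Mx G 2) (fun M : Subgroup G => IsCyclic M) hset hAB hAC hBC]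
      simp only [hAcyc, hBnc, hCc, if_true, if_false]
      decide
    · intro hn3
      obtain ⟨k', rfl⟩ : ∃ k', k = k' + 1 := ⟨k - 1, by omega⟩
      have hBnb : ¬ BadG B := by
        rintro ⟨-, h3⟩
        have h4 : commutator B = ⊥ := by
          refine sub_comm_bot B (u := a ^ 2) (v := b) (s := s) (mem_sup_left (mem_zpowers _))
            (mem_sup_right (mem_zpowers _)) (by rw [hMc B hBi, ho2]; ring) hbK ?_ ?_
          · have h5 := conj_zpow_eq hconj 2
            rw [zpow_ofNat] at h5
            rw [h5, ← zpow_natCast a 2, ← zpow_mul]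
            congr 1
            push_cast
            ring
          · rw [← zpow_natCast a 2, ← zpow_mul]
            exact_mod_cast h1
        rw [h4, Subgroup.index_bot, hMc B hBi] at h3
        have h6 : 2 ^ 3 ≤ 2 ^ (k' + 1 + 2) := Nat.pow_le_pow_right (by norm_num) (by omega)
        omega
      have h1' : (IsCyclic (zpowers a) ∨ BadG (zpowers a)) := Or.inl hAcyc
      have h3' : ¬ (IsCyclic B ∨ BadG B) := by tauto
      have h4' : (IsCyclic C ∨ BadG C) := Or.inl hCc
      rw [card_filter_three (s := Mx G 2) (fun M : Subgroup G => IsCyclic M ∨ BadG M) hset hAB hAC hBC]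
      simp only [h1', h3', h4', if_true, if_false]
      decide
  · push Not at hex
    have hem : (Mx G 2).filter (fun M : Subgroup G => IsCyclic M) = ∅ := by
      rw [Finset.filter_eq_empty_iff]
      intro M hM
      exact hex M (mem_Mx.1 hM)
    refine ⟨by rw [hem]; simp, fun hn3 => ?_⟩
    have hrew : (Mx G 2).filter (fun M : Subgroup G => IsCyclic M ∨ BadG M) = (Mx G 2).filter (fun M : Subgroup G => BadG M) := by
      apply Finset.filter_congr
      intro M hM
      have := hex M (mem_Mx.1 hM)
      tauto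
    rw [hrew]
    by_cases hexb : ∃ M₀ : Subgroup G, M₀.index = 2 ∧ BadG M₀
    · obtain ⟨M₀, hM₀, hbad⟩ := hexb
      obtain ⟨r, hr⟩ := exists_radical hc hn3 hnc hex hM₀ hbad
      have h5 : (Mx G 2).filter (fun M : Subgroup G => BadG M) = (Mx G 2).filter (fun M => r ∉ M) := by
        apply Finset.filter_congr
        intro M hM
        exact hr M (mem_Mx.1 hM)
      rw [h5]
      exact even_not_mem hc hnc r
    · push Not at hexb
      have h5 : (Mx G 2).filter (fun M : Subgroup G => BadG M) = ∅ := by
        rw [Finset.filter_eq_empty_iff]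
        intro M hM
        exact hexb M (mem_Mx.1 hM)
      rw [h5]
      simp

end parity

open scoped Classical in
theorem sum_mod {α : Type*} (s : Finset α) (f : α → ℕ) (χ : α → Prop)
    (h : ∀ x ∈ s, f x % 4 = @ite ℕ (χ x) (Classical.propDecidable _) 1 3) :
    (∑ x ∈ s, f x) % 4 = (3 * s.card + 2 * (s.filter χ).card) % 4 := by
  induction s using Finset.induction_on with
  | empty => simp
  | insert x s hx ih =>
    have h1 := h x (Finset.mem_insert_self x s)
    have h2 := ih (fun y hy => h y (Finset.mem_insert_of_mem hy))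
    rw [Finset.sum_insert hx, Finset.card_insert_of_notMem hx, Finset.filter_insert]
    by_cases hχ : χ x
    · rw [if_pos hχ] at h1 ⊢
      rw [Finset.card_insert_of_notMem (by simp [hx])]
      omega
    · rw [if_neg hχ] at h1 ⊢
      omega

open scoped Classical in
/-- **Miller's theorem** for `p = 2`. -/
theorem miller_main : ∀ (n : ℕ) (G : Type u) [Group G] [Finite G], Nat.card G = 2 ^ n → ¬ IsCyclic G →
    ∀ a, 1 ≤ a → a < n →
      (a + 1 = n → Nat.card {H : Subgroup G // Nat.card H = 2 ^ a} % 4 = 3) ∧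
      (a + 1 < n → (BadG G → Nat.card {H : Subgroup G // Nat.card H = 2 ^ a} % 4 = 1) ∧
        (¬ BadG G → Nat.card {H : Subgroup G // Nat.card H = 2 ^ a} % 4 = 3)) := by
  haveI : Fact (Nat.Prime 2) := ⟨Nat.prime_two⟩
  intro n
  induction n with
  | zero =>
    intro G _ _ hc hnc a h1 h2
    omega
  | succ n ih =>
    intro G _ _ hc hnc a ha1 ha2
    have hcardMx : (Mx G 2).card % 4 = 3 := Mx_card_modEq (p := 2) hc hnc
    by_cases han : a = n
    · subst han
      refine ⟨fun _ => ?_, fun h => by omega⟩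
      rw [top_layer hc]
      exact hcardMx
    have han' : a < n := by omega
    refine ⟨fun h => by omega, fun _ => ?_⟩
    have hMc : ∀ M : Subgroup G, M.index = 2 → Nat.card M = 2 ^ n := by
      intro M hM
      have h := Subgroup.card_mul_index M
      rw [hM, hc, pow_succ] at h
      exact Nat.eq_of_mul_eq_mul_right (by norm_num) h
    let χ : Subgroup G → Prop := fun M => IsCyclic M ∨ (a + 1 < n ∧ BadG M)
    have hval : ∀ M ∈ Mx G 2, Nat.card {H : Subgroup M // Nat.card H = 2 ^ a} % 4 =
        @ite ℕ (χ M) (Classical.propDecidable _) 1 3 := by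
      intro M hM
      have hc' := hMc M (mem_Mx.1 hM)
      by_cases hcy : IsCyclic M
      · rw [if_pos (Or.inl hcy), Cfsg.Agent.Lib.ClassSizes.Kulakoff.cyc_count hc' han'.le]
      · obtain ⟨h3, h4⟩ := ih M hc' hcy a ha1 han'
        by_cases h5 : a + 1 < n
        · by_cases h6 : BadG M
          · rw [if_pos (Or.inr ⟨h5, h6⟩)]
            exact (h4 h5).1 h6
          · rw [if_neg (by simp only [χ]; tauto)]
            exact (h4 h5).2 h6
        · rw [if_neg (by simp only [χ]; tauto)]
          exact h3 (by omega)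
    have hsum := sum_mod (Mx G 2) (fun M : Subgroup G => Nat.card {H : Subgroup M // Nat.card H = 2 ^ a}) χ hval
    have hhall : (Nat.card {H : Subgroup G // Nat.card H = 2 ^ a} + 2) % 4 =
        (∑ M ∈ Mx G 2, Nat.card {H : Subgroup M // Nat.card H = 2 ^ a}) % 4 :=
      hall_step (p := 2) hc hnc ha1 han'
    rw [hsum] at hhall
    have hn2 : 2 ≤ n := by omega
    constructor
    · intro hbad
      have hodd : Odd (@Finset.filter _ χ (fun a => Classical.propDecidable (χ a)) (Mx G 2)).card := by
        by_cases h5 : a + 1 < n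
        · have h6 := (P_bad hc hn2 hbad).2 (by omega)
          have hfil : @Finset.filter _ χ (fun a => Classical.propDecidable (χ a)) (Mx G 2) = (Mx G 2).filter (fun M : Subgroup G => IsCyclic M ∨ BadG M) := by
            ext M
            simp only [Finset.mem_filter]
            simp [χ, h5]
          rw [hfil]
          exact h6
        · have h6 := (P_bad hc hn2 hbad).1
          have hfil : @Finset.filter _ χ (fun a => Classical.propDecidable (χ a)) (Mx G 2) = (Mx G 2).filter (fun M : Subgroup G => IsCyclic M) := by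
            ext M
            simp only [Finset.mem_filter]
            simp [χ, h5]
          rw [hfil]
          exact h6
      obtain ⟨j, hj⟩ := hodd
      rw [hj] at hhall
      omega
    · intro hnb
      have hev : Even (@Finset.filter _ χ (fun a => Classical.propDecidable (χ a)) (Mx G 2)).card := by
        by_cases h5 : a + 1 < n
        · have h6 := (P_good hc hn2 hnc hnb).2 (by omega)
          have hfil : @Finset.filter _ χ (fun a => Classical.propDecidable (χ a)) (Mx G 2) = (Mx G 2).filter (fun M : Subgroup G => IsCyclic M ∨ BadG M) := by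
            ext M
            simp only [Finset.mem_filter]
            simp [χ, h5]
          rw [hfil]
          exact h6
        · have h6 := (P_good hc hn2 hnc hnb).1
          have hfil : @Finset.filter _ χ (fun a => Classical.propDecidable (χ a)) (Mx G 2) = (Mx G 2).filter (fun M : Subgroup G => IsCyclic M) := by
            ext M
            simp only [Finset.mem_filter]
            simp [χ, h5]
          rw [hfil]
          exact h6
      obtain ⟨j, hj⟩ := hev
      rw [hj] at hhall
      omega

/-- The nilpotency class of a group with commutator quotient of order four. -/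
theorem class_of_bad {G : Type u} [Group G] [Finite G] {m : ℕ} (hc : Nat.card G = 2 ^ m) (hm : 2 ≤ m) (hbad : BadG G) :
    Group.nilpotencyClass G = m - 1 := by
  haveI : Group.IsNilpotent G := (IsPGroup.of_card hc).isNilpotent
  have hle : ∀ j, Group.nilpotencyClass G ≤ j ↔ Subgroup.lowerCentralSeries (⊤ : Subgroup G) j = ⊥ := fun j =>
    (Subgroup.lowerCentralSeries_eq_bot_iff_nilpotencyClass_le).symm
  by_cases hm3 : 3 ≤ m
  · obtain ⟨a, b, t, ho, hi, hb, hconj, h2, hb2⟩ := bad_pack hc hm3 hbad
    have hpw : a ^ (2 ^ (m - 1)) = 1 := by rw [← ho]; exact pow_orderOf_eq_one a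
    have hseries : ∀ i : ℕ, Subgroup.lowerCentralSeries (⊤ : Subgroup G) (i + 1) = zpowers (a ^ (2 ^ (i + 1))) := by
      intro i
      induction i with
      | zero =>
        have h3 := di_comm hi hb hconj hpw
        have e : a ^ (2 ^ (0 + 1)) = a ^ 2 := by norm_num
        rw [e]
        exact h3
      | succ i ih =>
        rw [Subgroup.lowerCentralSeries_succ, ih]
        obtain ⟨c, hcdef⟩ : ∃ c, c = a ^ (2 ^ (i + 1)) := ⟨_, rfl⟩
        rw [← hcdef]
        obtain ⟨N, hN⟩ : ∃ N : ℤ, N = ((2 ^ (i + 1) : ℕ) : ℤ) := ⟨_, rfl⟩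
        have hcz : c = a ^ N := by rw [hcdef, hN, zpow_natCast]
        have hcc : b * c * b⁻¹ = c ^ (4 * t + 3) := by
          rw [hcz, conj_zpow_eq hconj, ← zpow_mul, mul_comm]
        have hsq : a ^ (2 ^ (i + 1 + 1)) = c ^ 2 := by
          rw [hcdef, ← pow_mul, pow_succ]
        have hcpw : (c ^ 2) ^ (2 ^ (m - 1)) = 1 := by
          have e : 2 ^ (i + 1) * (2 * 2 ^ (m - 1)) = 2 ^ (m - 1) * (2 ^ (i + 1) * 2) := by ring
          rw [hcdef, ← pow_mul, ← pow_mul, e, pow_mul, hpw, one_pow]
        rw [hsq]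
        apply le_antisymm
        · rw [Subgroup.commutator_le]
          rintro _ ⟨j, rfl⟩ g _
          rw [commutatorElement_def]
          show c ^ j * g * (c ^ j)⁻¹ * g⁻¹ ∈ _
          rcases coset_form hi hb g with ⟨l, rfl⟩ | ⟨l, rfl⟩
          · have e3 : c ^ j * a ^ l * (c ^ j)⁻¹ * (a ^ l)⁻¹ = 1 := by
              rw [hcz, ← zpow_mul]
              group
            rw [e3]
            exact one_mem _
          · have e3 : c ^ j * (a ^ l * b) * (c ^ j)⁻¹ * (a ^ l * b)⁻¹ =
                c ^ j * a ^ l * (b * (c ^ j)⁻¹ * b⁻¹) * a ^ (-l) := by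
              group
            have e4 : b * (c ^ j)⁻¹ * b⁻¹ = (c ^ j) ^ (-(4 * t + 3)) := by
              rw [← zpow_neg_one (c ^ j), ← zpow_mul, conj_zpow_eq hcc, ← zpow_mul]
              congr 1
              ring
            have e7 : c ^ j * a ^ l * (c ^ j) ^ (-(4 * t + 3)) * a ^ (-l) = (c ^ 2) ^ (j * (-(2 * t + 1))) := by
              rw [hcz, ← zpow_natCast (a ^ N) 2]
              simp only [← zpow_mul, ← zpow_add]
              congr 1
              push_cast
              ring
            rw [e3, e4, e7]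
            exact zpow_mem_zpowers _ _
        · rw [zpowers_le]
          have e6 : c * (b * c⁻¹ * b⁻¹) = (c ^ 2) ^ (-(2 * t + 1)) := by
            have e8 : b * c⁻¹ * b⁻¹ = c ^ (-(4 * t + 3)) := by
              rw [← zpow_neg_one c, conj_zpow_eq hcc]
              congr 1
              ring
            rw [e8, ← zpow_one_add, ← zpow_natCast c 2, ← zpow_mul]
            congr 1
            push_cast
            ring
          have hmem : (c ^ 2) ^ (-(2 * t + 1)) ∈ (⁅zpowers c, ⊤⁆ : Subgroup G) := by
            rw [← e6]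
            have e9 : c * (b * c⁻¹ * b⁻¹) = c * b * c⁻¹ * b⁻¹ := by
              group
            rw [e9, ← commutatorElement_def]
            exact Subgroup.commutator_mem_commutator (mem_zpowers c) (mem_top b)
          exact (zpowers_le.2 hmem) (zpow_odd_gen hcpw ⟨-t - 1, by ring⟩)
    obtain ⟨k, rfl⟩ : ∃ k, m = k + 3 := ⟨m - 3, by omega⟩
    have e1 : k + 3 - 1 = k + 2 := by omega
    rw [e1] at ho hpw ⊢
    apply le_antisymm
    · rw [hle, hseries (k + 1), hpw, zpowers_one_eq_bot]
    · by_contra hcon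
      have h3 : Group.nilpotencyClass G ≤ k + 1 := by omega
      rw [hle, hseries k] at h3
      have h4 : a ^ (2 ^ (k + 1)) = 1 := by
        have h5 : a ^ (2 ^ (k + 1)) ∈ zpowers (a ^ (2 ^ (k + 1))) := mem_zpowers _
        rw [h3, mem_bot] at h5
        exact h5
      have h6 := orderOf_dvd_of_pow_eq_one h4
      rw [ho] at h6
      have h7 := Nat.le_of_dvd (by positivity) h6
      have h8 : 2 ^ (k + 1) < 2 ^ (k + 2) := Nat.pow_lt_pow_right (by norm_num) (by omega)
      omega
  · obtain rfl : m = 2 := by omega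
    apply le_antisymm
    · rw [hle]
      show commutator G = ⊥
      have h1 := Subgroup.card_mul_index (commutator G)
      rw [hbad.2, hc] at h1
      exact Subgroup.eq_bot_of_card_eq _ (by omega)
    · by_contra hcon
      have h3 : Group.nilpotencyClass G ≤ 0 := by omega
      rw [hle] at h3
      have h4 : (⊤ : Subgroup G) = ⊥ := h3
      have h5 : Nat.card (⊤ : Subgroup G) = 4 := by
        rw [Nat.card_congr Subgroup.topEquiv.toEquiv, hc]
        norm_num
      rw [h4, Subgroup.card_bot] at h5
      omega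

/-- Miller's congruence for `p = 2`. -/
theorem miller_two {G : Type u} [Group G] [Finite G] (m : ℕ) (hG : Nat.card G = 2 ^ m) (hnc : ¬ IsCyclic G)
    (h2 : Group.nilpotencyClass G ≠ m - 1) (k : ℕ) (hk1 : 1 ≤ k) (hk2 : k < m) :
    Nat.card {H : Subgroup G // Nat.card H = 2 ^ k} % 4 = 3 := by
  have hnb : ¬ BadG G := fun h => h2 (class_of_bad hG (by omega) h)
  obtain ⟨h3, h4⟩ := miller_main m G hG hnc k hk1 hk2
  by_cases h5 : k + 1 < m
  · exact (h4 h5).2 hnb
  · exact h3 (by omega)

end Cfsg.Agent.Lib.GS1.Miller
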