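import Mathlib
import Cfsg.Prelude.Def_SporadicCombinatorics

/-!
# Monomial maps preserving a subspace
-/

set_option autoImplicit false

namespace Cfsg.Agent.Lib.GS1

open Cfsg

section

variable {α F : Type*} [Field F]

theorem perm_one_symm (i : α) : (1 : Equiv.Perm α).symm i = i := rfl

/-- A monomial map preserves the subspace `V`. -/
def Pres (V : Submodule F (α → F)) (σ : Equiv.Perm α) (c : α → Fˣ) : Prop :=
  ∀ x ∈ V, Cfsg.monomialMap σ c x ∈ V

theorem monomialMap_comp (σ τ : Equiv.Perm α) (c d : α → Fˣ) (x : α → F) :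
    Cfsg.monomialMap σ c (Cfsg.monomialMap τ d x) =
      Cfsg.monomialMap (σ * τ) (fun i => c i * d (σ.symm i)) x := by
  funext i
  simp only [Cfsg.monomialMap, Units.val_mul, mul_assoc]
  rfl

theorem Pres.comp {V : Submodule F (α → F)} {σ τ : Equiv.Perm α} {c d : α → Fˣ}
    (h1 : Pres V σ c) (h2 : Pres V τ d) : Pres V (σ * τ) (fun i => c i * d (σ.symm i)) := by
  intro x hx
  rw [← monomialMap_comp]
  exact h1 _ (h2 _ hx)

theorem pres_one (V : Submodule F (α → F)) : Pres V 1 (fun _ => 1) := by
  intro x hx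
  have : Cfsg.monomialMap (1 : Equiv.Perm α) (fun _ => (1 : Fˣ)) x = x := by
    funext i
    simp [Cfsg.monomialMap, perm_one_symm]
  rw [this]
  exact hx

theorem pres_const (V : Submodule F (α → F)) (l : Fˣ) : Pres V 1 (fun _ => l) := by
  intro x hx
  have : Cfsg.monomialMap (1 : Equiv.Perm α) (fun _ => l) x = (l : F) • x := by
    funext i
    simp [Cfsg.monomialMap, perm_one_symm]
  rw [this]
  exact V.smul_mem _ hx

/-- Preservation of a span is checked on generators. -/
theorem pres_span {s : Set (α → F)} {σ : Equiv.Perm α} {c : α → Fˣ}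
    (h : ∀ x ∈ s, Cfsg.monomialMap σ c x ∈ Submodule.span F s) :
    Pres (Submodule.span F s) σ c := by
  let L : (α → F) →ₗ[F] (α → F) :=
    { toFun := Cfsg.monomialMap σ c
      map_add' := by
        intro x y
        funext i
        simp [Cfsg.monomialMap, mul_add]
      map_smul' := by
        intro a x
        funext i
        simp [Cfsg.monomialMap]
        ring }
  have h1 : Submodule.span F s ≤ (Submodule.span F s).comap L := Submodule.span_le.mpr h
  exact fun x hx => h1 hx

theorem monomialMap_injective (σ : Equiv.Perm α) (c : α → Fˣ) :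
    Function.Injective (Cfsg.monomialMap σ c) := by
  intro x y h
  funext i
  have := congrFun h (σ i)
  simp only [Cfsg.monomialMap, Equiv.symm_apply_apply] at this
  exact mul_left_cancel₀ (Units.ne_zero _) this

/-- Since a subspace of a finite space is finite, monomial maps preserving it are onto. -/
theorem Pres.exists_preimage [Finite α] [Finite F] {V : Submodule F (α → F)} {σ : Equiv.Perm α}
    {c : α → Fˣ} (h : Pres V σ c) {x : α → F} (hx : x ∈ V) :
    ∃ y ∈ V, Cfsg.monomialMap σ c y = x := by
  let f : ↥V → ↥V := fun y => ⟨Cfsg.monomialMap σ c y, h y y.2⟩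
  have hf : Function.Injective f := by
    intro a b hab
    apply Subtype.ext
    exact monomialMap_injective σ c (congrArg Subtype.val hab)
  obtain ⟨y, hy⟩ := (Finite.injective_iff_surjective.mp hf) ⟨x, hx⟩
  exact ⟨y, y.2, congrArg Subtype.val hy⟩

variable [Finite α]

/-- The group of permutation parts of the monomial maps preserving `V`. -/
def monoImage (V : Submodule F (α → F)) : Subgroup (Equiv.Perm α) where
  carrier := {σ | ∃ c, Pres V σ c}
  mul_mem' := by
    rintro a b ⟨c, hc⟩ ⟨d, hd⟩
    exact ⟨_, hc.comp hd⟩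
  one_mem' := ⟨_, pres_one V⟩
  inv_mem' := by
    rintro a ⟨c, hc⟩
    have hpow : ∀ n : ℕ, ∃ d, Pres V (a ^ n) d := by
      intro n
      induction n with
      | zero => exact ⟨_, pres_one V⟩
      | succ n ih =>
        obtain ⟨d, hd⟩ := ih
        rw [pow_succ]
        exact ⟨_, hd.comp hc⟩
    have h : a⁻¹ = a ^ (orderOf a - 1) := by
      have h1 : 0 < orderOf a := orderOf_pos a
      rw [inv_eq_iff_mul_eq_one, ← pow_succ', Nat.sub_add_cancel h1, pow_orderOf_eq_one]
    rw [h]
    exact hpow _

theorem mem_monoImage {V : Submodule F (α → F)} {σ : Equiv.Perm α} :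
    σ ∈ monoImage V ↔ ∃ c, Pres V σ c := Iff.rfl

variable [Finite F]

/-- The fibres of the map to permutation parts all have the size of the diagonal part. -/
theorem card_fibre (V : Submodule F (α → F)) {σ : Equiv.Perm α} {c₀ : α → Fˣ} (h₀ : Pres V σ c₀) :
    Nat.card {c : α → Fˣ // Pres V σ c} = Nat.card {d : α → Fˣ // Pres V 1 d} := by
  refine Nat.card_congr ⟨fun c => ⟨fun i => c.1 i * (c₀ i)⁻¹, ?_⟩,
    fun d => ⟨fun i => d.1 i * c₀ i, ?_⟩, ?_, ?_⟩
  · intro x hx
    obtain ⟨y, hy, rfl⟩ := h₀.exists_preimage hx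
    have h1 : Cfsg.monomialMap 1 (fun i => c.1 i * (c₀ i)⁻¹) (Cfsg.monomialMap σ c₀ y) =
        Cfsg.monomialMap σ c.1 y := by
      funext i
      simp [Cfsg.monomialMap, perm_one_symm, mul_assoc]
    rw [h1]
    exact c.2 y hy
  · intro x hx
    have h1 : Cfsg.monomialMap σ (fun i => d.1 i * c₀ i) x =
        Cfsg.monomialMap 1 d.1 (Cfsg.monomialMap σ c₀ x) := by
      funext i
      simp [Cfsg.monomialMap, perm_one_symm, mul_assoc]
    rw [h1]
    exact d.2 _ (h₀ x hx)
  · rintro ⟨c, hc⟩
    apply Subtype.ext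
    funext i
    simp
  · rintro ⟨d, hd⟩
    apply Subtype.ext
    funext i
    simp

/-- Counting monomial automorphisms. -/
theorem card_pres (V : Submodule F (α → F)) :
    Nat.card {f : Equiv.Perm α × (α → Fˣ) // Pres V f.1 f.2} =
      Nat.card (monoImage V) * Nat.card {d : α → Fˣ // Pres V 1 d} := by
  classical
  haveI : Fintype (monoImage V) := Fintype.ofFinite _
  let e : {f : Equiv.Perm α × (α → Fˣ) // Pres V f.1 f.2} ≃
      Σ σ : monoImage V, {c : α → Fˣ // Pres V σ.1 c} :=
    { toFun := fun f => ⟨⟨f.1.1, f.1.2, f.2⟩, ⟨f.1.2, f.2⟩⟩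
      invFun := fun s => ⟨(s.1.1, s.2.1), s.2.2⟩
      left_inv := fun f => rfl
      right_inv := fun s => rfl }
  rw [Nat.card_congr e, Nat.card_sigma]
  have : ∀ σ : monoImage V, Nat.card {c : α → Fˣ // Pres V σ.1 c} =
      Nat.card {d : α → Fˣ // Pres V 1 d} := by
    rintro ⟨σ, c₀, h₀⟩
    exact card_fibre V h₀
  simp only [this, Finset.sum_const, Finset.card_univ, smul_eq_mul, Nat.card_eq_fintype_card]

end

section

variable {α : Type*} [DecidableEq α] [Fintype α]

/-- A subgroup containing all `swap a b * τ` contains the alternating group. -/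
theorem alternating_le_of_swap_mul (S : Subgroup (Equiv.Perm α)) {τ : Equiv.Perm α}
    (hτ : Equiv.Perm.sign τ = -1) (hτ2 : τ * τ = 1)
    (h : ∀ a b : α, a ≠ b → Equiv.swap a b * τ ∈ S) : alternatingGroup α ≤ S := by
  have hsign : ∀ σ : Equiv.Perm α, (Equiv.Perm.sign σ = 1 → σ ∈ S) ∧
      (Equiv.Perm.sign σ = -1 → σ * τ ∈ S) := by
    intro σ
    induction σ using Equiv.Perm.swap_induction_on' with
    | one => exact ⟨fun _ => S.one_mem, fun h1 => by simp at h1⟩
    | mul_swap f x y hxy ih =>
      have hsw : Equiv.Perm.sign (Equiv.swap x y) = -1 := Equiv.Perm.sign_swap hxy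
      constructor
      · intro hs
        rw [map_mul, hsw] at hs
        have hf : Equiv.Perm.sign f = -1 := by
          rcases Int.units_eq_one_or (Equiv.Perm.sign f) with h1 | h1
          · rw [h1] at hs
            simp at hs
          · exact h1
        have h1 := ih.2 hf
        have h2 : τ * Equiv.swap x y ∈ S := by
          have := S.inv_mem (h x y hxy)
          rwa [mul_inv_rev, Equiv.swap_inv, show τ⁻¹ = τ from inv_eq_of_mul_eq_one_left hτ2] at this
        have h3 := S.mul_mem h1 h2
        have h4 : f * τ * (τ * Equiv.swap x y) = f * Equiv.swap x y := by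
          calc f * τ * (τ * Equiv.swap x y) = f * (τ * τ) * Equiv.swap x y := by
                simp only [mul_assoc]
            _ = f * Equiv.swap x y := by rw [hτ2, mul_one]
        rwa [h4] at h3
      · intro hs
        rw [map_mul, hsw] at hs
        have hf : Equiv.Perm.sign f = 1 := by
          rcases Int.units_eq_one_or (Equiv.Perm.sign f) with h1 | h1
          · exact h1
          · rw [h1] at hs
            simp at hs
        have h1 := ih.1 hf
        have h3 := S.mul_mem h1 (h x y hxy)
        rwa [← mul_assoc] at h3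
  intro σ hσ
  exact (hsign σ).1 (Equiv.Perm.mem_alternatingGroup.mp hσ)

end

section

variable {α : Type*}

/-- Stabiliser chain: if `I ≤ A`, only the identity of `A` fixes the base `x` and `I` moves points
to base points compatibly, then `A ≤ I`. -/
theorem le_of_chain {I A : Subgroup (Equiv.Perm α)} {n : ℕ} (x : Fin n → α)
    (hx : Function.Injective x)
    (hsharp : ∀ g ∈ A, (∀ i, g (x i) = x i) → g = 1)
    (hlev : ∀ k : Fin n, ∀ p : α, (∀ j : Fin n, j < k → p ≠ x j) →
      ∃ g ∈ I, (∀ j : Fin n, j < k → g (x j) = x j) ∧ g p = x k) (hIA : I ≤ A) : A ≤ I := by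
  intro σ hσ
  have key : ∀ m : ℕ, m ≤ n → ∃ g ∈ I, ∀ j : Fin n, j.1 < m → g (σ (x j)) = x j := by
    intro m
    induction m with
    | zero =>
      intro _
      exact ⟨1, I.one_mem, fun j hj => absurd hj (Nat.not_lt_zero _)⟩
    | succ m ih =>
      intro hm
      obtain ⟨g, hg, hgj⟩ := ih (by omega)
      let k : Fin n := ⟨m, by omega⟩
      have hp : ∀ j : Fin n, j < k → g (σ (x k)) ≠ x j := by
        intro j hj h
        have h1 := hgj j hj
        rw [← h1] at h
        have h2 := σ.injective (g.injective h)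
        have h3 := hx h2
        rw [h3] at hj
        exact lt_irrefl _ hj
      obtain ⟨h, hh, hfix, hmap⟩ := hlev k _ hp
      refine ⟨h * g, I.mul_mem hh hg, ?_⟩
      intro j hj
      change h (g (σ (x j))) = x j
      by_cases hjm : j.1 < m
      · rw [hgj j hjm]
        exact hfix j hjm
      · have : j = k := Fin.ext (by change j.1 = m; omega)
        rw [this]
        exact hmap
  obtain ⟨g, hg, hgj⟩ := key n le_rfl
  have h1 : g * σ = 1 := hsharp _ (A.mul_mem (hIA hg) hσ) (fun i => hgj i i.2)
  have h2 : σ = g⁻¹ := eq_inv_of_mul_eq_one_right h1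
  rw [h2]
  exact I.inv_mem hg

end

end Cfsg.Agent.Lib.GS1
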