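import Mathlib
import Cfsg.Agent.Lib.PGroup.ItoBasic
import Cfsg.Agent.Lib.ClassSizes.PCentral
import Cfsg.Agent.Lib.PSolv.Basic

/-!
# Normal subgroups whose elements have at most two class sizes in the whole group

Basic lemmas and the case where the prime does not divide the size.
-/

set_option autoImplicit false

namespace Cfsg.Agent.Lib.GS1.NormalIto

open Subgroup Cfsg.Agent.Lib.PGroup.Ito

variable {G : Type*} [Group G] [Finite G]

/-- Elements of `N` have class size `1` or `m`. -/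
def TS (N : Subgroup G) (m : ℕ) : Prop := ∀ x ∈ N, (C x).index = 1 ∨ (C x).index = m

variable {N : Subgroup G} {m : ℕ}

theorem index_eq (h : TS N m) {x : G} (hx : x ∈ N) (hz : x ∉ center G) : (C x).index = m := by
  rcases h x hx with h1 | h1
  · exact absurd (C_eq_top_iff.mp (index_eq_one.mp h1)) hz
  · exact h1

theorem C_eq_of_le (h : TS N m) {x y : G} (hx : x ∈ N) (hz : x ∉ center G) (hy : y ∈ N)
    (hy' : y ∉ center G) (hle : C x ≤ C y) : C x = C y :=
  eq_of_le_of_index_eq hle (by rw [index_eq h hx hz, index_eq h hy hy'])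

theorem not_center_of_mem_zpowers {x y : G} (hy : y ∈ zpowers x) (hz : y ∉ center G) :
    x ∉ center G := by
  intro hx
  apply hz
  have : zpowers x ≤ center G := by simpa using hx
  exact this hy

theorem C_eq_of_comm (h : TS N m) {x y : G} (hx : x ∈ N) (hz : x ∉ center G) (hy : y ∈ N)
    (hy' : y ∉ center G) (hc : x * y = y * x) (hcop : (orderOf x).Coprime (orderOf y)) :
    C x = C y := by
  have hxy : x * y ∈ N := N.mul_mem hx hy
  have h1 : x ∈ zpowers (x * y) := mem_zpowers_mul_of_coprime hc hcop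
  have h2 : y ∈ zpowers (x * y) := mem_zpowers_mul_of_coprime' hc hcop
  have hz' : x * y ∉ center G := not_center_of_mem_zpowers h1 hz
  rw [← C_eq_of_le h hxy hz' hx hz (C_le_C_of_mem_zpowers h1),
    C_eq_of_le h hxy hz' hy hy' (C_le_C_of_mem_zpowers h2)]

theorem mem_of_mem_zpowers {x y : G} {H : Subgroup G} (hx : x ∈ H) (hy : y ∈ zpowers x) : y ∈ H := by
  have : zpowers x ≤ H := by simpa using hx
  exact this hy

section Good

variable {r : ℕ}

/-- `D` is the centralizer of a noncentral `r'`-element commuting with a noncentral `r`-element. -/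
def Gd (N : Subgroup G) (r : ℕ) (D : Subgroup G) : Prop :=
  ∃ u v : G, u ∈ N ∧ u ∉ center G ∧ (orderOf u).Coprime r ∧ v ∈ N ∧ v ∉ center G ∧ PE r v ∧
    u * v = v * u ∧ D = C u

theorem coprime_PE (hr : r.Prime) {u v : G} (hu : (orderOf u).Coprime r) (hv : PE r v) :
    (orderOf u).Coprime (orderOf v) := by
  obtain ⟨j, hj⟩ := hv.orderOf_eq hr
  rw [hj]
  exact Nat.Coprime.pow_right _ hu

theorem Gd.eq (h : TS N m) (hr : r.Prime) {D : Subgroup G} (hD : Gd N r D) {w : G} (hw : w ∈ N)
    (hwD : w ∈ D) (hz : w ∉ center G) : C w = D := by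
  obtain ⟨u, v, hu, huz, huc, hv, hvz, hvr, huv, rfl⟩ := hD
  obtain ⟨s, t, e, hc, hs, ht, hs', ht'⟩ := parts hr w
  have hsN := mem_of_mem_zpowers hw hs'
  have htN := mem_of_mem_zpowers hw ht'
  have hsD := mem_of_mem_zpowers hwD hs'
  have htD := mem_of_mem_zpowers hwD ht'
  have hCuv : C u = C v := C_eq_of_comm h hu huz hv hvz huv (coprime_PE hr huc hvr)
  by_cases htz : t ∈ center G
  · have hsz : s ∉ center G := by
      intro hh
      apply hz
      rw [e]
      exact (center G).mul_mem hh htz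
    have h1 : C s = C u := by
      refine C_eq_of_comm h hsN hsz hu huz (mem_C.mp hsD) ?_
      exact (coprime_PE hr huc hs).symm
    rw [← h1]
    exact C_eq_of_le h hw hz hsN hsz (C_le_C_of_mem_zpowers hs')
  · have h1 : C t = C v := by
      rw [hCuv] at htD
      refine C_eq_of_comm h htN htz hv hvz (mem_C.mp htD) ?_
      exact coprime_PE hr ht hvr
    rw [hCuv, ← h1]
    exact C_eq_of_le h hw hz htN htz (C_le_C_of_mem_zpowers ht')

theorem Gd.comm (h : TS N m) (hr : r.Prime) {D : Subgroup G} (hD : Gd N r D) :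
    ∀ a ∈ D ⊓ N, ∀ b ∈ D ⊓ N, a * b = b * a := by
  intro a ha b hb
  by_cases hz : a ∈ center G
  · exact (mem_center_iff.mp hz b).symm
  · have h1 := hD.eq h hr ha.2 ha.1 hz
    have h2 : b ∈ C a := h1 ▸ hb.1
    exact (mem_C.mp h2).symm

theorem mem_sub [Fact r.Prime] (P : Sylow r G) (h : (P : Subgroup G) ≤ N) (y : N) :
    y ∈ (P.subtype h : Subgroup N) ↔ (y : G) ∈ P := by
  rw [Sylow.coe_subtype]
  rfl

/-- Conjugate Sylow subgroups inside `N` are conjugate by elements of `N`. -/
theorem exists_conj_in [N.Normal] [Fact r.Prime] (P₁ P₂ : Sylow r G) (h₁ : (P₁ : Subgroup G) ≤ N)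
    (h₂ : (P₂ : Subgroup G) ≤ N) : ∃ n ∈ N, ∀ x, x ∈ P₂ ↔ n⁻¹ * x * n ∈ P₁ := by
  obtain ⟨n, hn⟩ := MulAction.exists_smul_eq N (P₁.subtype h₁) (P₂.subtype h₂)
  refine ⟨n, n.2, fun x => ?_⟩
  constructor
  · intro hx
    have hxN : x ∈ N := h₂ hx
    have h3 : (⟨x, hxN⟩ : N) ∈ (P₂.subtype h₂ : Subgroup N) := (mem_sub P₂ h₂ _).mpr hx
    rw [← hn] at h3
    have h4 := (Cfsg.Agent.Lib.ClassSizes.mem_sylow_smul_iff (P := P₁.subtype h₁) (g := n)).mp h3
    exact (mem_sub P₁ h₁ _).mp h4
  · intro hx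
    have hxN : x ∈ N := by
      have h5 : (n : G)⁻¹ * x * n ∈ N := h₁ hx
      have h6 : x = (n : G) * ((n : G)⁻¹ * x * n) * (n : G)⁻¹ := by group
      rw [h6]
      exact N.mul_mem (N.mul_mem n.2 h5) (N.inv_mem n.2)
    have h3 : (⟨x, hxN⟩ : N) ∈ (n • P₁.subtype h₁ : Sylow r N) := by
      rw [Cfsg.Agent.Lib.ClassSizes.mem_sylow_smul_iff]
      exact (mem_sub P₁ h₁ _).mpr hx
    rw [hn] at h3
    exact (mem_sub P₂ h₂ _).mp h3

/-- The case where `r` does not divide the class size: `N` is abelian. -/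
theorem abelian_of_not_dvd [N.Normal] [hr : Fact r.Prime] (h : TS N m) (P : Sylow r G)
    (hPN : (P : Subgroup G) ≤ N) (hPz : ¬ (P : Subgroup G) ≤ center G) (hm : ¬ r ∣ m)
    {u : G} (hu : u ∈ N) (huz : u ∉ center G) (huc : (orderOf u).Coprime r) :
    ∀ a ∈ N, ∀ b ∈ N, a * b = b * a := by
  have hall : ∀ S : Sylow r G, (S : Subgroup G) ≤ N := by
    intro S
    obtain ⟨g, rfl⟩ := MulAction.exists_smul_eq G P S
    intro x hx
    have h1 := (Cfsg.Agent.Lib.ClassSizes.mem_sylow_smul_iff).mp hx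
    have h2 : g⁻¹ * x * g ∈ N := hPN h1
    have h3 := (inferInstance : N.Normal).conj_mem _ h2 g
    have e : g * (g⁻¹ * x * g) * g⁻¹ = x := by group
    rwa [e] at h3
  have hnc : ∀ S : Sylow r G, ¬ (S : Subgroup G) ≤ center G := by
    intro S hS
    apply hPz
    obtain ⟨g, rfl⟩ := MulAction.exists_smul_eq G S P
    intro x hx
    have h1 := (Cfsg.Agent.Lib.ClassSizes.mem_sylow_smul_iff).mp hx
    have h2 := hS h1
    have h3 := (inferInstance : (center G).Normal).conj_mem _ h2 g
    have e : g * (g⁻¹ * x * g) * g⁻¹ = x := by group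
    rwa [e] at h3
  have hindex : ∀ x ∈ N, x ∉ center G → ¬ r ∣ (C x).index := by
    intro x hx hz
    rw [index_eq h hx hz]
    exact hm
  obtain ⟨S, hS⟩ := Cfsg.Agent.Lib.PSolv.exists_sylow_le_of_not_dvd_index (hindex u hu huz)
  obtain ⟨v, hvS, hvz⟩ : ∃ v ∈ (S : Subgroup G), v ∉ center G := by
    have := hnc S
    exact Set.not_subset.mp this
  have hSN := hall S
  have hgood : ∀ y ∈ (S : Subgroup G), y ∉ center G → C y = C u := by
    intro y hy hyz
    refine C_eq_of_comm h (hSN hy) hyz hu huz ?_ ?_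
    · exact mem_C.mp (hS hy)
    · exact (coprime_PE hr.out huc (PE.of_mem_isPGroup S.isPGroup' hy)).symm
  -- every element of `N` is conjugate into `C u`
  have hconj : ∀ x ∈ N, ∃ n ∈ N, n⁻¹ * x * n ∈ C u := by
    intro x hx
    obtain ⟨s, t, e, hc, hs, ht, hs', ht'⟩ := parts hr.out x
    by_cases htz : t ∈ center G
    · by_cases hsz : s ∈ center G
      · refine ⟨1, N.one_mem, ?_⟩
        have hxz : x ∈ center G := by
          rw [e]
          exact (center G).mul_mem hsz htz
        have : (1 : G)⁻¹ * x * 1 = x := by group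
        rw [this]
        exact center_le_C u hxz
      · have hsN := mem_of_mem_zpowers hx hs'
        obtain ⟨Q, hQ, hsQ⟩ := Cfsg.Agent.Lib.ClassSizes.exists_sylow_le_centralizer
          (hs.orderOf_eq hr.out) (hindex s hsN hsz)
        obtain ⟨n, hn, hnn⟩ := exists_conj_in S Q hSN (hall Q)
        refine ⟨n, hn, ?_⟩
        have h1 : n⁻¹ * s * n ∈ C u := hS ((hnn s).mp hsQ)
        have h2 : n⁻¹ * t * n = t := by
          have := mem_center_iff.mp htz n
          calc n⁻¹ * t * n = n⁻¹ * (t * n) := by group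
            _ = n⁻¹ * (n * t) := by rw [this]
            _ = t := by group
        have e2 : n⁻¹ * x * n = (n⁻¹ * s * n) * (n⁻¹ * t * n) := by
          rw [e]; group
        rw [e2, h2]
        exact (C u).mul_mem h1 (center_le_C u htz)
    · have htN := mem_of_mem_zpowers hx ht'
      obtain ⟨Q, hQ⟩ := Cfsg.Agent.Lib.PSolv.exists_sylow_le_of_not_dvd_index (hindex t htN htz)
      obtain ⟨n, hn, hnn⟩ := exists_conj_in S Q hSN (hall Q)
      refine ⟨n, hn, ?_⟩
      have hv' : n * v * n⁻¹ ∈ (Q : Subgroup G) := by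
        refine (hnn _).mpr ?_
        have : n⁻¹ * (n * v * n⁻¹) * n = v := by group
        rwa [this]
      have hvz' : n * v * n⁻¹ ∉ center G := conj_not_mem_center hvz n
      have h1 : C t = C (n * v * n⁻¹) := by
        refine C_eq_of_comm h htN htz (hall Q hv') hvz' (mem_C.mp (hQ hv')).symm ?_
        exact coprime_PE hr.out ht (PE.of_mem_isPGroup Q.isPGroup' hv')
      have h2 : x ∈ C t := C_le_C_of_mem_zpowers ht' (self_mem_C x)
      rw [h1, mem_C_conj] at h2
      rw [← hgood v hvS hvz]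
      exact h2
  -- conclude
  have htop : (C u).subgroupOf N = ⊤ := by
    apply eq_top_of_forall_conj_mem
    intro x
    obtain ⟨n, hn, hnn⟩ := hconj x x.2
    refine ⟨⟨n, hn⟩⁻¹, ?_⟩
    rw [mem_subgroupOf]
    simpa using hnn
  have hle : ∀ x ∈ N, x ∈ C u := by
    intro x hx
    have : (⟨x, hx⟩ : N) ∈ (C u).subgroupOf N := htop ▸ mem_top _
    exact this
  intro a ha b hb
  by_cases hz : a ∈ center G
  · exact (mem_center_iff.mp hz b).symm
  · have h3 : C a = C u := by
      have hgd : Gd N r (C u) :=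
        ⟨u, v, hu, huz, huc, hSN hvS, hvz, PE.of_mem_isPGroup S.isPGroup' hvS,
          (mem_C.mp (hS hvS)).symm, rfl⟩
      exact hgd.eq h hr.out ha (hle a ha) hz
    have h4 : b ∈ C a := h3 ▸ hle b hb
    exact (mem_C.mp h4).symm

/-- If all `r'`-elements of `N` are central then `N` is nilpotent. -/
theorem nilpotent_of_central [hr : Fact r.Prime]
    (hno : ∀ u ∈ N, (orderOf u).Coprime r → u ∈ center G) : Group.IsNilpotent N := by
  have hq : IsPGroup r (N ⧸ center N) := by
    intro x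
    obtain ⟨y, rfl⟩ := QuotientGroup.mk_surjective x
    obtain ⟨s, t, e, hc, ⟨k, hk⟩, ht, hs', ht'⟩ := parts hr.out (y : G)
    have hsN := mem_of_mem_zpowers y.2 hs'
    have htN := mem_of_mem_zpowers y.2 ht'
    have htz := hno t htN ht
    refine ⟨k, ?_⟩
    rw [← QuotientGroup.mk_pow, QuotientGroup.eq_one_iff, mem_center_iff]
    intro g
    apply Subtype.ext
    have hy : (y : G) = s * t := e
    simp only [Subgroup.coe_mul, Subgroup.coe_pow]
    have hcomm : Commute s t := hc
    have hyp : (y : G) ^ r ^ k = t ^ r ^ k := by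
      rw [hy, hcomm.mul_pow, hk, one_mul]
    rw [hyp]
    have := (center G).pow_mem htz (r ^ k)
    exact (mem_center_iff.mp this (g : G))
  have := hq.isNilpotent
  exact Group.of_quotient_center_nilpotent this

end Good

end Cfsg.Agent.Lib.GS1.NormalIto
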