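import Mathlib
import Cfsg.Agent.Lib.GS1.NormalIto
import Cfsg.Agent.Lib.Core.Basic

/-!
# Normal subgroups with two class sizes: parts of abelian subgroups and orbit counts
-/

set_option autoImplicit false

namespace Cfsg.Agent.Lib.GS1.NormalIto

open Subgroup Cfsg.Agent.Lib.PGroup.Ito

variable {G : Type*} [Group G] [Finite G]

/-- The `r`-elements of a subgroup with commuting elements. -/
def pU (r : ℕ) (T : Subgroup G) (hT : ∀ a ∈ T, ∀ b ∈ T, a * b = b * a) : Subgroup G where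
  carrier := {x | x ∈ T ∧ PE r x}
  mul_mem' := fun ha hb => ⟨T.mul_mem ha.1 hb.1, PE.mul (hT _ ha.1 _ hb.1) ha.2 hb.2⟩
  one_mem' := ⟨T.one_mem, PE.one r⟩
  inv_mem' := fun ha => ⟨T.inv_mem ha.1, ha.2.inv⟩

/-- The `r'`-elements of a subgroup with commuting elements. -/
def pK (r : ℕ) (T : Subgroup G) (hT : ∀ a ∈ T, ∀ b ∈ T, a * b = b * a) : Subgroup G where
  carrier := {x | x ∈ T ∧ (orderOf x).Coprime r}
  mul_mem' := fun {a b} ha hb => ⟨T.mul_mem ha.1 hb.1, by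
    have hc : Commute a b := hT _ ha.1 _ hb.1
    exact Nat.Coprime.coprime_dvd_left (dvd_trans hc.orderOf_mul_dvd_lcm (Nat.lcm_dvd_mul _ _)) (Nat.Coprime.mul_left ha.2 hb.2)⟩
  one_mem' := ⟨T.one_mem, by simp⟩
  inv_mem' := fun ha => ⟨T.inv_mem ha.1, by simpa using ha.2⟩

variable {r : ℕ} {T : Subgroup G} {hT : ∀ a ∈ T, ∀ b ∈ T, a * b = b * a}

theorem mem_pU {x : G} : x ∈ pU r T hT ↔ x ∈ T ∧ PE r x := Iff.rfl

theorem mem_pK {x : G} : x ∈ pK r T hT ↔ x ∈ T ∧ (orderOf x).Coprime r := Iff.rfl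

theorem pU_le : pU r T hT ≤ T := fun _ h => h.1

theorem pK_le : pK r T hT ≤ T := fun _ h => h.1

theorem isPGroup_pU : IsPGroup r (pU r T hT) := by
  intro x
  obtain ⟨k, hk⟩ := x.2.2
  exact ⟨k, Subtype.ext (by simpa using hk)⟩

theorem coprime_card_pK (hr : r.Prime) : (Nat.card (pK r T hT)).Coprime r := by
  have : Fact r.Prime := ⟨hr⟩
  rw [Nat.coprime_comm, Nat.Prime.coprime_iff_not_dvd hr]
  intro hd
  obtain ⟨x, hx⟩ := exists_prime_orderOf_dvd_card' (G := pK r T hT) r hd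
  have h1 : (orderOf (x : G)).Coprime r := x.2.2
  rw [Subgroup.orderOf_coe, hx] at h1
  exact hr.one_lt.ne' (by simpa using h1)

theorem eq_one_of_PE_coprime {x : G} (h1 : PE r x) (h2 : (orderOf x).Coprime r) : x = 1 := by
  obtain ⟨k, hk⟩ := h1
  have h5 : orderOf x ∣ r ^ k := orderOf_dvd_of_pow_eq_one hk
  have h7 : orderOf x = 1 := (h2.pow_right k).eq_one_of_dvd h5
  exact orderOf_eq_one_iff.mp h7

theorem card_pU_mul_pK (hr : r.Prime) :
    Nat.card (pU r T hT) * Nat.card (pK r T hT) = Nat.card T := by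
  rw [← Nat.card_prod]
  refine Nat.card_congr (Equiv.ofBijective
    (fun p : pU r T hT × pK r T hT => (⟨(p.1 : G) * p.2, T.mul_mem p.1.2.1 p.2.2.1⟩ : T)) ⟨?_, ?_⟩)
  · rintro ⟨⟨a, ha⟩, ⟨b, hb⟩⟩ ⟨⟨a', ha'⟩, ⟨b', hb'⟩⟩ he
    have he' : a * b = a' * b' := congrArg Subtype.val he
    have h1 : a'⁻¹ * a = b' * b⁻¹ := by
      calc a'⁻¹ * a = a'⁻¹ * (a * b) * b⁻¹ := by group
        _ = a'⁻¹ * (a' * b') * b⁻¹ := by rw [he']
        _ = b' * b⁻¹ := by group
    have h2 : a'⁻¹ * a ∈ pU r T hT := (pU r T hT).mul_mem ((pU r T hT).inv_mem ha') ha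
    have h3 : a'⁻¹ * a ∈ pK r T hT := by
      rw [h1]
      exact (pK r T hT).mul_mem hb' ((pK r T hT).inv_mem hb)
    have h4 : a'⁻¹ * a = 1 := eq_one_of_PE_coprime h2.2 h3.2
    have e1 : a = a' := by
      have := mul_eq_one_iff_eq_inv.mp h4
      exact (inv_mul_eq_one.mp h4).symm
    subst e1
    have e2 : b = b' := mul_left_cancel he'
    subst e2
    rfl
  · rintro ⟨x, hx⟩
    obtain ⟨s, t, e, hc, hs, ht, hs', ht'⟩ := parts hr x
    refine ⟨⟨⟨s, mem_of_mem_zpowers hx hs', hs⟩, ⟨t, mem_of_mem_zpowers hx ht', ht⟩⟩, ?_⟩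
    exact Subtype.ext e.symm

theorem card_eq_relIndex_mul {H K : Subgroup G} (hle : H ≤ K) :
    Nat.card K = Nat.card H * H.relIndex K := by
  have h1 := Subgroup.card_mul_index (H.subgroupOf K)
  rw [← h1, Nat.card_congr (Subgroup.subgroupOfEquivOfLe hle).toEquiv]
  rfl

/-- Variant of `exists_upper`: inside a normal subgroup of a `q`-group. -/
theorem exists_upper2 {q : ℕ} (hq : q.Prime) {Q B : Subgroup G} (hQ : IsPGroup q Q) (hBQ : B ≤ Q)
    (hBn : ∀ s ∈ Q, ∀ b ∈ B, s * b * s⁻¹ ∈ B) (hne : ¬ B ≤ center G) :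
    ∃ v ∈ B, v ∉ center G ∧ ∀ c ∈ Q, v * c * v⁻¹ * c⁻¹ ∈ center G := by
  classical
  have : Fact q.Prime := ⟨hq⟩
  let W : Subgroup Q := (center G).subgroupOf Q
  haveI : W.Normal := by
    show ((center G).subgroupOf Q).Normal
    infer_instance
  haveI hB' : (B.subgroupOf Q).Normal := by
    refine ⟨fun n hn g => ?_⟩
    rw [mem_subgroupOf] at hn ⊢
    exact hBn _ g.2 _ hn
  let Bq : Subgroup (Q ⧸ W) := (B.subgroupOf Q).map (QuotientGroup.mk' W)
  haveI : Bq.Normal := hB'.map _ (QuotientGroup.mk'_surjective W)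
  have hBne : Bq ≠ ⊥ := by
    obtain ⟨b, hb, hbz⟩ := Set.not_subset.mp hne
    intro hbot
    have h1 : QuotientGroup.mk' W (⟨b, hBQ hb⟩ : Q) ∈ Bq := ⟨⟨b, hBQ hb⟩, hb, rfl⟩
    rw [hbot, mem_bot] at h1
    apply hbz
    exact (QuotientGroup.eq_one_iff (⟨b, hBQ hb⟩ : Q)).mp h1
  have hq' : IsPGroup q (Q ⧸ W) := hQ.to_quotient W
  haveI : Group.IsNilpotent (Q ⧸ W) := hq'.isNilpotent
  have hinf := Cfsg.Agent.Lib.Core.normal_inf_center_ne_bot Bq hBne
  obtain ⟨z, hz, hz1⟩ : ∃ z, z ∈ Bq ⊓ center (Q ⧸ W) ∧ z ≠ 1 := by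
    obtain ⟨z, hz⟩ := (Subgroup.ne_bot_iff_exists_ne_one).mp hinf
    exact ⟨z.1, z.2, fun h => hz (Subtype.ext h)⟩
  obtain ⟨⟨v, hvQ⟩, hvB, rfl⟩ := hz.1
  refine ⟨v, hvB, ?_, ?_⟩
  · intro hv
    apply hz1
    exact (QuotientGroup.eq_one_iff (⟨v, hvQ⟩ : Q)).mpr hv
  · intro c hc
    have h1 := mem_center_iff.mp hz.2 (QuotientGroup.mk ⟨c, hc⟩)
    have h2 : ((QuotientGroup.mk (⟨c, hc⟩ * ⟨v, hvQ⟩) : Q ⧸ W)) = QuotientGroup.mk (⟨v, hvQ⟩ * ⟨c, hc⟩) := by
      rw [QuotientGroup.mk_mul, QuotientGroup.mk_mul]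
      exact h1
    have h3 := QuotientGroup.eq.mp h2
    have h4 : (v : G)⁻¹ * c⁻¹ * v * c ∈ center G := by
      have h5 : ((⟨c, hc⟩ * ⟨v, hvQ⟩)⁻¹ * (⟨v, hvQ⟩ * ⟨c, hc⟩) : Q) ∈ W := h3
      have h6 := mem_subgroupOf.mp h5
      have e : (((⟨c, hc⟩ * ⟨v, hvQ⟩)⁻¹ * (⟨v, hvQ⟩ * ⟨c, hc⟩) : Q) : G) = (v : G)⁻¹ * c⁻¹ * v * c := by
        simp [mul_assoc]
      rwa [e] at h6
    have hN : (center G).Normal := inferInstance
    have h7 := hN.conj_mem _ h4 (v * c)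
    have e : (v : G) * c * ((v : G)⁻¹ * c⁻¹ * v * c) * ((v : G) * c)⁻¹ = v * c * (v : G)⁻¹ * c⁻¹ := by group
    rwa [e] at h7

/-- `w` modulo central conjugates: the centralizer is normalized. -/
theorem mem_normalizer_of_comm {w s : G} (hs : w * s * w⁻¹ * s⁻¹ ∈ center G) :
    s ∈ normalizer (C w : Set G) := by
  set z := w * s * w⁻¹ * s⁻¹ with hz
  have e : s * w * s⁻¹ = z⁻¹ * w := by
    rw [hz]; group
  have hzi : z⁻¹ ∈ center G := (center G).inv_mem hs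
  apply mem_normalizer_of_C_conj_eq
  rw [e]
  ext y
  rw [mem_C, mem_C]
  have hc := mem_center_iff.mp hzi y
  constructor
  · intro h
    have : y * (z⁻¹ * w) = z⁻¹ * (y * w) := by
      rw [← mul_assoc, hc, mul_assoc]
    rw [this] at h
    have h' : z⁻¹ * w * y = z⁻¹ * (w * y) := by group
    rw [h'] at h
    exact mul_left_cancel h
  · intro h
    have : y * (z⁻¹ * w) = z⁻¹ * (y * w) := by
      rw [← mul_assoc, hc, mul_assoc]
    rw [this, h]; group

/-- The `q`-part of the size of a class of an element which is central modulo the centre of `G`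
in a Sylow `q`-subgroup. -/
theorem index_part {q : ℕ} [hq : Fact q.Prime] (Q : Sylow q G) {w : G}
    (hQ : ∀ s ∈ Q, w * s * w⁻¹ * s⁻¹ ∈ center G) :
    ∃ b j : ℕ, (C w).index = (C w).relIndex Q * b ∧ ¬ q ∣ b ∧ (C w).relIndex Q = q ^ j := by
  have hnor : (Q : Subgroup G) ≤ normalizer (C w : Set G) := fun s hs => mem_normalizer_of_comm (hQ s hs)
  set B : Subgroup G := C w ⊔ Q with hB
  have h1 : (C w).relIndex B * B.index = (C w).index := relIndex_mul_index le_sup_left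
  have hn : ((C w).subgroupOf B).Normal := by
    apply normal_subgroupOf_of_le_normalizer
    rw [hB]
    apply sup_le
    · exact le_normalizer
    · exact hnor
  have h2 : (C w).relIndex B = (C w).relIndex Q := by
    have h3 := Subgroup.relIndex_sup_right (Q.1.subgroupOf B) ((C w).subgroupOf B)
    have h4 : Q.1.subgroupOf B ⊔ (C w).subgroupOf B = ⊤ := by
      rw [← subgroupOf_sup (le_sup_right : Q.1 ≤ B) (le_sup_left : C w ≤ B), sup_comm]
      exact subgroupOf_self B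
    rw [h4, relIndex_top_right, relIndex_subgroupOf (le_sup_right : Q.1 ≤ B)] at h3
    exact h3
  refine ⟨B.index, ?_⟩
  have h5 : ¬ q ∣ B.index := fun hd => Q.not_dvd_index (hd.trans (index_dvd_of_le le_sup_right))
  have h6 : (C w).relIndex Q ∣ Nat.card Q := relIndex_dvd_card _ _
  obtain ⟨n, hn'⟩ := IsPGroup.iff_card.mp Q.isPGroup'
  rw [hn'] at h6
  obtain ⟨j, -, hj⟩ := (Nat.dvd_prime_pow hq.out).mp h6
  exact ⟨j, by rw [← h2, h1], h5, hj⟩

/-- Orbit counting for a conjugation action of a subgroup on a subset. -/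
theorem dvd_ncard (Q : Subgroup G) (S : Set G) (hS : ∀ x ∈ S, ∀ s ∈ Q, s * x * s⁻¹ ∈ S) (a : ℕ)
    (ha : ∀ x ∈ S, a ∣ (C x).relIndex Q) : a ∣ S.ncard := by
  classical
  letI act : MulAction Q S :=
    { smul := fun s x => ⟨(s : G) * x * (s : G)⁻¹, hS x x.2 s s.2⟩
      one_smul := fun x => Subtype.ext (by show ((1 : Q) : G) * x * ((1 : Q) : G)⁻¹ = x; simp)
      mul_smul := fun s t x => Subtype.ext (by
        show ((s * t : Q) : G) * x * ((s * t : Q) : G)⁻¹ = s * (t * x * (t : G)⁻¹) * (s : G)⁻¹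
        simp only [Subgroup.coe_mul]; group) }
  have hsmul : ∀ (s : Q) (x : S), ((s • x : S) : G) = (s : G) * x * (s : G)⁻¹ := fun _ _ => rfl
  rw [← Nat.card_coe_set_eq, Nat.card_congr (MulAction.selfEquivSigmaOrbits Q S)]
  have := Fintype.ofFinite (MulAction.orbitRel.Quotient Q S)
  rw [Nat.card_sigma]
  apply Finset.dvd_sum
  intro ω _
  have h2 := MulAction.index_stabilizer Q (Quotient.out ω)
  have h1 : MulAction.stabilizer Q (Quotient.out ω) = (C ((Quotient.out ω : S) : G)).subgroupOf Q := by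
    ext s
    rw [MulAction.mem_stabilizer_iff, mem_subgroupOf, mem_C]
    constructor
    · intro he
      have h3 := congrArg Subtype.val he
      rw [hsmul] at h3
      exact mul_inv_eq_iff_eq_mul.mp h3
    · intro he
      apply Subtype.ext
      rw [hsmul]
      exact mul_inv_eq_iff_eq_mul.mpr he
  rw [h1] at h2
  have h3 := ha _ (Quotient.out ω).2
  unfold relIndex at h3
  rw [h2] at h3
  rw [Nat.card_coe_set_eq]
  exact h3

end Cfsg.Agent.Lib.GS1.NormalIto
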