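import Mathlib
import Cfsg.Agent.Lib.GS1.NormalIto2

/-!
# Normal subgroups with two class sizes: the case where the prime divides the size
-/

set_option autoImplicit false

namespace Cfsg.Agent.Lib.GS1.NormalIto

open Subgroup Cfsg.Agent.Lib.PGroup.Ito

variable {G : Type*} [Group G] [Finite G]

section Sy

variable {r : ℕ} [hr : Fact r.Prime]

theorem exists_sylow_sub (H : Subgroup G) :
    ∃ S ≤ H, IsPGroup r S ∧ Nat.card S = r ^ (Nat.card H).factorization r := by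
  obtain ⟨P⟩ : Nonempty (Sylow r H) := inferInstance
  refine ⟨(P : Subgroup H).map H.subtype, ?_, P.isPGroup'.map _, ?_⟩
  · rintro _ ⟨y, -, rfl⟩
    exact y.2
  · rw [Subgroup.card_map_of_injective H.subtype_injective]
    exact Sylow.card_eq_multiplicity P

theorem card_dvd_ordProj {S H : Subgroup G} (hS : IsPGroup r S) (hSH : S ≤ H) :
    Nat.card S ∣ r ^ (Nat.card H).factorization r := by
  obtain ⟨n, hn⟩ := IsPGroup.iff_card.mp hS
  have h1 : Nat.card S ∣ Nat.card H := Subgroup.card_dvd_of_le hSH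
  rw [hn] at h1 ⊢
  exact pow_dvd_pow r ((Nat.Prime.pow_dvd_iff_le_factorization hr.out Nat.card_pos.ne').mp h1)

end Sy

/-- The `r`-part of the order of a centralizer. -/
noncomputable def crr (G : Type*) [Group G] (r m : ℕ) : ℕ := r ^ (Nat.card G / m).factorization r

theorem AZ_comm (N : Subgroup G) : ∀ a ∈ N ⊓ center G, ∀ b ∈ N ⊓ center G, a * b = b * a :=
  fun _ ha b _ => (mem_center_iff.mp ha.2 b).symm

/-- Central `r`-elements in `N`. -/
abbrev Ar (r : ℕ) (N : Subgroup G) : Subgroup G := pU r (N ⊓ center G) (AZ_comm N)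

/-- Central `r'`-elements in `N`. -/
abbrev Ak (r : ℕ) (N : Subgroup G) : Subgroup G := pK r (N ⊓ center G) (AZ_comm N)

theorem Ar_le_center {r : ℕ} {N : Subgroup G} : Ar r N ≤ center G := fun _ hx => hx.1.2

theorem Ak_le_center {r : ℕ} {N : Subgroup G} : Ak r N ≤ center G := fun _ hx => hx.1.2

theorem ncard_diff_sub {H K : Subgroup G} (hle : H ≤ K) :
    ((K : Set G) \ (H : Set G)).ncard = Nat.card K - Nat.card H := by
  rw [Set.ncard_sdiff (by exact_mod_cast hle) (Set.toFinite _)]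
  rw [← Nat.card_coe_set_eq, ← Nat.card_coe_set_eq]
  rfl

theorem card_lt {H K : Subgroup G} (hlt : H < K) : Nat.card H < Nat.card K := by
  refine lt_of_le_of_ne (Subgroup.card_le_of_le hlt.le) ?_
  intro he
  exact hlt.ne (Subgroup.eq_of_le_of_card_ge hlt.le he.ge)

section Main

variable {N : Subgroup G} [hNn : N.Normal] {m r : ℕ} [hr : Fact r.Prime]

theorem card_C (h : TS N m) {x : G} (hx : x ∈ N) (hz : x ∉ center G) :
    Nat.card (C x) = Nat.card G / m := by
  have h1 := Subgroup.card_mul_index (C x)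
  rw [index_eq h hx hz] at h1
  have hm : 0 < m := by
    rw [← index_eq h hx hz]
    exact Nat.pos_of_ne_zero index_ne_zero_of_finite
  rw [← h1, Nat.mul_div_cancel _ hm]

theorem conj_mem_N {x : G} (hx : x ∈ N) (g : G) : g * x * g⁻¹ ∈ N := hNn.conj_mem x hx g

omit hNn in
theorem mem_Ar_of (hRN : ∀ x : G, PE r x → x ∈ N) {x : G} (hx : x ∈ center G) (hp : PE r x) :
    x ∈ Ar r N := ⟨⟨hRN x hp, hx⟩, hp⟩

omit hNn in
theorem center_le_of_Gd {D : Subgroup G} (hD : Gd N r D) : center G ≤ D := by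
  obtain ⟨u, v, -, -, -, -, -, -, -, rfl⟩ := hD
  exact center_le_C u

omit hNn in
theorem AZ_le {D : Subgroup G} (hD : Gd N r D) : N ⊓ center G ≤ D ⊓ N :=
  fun _ hx => ⟨center_le_of_Gd hD hx.2, hx.1⟩

omit hNn in
/-- The `r`-part of `D ⊓ N`. -/
abbrev UU (h : TS N m) {D : Subgroup G} (hD : Gd N r D) : Subgroup G :=
  pU r (D ⊓ N) (hD.comm h hr.out)

omit hNn in
/-- The `r'`-part of `D ⊓ N`. -/
abbrev KK (h : TS N m) {D : Subgroup G} (hD : Gd N r D) : Subgroup G :=
  pK r (D ⊓ N) (hD.comm h hr.out)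

omit hNn in
theorem Ar_le_UU (h : TS N m) {D : Subgroup G} (hD : Gd N r D) : Ar r N ≤ UU h hD :=
  fun _ hx => ⟨AZ_le hD hx.1, hx.2⟩

omit hNn in
theorem Ak_le_KK (h : TS N m) {D : Subgroup G} (hD : Gd N r D) : Ak r N ≤ KK h hD :=
  fun _ hx => ⟨AZ_le hD hx.1, hx.2⟩

theorem card_D (h : TS N m) {D : Subgroup G} (hD : Gd N r D) : Nat.card D = Nat.card G / m := by
  obtain ⟨u, v, hu, huz, -, -, -, -, -, rfl⟩ := hD
  exact card_C h hu huz

theorem card_UU (h : TS N m) (hRN : ∀ x : G, PE r x → x ∈ N) {D : Subgroup G} (hD : Gd N r D) :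
    Nat.card (UU h hD) = crr G r m := by
  obtain ⟨S, hSD, hSp, hSc⟩ := exists_sylow_sub (r := r) D
  have hle : S ≤ UU h hD := fun x hx =>
    ⟨⟨hSD hx, hRN x (PE.of_mem_isPGroup hSp hx)⟩, PE.of_mem_isPGroup hSp hx⟩
  have h1 : Nat.card S ∣ Nat.card (UU h hD) := Subgroup.card_dvd_of_le hle
  have h2 : Nat.card (UU h hD) ∣ r ^ (Nat.card D).factorization r :=
    card_dvd_ordProj isPGroup_pU (fun x hx => hx.1.1)
  rw [hSc] at h1
  have h3 := Nat.dvd_antisymm h2 h1
  rw [h3, card_D h hD]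
  rfl

omit hNn in
theorem Gd.exists_u {D : Subgroup G} (h : TS N m) (hD : Gd N r D) : ∃ u ∈ KK h hD, u ∉ center G := by
  obtain ⟨u, v, hu, huz, huc, -, -, -, -, rfl⟩ := id hD
  exact ⟨u, ⟨⟨self_mem_C u, hu⟩, huc⟩, huz⟩

omit hNn in
theorem Gd.exists_v {D : Subgroup G} (h : TS N m) (hD : Gd N r D) : ∃ v ∈ UU h hD, v ∉ center G := by
  obtain ⟨u, v, hu, huz, huc, hv, hvz, hvp, huv, rfl⟩ := id hD
  exact ⟨v, ⟨⟨mem_C.mpr huv.symm, hv⟩, hvp⟩, hvz⟩

/-- An element normalizing `D` normalizes the `r`-part. -/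
theorem conj_mem_UU (h : TS N m) {D : Subgroup G} (hD : Gd N r D) {s x : G}
    (hs : s ∈ normalizer (D : Set G)) (hx : x ∈ UU h hD) : s * x * s⁻¹ ∈ UU h hD :=
  ⟨⟨(mem_normalizer_iff.mp hs x).mp hx.1.1, conj_mem_N hx.1.2 s⟩, hx.2.conj s⟩

theorem conj_mem_KK (h : TS N m) {D : Subgroup G} (hD : Gd N r D) {s x : G}
    (hs : s ∈ normalizer (D : Set G)) (hx : x ∈ KK h hD) : s * x * s⁻¹ ∈ KK h hD := by
  refine ⟨⟨(mem_normalizer_iff.mp hs x).mp hx.1.1, conj_mem_N hx.1.2 s⟩, ?_⟩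
  have : orderOf (s * x * s⁻¹) = orderOf x := by
    have := orderOf_injective (MulAut.conj s).toMonoidHom (MulAut.conj s).injective x
    simpa [MulAut.conj_apply] using this
  rw [this]
  exact hx.2

theorem hGood_of (h : TS N m) (hRN : ∀ x : G, PE r x → x ∈ N) (hnc : ∃ x : G, PE r x ∧ x ∉ center G)
    {u : G} (hu : u ∈ N) (huz : u ∉ center G) (huc : (orderOf u).Coprime r) : Gd N r (C u) := by
  obtain ⟨S, hSD, hSp, hSc⟩ := exists_sylow_sub (r := r) (C u)
  by_cases hall : ∀ v ∈ S, v ∈ center G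
  · exfalso
    obtain ⟨x, hxp, hxz⟩ := hnc
    have hxN := hRN x hxp
    have hSA : S ≤ Ar r N := fun v hv => mem_Ar_of hRN (hall v hv) (PE.of_mem_isPGroup hSp hv)
    have h1 : Nat.card S ≤ Nat.card (Ar r N) := Subgroup.card_le_of_le hSA
    have hn : (Ar r N).Normal := by
      refine ⟨fun a ha g => ?_⟩
      have hac : a ∈ center G := ha.1.2
      have : g * a * g⁻¹ = a := by
        have := mem_center_iff.mp hac g
        rw [this]; group
      rw [this]
      exact ha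
    have hBp : IsPGroup r ((zpowers x) ⊔ Ar r N : Subgroup G) :=
      IsPGroup.to_sup_of_normal_right (hxp.isPGroup_zpowers hr.out) isPGroup_pU
    have hBC : ((zpowers x) ⊔ Ar r N : Subgroup G) ≤ C x := by
      apply sup_le
      · simpa using self_mem_C x
      · exact fun a ha => center_le_C x (Ar_le_center ha)
    have h2 := card_dvd_ordProj hBp hBC
    rw [card_C h hxN hxz] at h2
    rw [card_C h hu huz] at hSc
    have h3 : Nat.card (Ar r N) < Nat.card ((zpowers x) ⊔ Ar r N : Subgroup G) := by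
      apply card_lt
      refine lt_of_le_of_ne le_sup_right ?_
      intro he
      have hx1 : x ∈ (zpowers x) ⊔ Ar r N := (le_sup_left : zpowers x ≤ _) (mem_zpowers x)
      rw [← he] at hx1
      exact hxz (Ar_le_center hx1)
    have h4 := Nat.le_of_dvd (pow_pos hr.out.pos _) h2
    rw [hSc] at h1
    omega
  · push Not at hall
    obtain ⟨v, hv, hvz⟩ := hall
    have hvp := PE.of_mem_isPGroup hSp hv
    exact ⟨u, v, hu, huz, huc, hRN v hvp, hvz, hvp, (mem_C.mp (hSD hv)).symm, rfl⟩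

/-- `tr ≥ 2`. -/
theorem ar_lt_crr (h : TS N m) (hRN : ∀ x : G, PE r x → x ∈ N) {D : Subgroup G} (hD : Gd N r D) :
    Nat.card (Ar r N) < crr G r m := by
  rw [← card_UU h hRN hD]
  apply card_lt
  refine lt_of_le_of_ne (Ar_le_UU h hD) ?_
  intro he
  obtain ⟨v, hv, hvz⟩ := hD.exists_v h
  rw [← he] at hv
  exact hvz (Ar_le_center hv)

theorem ar_dvd_crr (h : TS N m) (hRN : ∀ x : G, PE r x → x ∈ N) {D : Subgroup G} (hD : Gd N r D) :
    Nat.card (Ar r N) ∣ crr G r m := by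
  rw [← card_UU h hRN hD]
  exact Subgroup.card_dvd_of_le (Ar_le_UU h hD)

theorem not_center_of_not_Ar (hRN : ∀ x : G, PE r x → x ∈ N) (h : TS N m) {D : Subgroup G}
    (hD : Gd N r D) {x : G} (hx : x ∈ UU h hD) (hn : x ∉ Ar r N) : x ∉ center G :=
  fun hz => hn (mem_Ar_of hRN hz hx.2)

omit hNn in
theorem not_center_of_not_Ak (h : TS N m) {D : Subgroup G}
    (hD : Gd N r D) {x : G} (hx : x ∈ KK h hD) (hn : x ∉ Ak r N) : x ∉ center G :=
  fun hz => hn ⟨⟨hx.1.2, hz⟩, hx.2⟩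

/-- The key divisibility. -/
theorem qpart (h : TS N m) (hRN : ∀ x : G, PE r x → x ∈ N) (hnc : ∃ x : G, PE r x ∧ x ∉ center G)
    {q : ℕ} [hq : Fact q.Prime] (hqr : q ≠ r) (hne : ∃ x ∈ N, x ∉ center G ∧ PE q x) {k : ℕ}
    (hk : q ^ k ∣ m) : q ^ k ∣ crr G r m / Nat.card (Ar r N) - 1 := by
  obtain ⟨x, hxN, hxz, hxq⟩ := hne
  obtain ⟨Q⟩ : Nonempty (Sylow q G) := inferInstance
  obtain ⟨g, hg⟩ := exists_conj_mem hq.out hxq Q.not_dvd_index
  have hBne : ¬ ((Q : Subgroup G) ⊓ N) ≤ center G :=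
    fun hle => conj_not_mem_center hxz g (hle ⟨hg, conj_mem_N hxN g⟩)
  obtain ⟨w, hwB, hwz, hwc⟩ := exists_upper2 hq.out Q.isPGroup' (B := (Q : Subgroup G) ⊓ N) inf_le_left
    (fun s hs b hb => ⟨Q.1.mul_mem (Q.1.mul_mem hs hb.1) (Q.1.inv_mem hs), conj_mem_N hb.2 s⟩) hBne
  have hwq : PE q w := PE.of_mem_isPGroup Q.isPGroup' hwB.1
  have hwc' : (orderOf w).Coprime r := hwq.coprime hq.out hr.out hqr
  have hD : Gd N r (C w) := hGood_of h hRN hnc hwB.2 hwz hwc'
  obtain ⟨b, j, hb, hbq, hj⟩ := index_part Q hwc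
  rw [index_eq h hwB.2 hwz] at hb
  have hcop : Nat.Coprime (q ^ k) b :=
    Nat.Coprime.pow_left _ ((Nat.Prime.coprime_iff_not_dvd hq.out).mpr hbq)
  have h1 : q ^ k ∣ (C w).relIndex Q := by
    rw [hb] at hk
    exact hcop.dvd_of_dvd_mul_right hk
  have hS := dvd_ncard (Q : Subgroup G) ((UU h hD : Set G) \ (Ar r N : Set G))
    (fun x hx s hs => ⟨conj_mem_UU h hD (mem_normalizer_of_comm (hwc s hs)) hx.1, fun hh =>
      conj_not_mem_center (not_center_of_not_Ar hRN h hD hx.1 hx.2) s (Ar_le_center hh)⟩)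
    ((C w).relIndex Q) (fun x hx => by
      rw [hD.eq h hr.out hx.1.1.2 hx.1.1.1 (not_center_of_not_Ar hRN h hD hx.1 hx.2)])
  rw [ncard_diff_sub (Ar_le_UU h hD), card_UU h hRN hD] at hS
  obtain ⟨tr, htr⟩ := ar_dvd_crr h hRN hD
  have hlt := ar_lt_crr h hRN hD
  have har : 0 < Nat.card (Ar r N) := Nat.card_pos
  have e1 : crr G r m - Nat.card (Ar r N) = Nat.card (Ar r N) * (tr - 1) := by
    rw [htr, Nat.mul_sub, mul_one]
  have e2 : crr G r m / Nat.card (Ar r N) = tr := by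
    rw [htr, Nat.mul_div_cancel_left _ har]
  rw [e1] at hS
  rw [e2]
  obtain ⟨n, hn⟩ := IsPGroup.iff_card.mp (isPGroup_pU (r := r) (T := N ⊓ center G) (hT := AZ_comm N))
  have hcop2 : Nat.Coprime ((C w).relIndex Q) (Nat.card (Ar r N)) := by
    rw [hj, hn]
    exact Nat.Coprime.pow _ _ ((Nat.coprime_primes hq.out hr.out).mpr hqr)
  exact h1.trans (hcop2.dvd_of_dvd_mul_left hS)

/-- The `r'`-part of `N`-class sizes divides `tr - 1`. -/
theorem dpart (h : TS N m) (hRN : ∀ x : G, PE r x → x ∈ N) (hnc : ∃ x : G, PE r x ∧ x ∉ center G)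
    {g : G} (hg : g ∈ N) (hgz : g ∉ center G) :
    ((C g).relIndex N) / r ^ ((C g).relIndex N).factorization r ∣
      crr G r m / Nat.card (Ar r N) - 1 := by
  set d := (C g).relIndex N with hd
  have hd0 : d ≠ 0 := by
    rw [hd]
    exact Subgroup.index_ne_zero_of_finite
  rw [Nat.dvd_iff_prime_pow_dvd_dvd]
  intro q k hq hqk
  rcases Nat.eq_zero_or_pos k with rfl | hk
  · simp
  have hqD : q ∣ d / r ^ d.factorization r := (dvd_pow_self q hk.ne').trans hqk
  have hqne : q ≠ r := by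
    rintro rfl
    exact (Nat.not_dvd_ordCompl hq hd0) hqD
  have hqd : q ^ k ∣ d := hqk.trans (Nat.ordCompl_dvd d r)
  have hdm : d ∣ m := by
    rw [← index_eq h hg hgz]
    exact Cfsg.Agent.Lib.ClassSizes.relIndex_dvd_index_of_normal_right _ _
  have : Fact q.Prime := ⟨hq⟩
  refine qpart h hRN hnc hqne ?_ (hqd.trans hdm)
  -- a noncentral `q`-element in `N`
  by_contra hno
  push Not at hno
  obtain ⟨P⟩ : Nonempty (Sylow q N) := inferInstance
  have hle : (P : Subgroup N) ≤ (C g).subgroupOf N := by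
    intro y hy
    have h1 : PE q (y : G) := (PE.of_mem_isPGroup P.isPGroup' hy).coe
    have h2 : (y : G) ∈ center G := by
      by_contra hh
      exact hno _ y.2 hh h1
    exact center_le_C g h2
  have h3 : d ∣ (P : Subgroup N).index := index_dvd_of_le hle
  exact P.not_dvd_index (((dvd_pow_self q hk.ne').trans hqd).trans h3)

end Main

end Cfsg.Agent.Lib.GS1.NormalIto
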