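import Mathlib
import Cfsg.Agent.Lib.GS1.NormalIto3

/-!
# Normal subgroups with two class sizes: conclusion
-/

set_option autoImplicit false

namespace Cfsg.Agent.Lib.GS1.NormalIto

open Subgroup Cfsg.Agent.Lib.PGroup.Ito

variable {G : Type*} [Group G] [Finite G]

variable {N : Subgroup G} [hNn : N.Normal] {m r : ℕ} [hr : Fact r.Prime]

/-- Orders of central parts. -/
theorem card_AZ : Nat.card (Ar r N) * Nat.card (Ak r N) = Nat.card (N ⊓ center G : Subgroup G) :=
  card_pU_mul_pK hr.out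

omit hNn in
theorem card_T (h : TS N m) {D : Subgroup G} (hD : Gd N r D) :
    Nat.card (UU h hD) * Nat.card (KK h hD) = Nat.card (D ⊓ N : Subgroup G) :=
  card_pU_mul_pK hr.out

omit hNn in
theorem ak_lt (h : TS N m) {D : Subgroup G} (hD : Gd N r D) :
    Nat.card (Ak r N) < Nat.card (KK h hD) := by
  apply card_lt
  refine lt_of_le_of_ne (Ak_le_KK h hD) ?_
  intro he
  obtain ⟨v, hv, hvz⟩ := hD.exists_u h
  rw [← he] at hv
  exact hvz (Ak_le_center hv)

omit hNn in
/-- A divisibility from orbits on the `r'`-part. -/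
theorem dvd_tau (h : TS N m) {D : Subgroup G} (hD : Gd N r D) (Q : Subgroup G) (hQ : IsPGroup r Q)
    (hQN : ∀ s ∈ Q, ∀ x ∈ KK h hD, s * x * s⁻¹ ∈ KK h hD) (a : ℕ) (ha : a ∣ D.relIndex Q) :
    a ∣ Nat.card (KK h hD) / Nat.card (Ak r N) - 1 := by
  have hS := dvd_ncard Q ((KK h hD : Set G) \ (Ak r N : Set G))
    (fun x hx s hs => ⟨hQN s hs x hx.1, fun hh =>
      conj_not_mem_center (not_center_of_not_Ak h hD hx.1 hx.2) s (Ak_le_center hh)⟩)
    a (fun x hx => by
      rw [hD.eq h hr.out hx.1.1.2 hx.1.1.1 (not_center_of_not_Ak h hD hx.1 hx.2)]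
      exact ha)
  rw [ncard_diff_sub (Ak_le_KK h hD)] at hS
  obtain ⟨τ, hτ⟩ := Subgroup.card_dvd_of_le (Ak_le_KK h hD)
  have hak : 0 < Nat.card (Ak r N) := Nat.card_pos
  have e1 : Nat.card (KK h hD) - Nat.card (Ak r N) = Nat.card (Ak r N) * (τ - 1) := by
    rw [hτ, Nat.mul_sub, mul_one]
  have e2 : Nat.card (KK h hD) / Nat.card (Ak r N) = τ := by
    rw [hτ, Nat.mul_div_cancel_left _ hak]
  rw [e1] at hS
  rw [e2]
  -- `a` is a power of `r`
  have ha2 : D.relIndex Q ∣ Nat.card Q := relIndex_dvd_card _ _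
  obtain ⟨n, hn⟩ := IsPGroup.iff_card.mp hQ
  rw [hn] at ha2
  obtain ⟨j, -, hj⟩ := (Nat.dvd_prime_pow hr.out).mp (ha.trans ha2)
  have hcop : Nat.Coprime a (Nat.card (Ak r N)) := by
    rw [hj]
    exact Nat.Coprime.pow_left _ (coprime_card_pK hr.out).symm
  exact hcop.dvd_of_dvd_mul_left hS

theorem caseA (h : TS N m) (hRN : ∀ x : G, PE r x → x ∈ N) (hnc : ∃ x : G, PE r x ∧ x ∉ center G)
    (hdiv : r ∣ m) (P : Sylow r G) {y : G} (hyP : y ∈ P) (hyz : y ∉ center G)
    (hy : ∀ c ∈ P, y * c * y⁻¹ * c⁻¹ ∈ center G) {u : G} (hu : u ∈ N) (huz : u ∉ center G)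
    (huc : (orderOf u).Coprime r) (huy : u ∈ C y) : False := by
  have hyp : PE r y := PE.of_mem_isPGroup P.isPGroup' hyP
  have hyN : y ∈ N := hRN y hyp
  have hD : Gd N r (C u) := ⟨u, y, hu, huz, huc, hyN, hyz, hyp, mem_C.mp huy, rfl⟩
  have hCy : C y = C u := hD.eq h hr.out hyN (mem_C.mpr (mem_C.mp huy).symm) hyz
  have hPN : (P : Subgroup G) ≤ N := fun x hx => hRN x (PE.of_mem_isPGroup P.isPGroup' hx)
  -- an element of `N` outside `C u`
  obtain ⟨g, hgN, hgD⟩ : ∃ g ∈ N, g ∉ C u := by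
    by_contra hno
    push Not at hno
    have hle : (P : Subgroup G) ≤ C y := by
      rw [hCy]
      exact fun x hx => hno x (hPN hx)
    have h1 : (C y).index ∣ (P : Subgroup G).index := index_dvd_of_le hle
    rw [index_eq h hyN hyz] at h1
    exact P.not_dvd_index (hdiv.trans h1)
  have hgz : g ∉ center G := fun hh => hgD (center_le_C u hh)
  obtain ⟨b, j, hb, hbr, hj⟩ := index_part P hy
  rw [index_eq h hyN hyz] at hb
  -- the bound for the `r`-part
  have hnor : ∀ s ∈ P, s ∈ normalizer (C u : Set G) := by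
    intro s hs
    rw [← hCy]
    exact mem_normalizer_of_comm (hy s hs)
  have htau := dvd_tau h hD (P : Subgroup G) P.isPGroup' (fun s hs x hx => conj_mem_KK h hD (hnor s hs) hx)
    ((C y).relIndex P) (by rw [hCy])
  -- notation
  obtain ⟨τ, hτ⟩ := Subgroup.card_dvd_of_le (Ak_le_KK h hD)
  obtain ⟨tr, htr⟩ := ar_dvd_crr h hRN hD
  have hak : 0 < Nat.card (Ak r N) := Nat.card_pos
  have har : 0 < Nat.card (Ar r N) := Nat.card_pos
  have hτ2 : 2 ≤ τ := by
    have := ak_lt h hD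
    rw [hτ] at this
    by_contra hh
    have h3 : τ ≤ 1 := by omega
    have : Nat.card (Ak r N) * τ ≤ Nat.card (Ak r N) * 1 := Nat.mul_le_mul_left _ h3
    omega
  have htr2 : 2 ≤ tr := by
    have := ar_lt_crr h hRN hD
    rw [htr] at this
    by_contra hh
    have h3 : tr ≤ 1 := by omega
    have : Nat.card (Ar r N) * tr ≤ Nat.card (Ar r N) * 1 := Nat.mul_le_mul_left _ h3
    omega
  have e2 : Nat.card (KK h hD) / Nat.card (Ak r N) = τ := by
    rw [hτ, Nat.mul_div_cancel_left _ hak]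
  have e3 : crr G r m / Nat.card (Ar r N) = tr := by
    rw [htr, Nat.mul_div_cancel_left _ har]
  rw [e2] at htau
  have hdp := dpart h hRN hnc hgN hgz
  rw [e3] at hdp
  set d := (C g).relIndex N with hd
  have hd0 : d ≠ 0 := by
    rw [hd]
    exact Subgroup.index_ne_zero_of_finite
  have hdm : d ∣ m := by
    rw [← index_eq h hgN hgz]
    exact Cfsg.Agent.Lib.ClassSizes.relIndex_dvd_index_of_normal_right _ _
  -- the `r`-part of `d` is at most the `r`-part of `m`
  have hvr : r ^ d.factorization r ∣ (C y).relIndex P := by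
    have h1 : r ^ d.factorization r ∣ (C y).relIndex P * b := by
      rw [← hb]
      exact (Nat.ordProj_dvd d r).trans hdm
    have hcop : Nat.Coprime (r ^ d.factorization r) b :=
      Nat.Coprime.pow_left _ ((Nat.Prime.coprime_iff_not_dvd hr.out).mpr hbr)
    exact hcop.dvd_of_dvd_mul_right h1
  have hle1 : r ^ d.factorization r ≤ τ - 1 :=
    Nat.le_of_dvd (by omega) (hvr.trans htau)
  have hle2 : d / r ^ d.factorization r ≤ tr - 1 := Nat.le_of_dvd (by omega) hdp
  have hdle : d ≤ (τ - 1) * (tr - 1) := by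
    have := Nat.ordProj_mul_ordCompl_eq_self d r
    calc d = r ^ d.factorization r * (d / r ^ d.factorization r) := this.symm
      _ ≤ (τ - 1) * (tr - 1) := Nat.mul_le_mul hle1 hle2
  -- the lower bound
  have hsub : (C g) ⊓ (C u ⊓ N) ≤ N ⊓ center G := by
    intro x hx
    refine ⟨hx.2.2, ?_⟩
    by_contra hxz
    have h1 := hD.eq h hr.out hx.2.2 hx.2.1 hxz
    have h2 : g ∈ C x := mem_C.mpr (mem_C.mp hx.1).symm
    rw [h1] at h2
    exact hgD h2
  have hrel : (N ⊓ center G).relIndex (C u ⊓ N) ∣ (C g).relIndex (C u ⊓ N) := by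
    have h1 := relIndex_dvd_of_le_left (C u ⊓ N) hsub
    rwa [inf_relIndex_right] at h1
  have hle3 : (C g).relIndex (C u ⊓ N) ≤ d :=
    relIndex_le_of_le_right inf_le_right Subgroup.index_ne_zero_of_finite
  have hval : (N ⊓ center G).relIndex (C u ⊓ N) = tr * τ := by
    have h1 := card_eq_relIndex_mul (AZ_le hD)
    rw [← card_T h hD, card_UU h hRN hD, ← card_AZ (r := r) (N := N), htr, hτ] at h1
    have h2 : Nat.card (Ar r N) * Nat.card (Ak r N) * (tr * τ) =
        Nat.card (Ar r N) * Nat.card (Ak r N) * (N ⊓ center G).relIndex (C u ⊓ N) := by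
      rw [← h1]; ring
    exact (Nat.eq_of_mul_eq_mul_left (Nat.mul_pos har hak) h2).symm
  have hle4 : tr * τ ≤ (C g).relIndex (C u ⊓ N) := by
    rw [← hval]
    exact Nat.le_of_dvd (Nat.pos_of_ne_zero Subgroup.index_ne_zero_of_finite) hrel
  have hfin : tr * τ ≤ (τ - 1) * (tr - 1) := by omega
  obtain ⟨t', rfl⟩ : ∃ t', tr = t' + 1 := ⟨tr - 1, by omega⟩
  obtain ⟨τ', rfl⟩ : ∃ t', τ = t' + 1 := ⟨τ - 1, by omega⟩
  simp only [Nat.add_sub_cancel] at hfin
  nlinarith

theorem caseB (h : TS N m) (hRN : ∀ x : G, PE r x → x ∈ N) (hnc : ∃ x : G, PE r x ∧ x ∉ center G)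
    (P : Sylow r G)
    (hB : ∀ y ∈ P, y ∉ center G → (∀ c ∈ P, y * c * y⁻¹ * c⁻¹ ∈ center G) →
      ∀ u ∈ N, u ∉ center G → (orderOf u).Coprime r → u ∉ C y)
    {D : Subgroup G} (hD : Gd N r D) (hUP : UU h hD ≤ P) : False := by
  have hPN : (P : Subgroup G) ≤ N := fun x hx => hRN x (PE.of_mem_isPGroup P.isPGroup' hx)
  obtain ⟨u, huK, huz⟩ := hD.exists_u h
  obtain ⟨v, hvU, hvz⟩ := hD.exists_v h
  have hne : ¬ (P : Subgroup G) ≤ center G := fun hle => hvz (hle (hUP hvU))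
  obtain ⟨y, hyP, hyz, hy⟩ := exists_upper hr.out P.isPGroup' hne
  have hyN : y ∈ N := hPN hyP
  -- notation
  obtain ⟨τ, hτ⟩ := Subgroup.card_dvd_of_le (Ak_le_KK h hD)
  obtain ⟨tr, htr⟩ := ar_dvd_crr h hRN hD
  have hak : 0 < Nat.card (Ak r N) := Nat.card_pos
  have har : 0 < Nat.card (Ar r N) := Nat.card_pos
  have hτ2 : 2 ≤ τ := by
    have := ak_lt h hD
    rw [hτ] at this
    by_contra hh
    have h3 : τ ≤ 1 := by omega
    have : Nat.card (Ak r N) * τ ≤ Nat.card (Ak r N) * 1 := Nat.mul_le_mul_left _ h3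
    omega
  have htr2 : 2 ≤ tr := by
    have := ar_lt_crr h hRN hD
    rw [htr] at this
    by_contra hh
    have h3 : tr ≤ 1 := by omega
    have : Nat.card (Ar r N) * tr ≤ Nat.card (Ar r N) * 1 := Nat.mul_le_mul_left _ h3
    omega
  have e2 : Nat.card (KK h hD) / Nat.card (Ak r N) = τ := by
    rw [hτ, Nat.mul_div_cancel_left _ hak]
  have e3 : crr G r m / Nat.card (Ar r N) = tr := by
    rw [htr, Nat.mul_div_cancel_left _ har]
  -- Step 1: `τ < tr`
  have hτlt : τ ≤ tr - 1 := by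
    have hdp := dpart h hRN hnc hyN hyz
    rw [e3] at hdp
    set d := (C y).relIndex N with hd
    have hAW : Ak r N ≤ C y ⊓ N := fun x hx => ⟨center_le_C y hx.1.2, hx.1.1⟩
    haveI : ((Ak r N).subgroupOf (C y ⊓ N)).Normal := by
      refine ⟨fun a ha g => ?_⟩
      rw [mem_subgroupOf] at ha ⊢
      have h1 : ((g * a * g⁻¹ : ↥(C y ⊓ N)) : G) = a := by
        have := mem_center_iff.mp (Ak_le_center ha) (g : G)
        show (g : G) * a * (g : G)⁻¹ = a
        rw [this]; group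
      rw [h1]
      exact ha
    have hq : IsPGroup r (↥(C y ⊓ N) ⧸ (Ak r N).subgroupOf (C y ⊓ N)) := by
      intro x
      obtain ⟨w, rfl⟩ := QuotientGroup.mk_surjective x
      obtain ⟨s, t, e, hc, ⟨k, hk⟩, ht, hs', ht'⟩ := parts hr.out (w : G)
      refine ⟨k, ?_⟩
      rw [← QuotientGroup.mk_pow, QuotientGroup.eq_one_iff, mem_subgroupOf]
      have htW : t ∈ C y ⊓ N := mem_of_mem_zpowers w.2 ht'
      have htz : t ∈ center G := by
        by_contra hh
        exact hB y hyP hyz hy t htW.2 hh ht htW.1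
      have htA : t ∈ Ak r N := ⟨⟨htW.2, htz⟩, ht⟩
      have hcomm : Commute s t := hc
      have e5 : ((w ^ r ^ k : ↥(C y ⊓ N)) : G) = t ^ r ^ k := by
        simp only [Subgroup.coe_pow]
        rw [e, hcomm.mul_pow, hk, one_mul]
      rw [e5]
      exact (Ak r N).pow_mem htA _
    obtain ⟨i, hi⟩ := IsPGroup.iff_card.mp hq
    have h1 : Nat.card (C y ⊓ N : Subgroup G) = Nat.card (Ak r N) * r ^ i := by
      rw [card_eq_relIndex_mul hAW, ← hi]
      rfl
    have h2 : Nat.card N = Nat.card (C y ⊓ N : Subgroup G) * d := by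
      rw [card_eq_relIndex_mul (inf_le_right : C y ⊓ N ≤ N), inf_relIndex_right]
    have h3 : Nat.card (KK h hD) ∣ Nat.card N :=
      Subgroup.card_dvd_of_le (fun x hx => hx.1.2)
    rw [h2, h1, hτ, mul_assoc] at h3
    have h4 : τ ∣ r ^ i * d := (Nat.mul_dvd_mul_iff_left hak).mp h3
    have hτc : τ.Coprime r :=
      Nat.Coprime.coprime_dvd_left (Dvd.intro_left _ hτ.symm)
        (coprime_card_pK hr.out : (Nat.card (KK h hD)).Coprime r)
    have h5 : τ ∣ d := (hτc.pow_right i).dvd_of_dvd_mul_left h4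
    have h6 : τ ∣ d / r ^ d.factorization r := by
      have h7 := Nat.ordProj_mul_ordCompl_eq_self d r
      rw [← h7] at h5
      exact (hτc.pow_right _).dvd_of_dvd_mul_left h5
    exact Nat.le_of_dvd (by omega) (h6.trans hdp)
  -- Step 2: `U` is not normal in `P`
  have hnn : ¬ ∀ s ∈ P, ∀ b ∈ UU h hD, s * b * s⁻¹ ∈ UU h hD := by
    intro hall
    have hUne : ¬ UU h hD ≤ center G := fun hle => hvz (hle hvU)
    obtain ⟨y', hy'U, hy'z, hy'⟩ := exists_upper2 hr.out P.isPGroup' hUP hall hUne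
    have hc : u * y' = y' * u := hD.comm h hr.out u huK.1 y' hy'U.1
    exact hB y' (hUP hy'U) hy'z hy' u huK.1.2 huz huK.2 (mem_C.mpr hc)
  -- the normalizer of `U` in `P`
  set V : Subgroup G := (P : Subgroup G) ⊓ normalizer (UU h hD : Set G) with hV
  have hUV : UU h hD ≤ V := fun x hx => ⟨hUP hx, le_normalizer hx⟩
  have hVne : V.subgroupOf P ≠ ⊤ := by
    intro htop
    apply hnn
    intro s hs b hb
    have h1 : (⟨s, hs⟩ : P) ∈ V.subgroupOf P := htop ▸ mem_top _
    have h2 : s ∈ normalizer (UU h hD : Set G) := (mem_subgroupOf.mp h1).2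
    exact (mem_normalizer_iff.mp h2 b).mp hb
  haveI : Group.IsNilpotent P := P.isPGroup'.isNilpotent
  have hlt := Group.normalizerCondition_of_isNilpotent (G := P) (V.subgroupOf P) (lt_top_iff_ne_top.mpr hVne)
  obtain ⟨s, hs, hsV⟩ := SetLike.exists_of_lt hlt
  -- `s` normalizes `V` but not `U`
  have hsP : (s : G) ∈ (P : Subgroup G) := s.2
  have hsN : (s : G) ∉ normalizer (UU h hD : Set G) := by
    intro hh
    exact hsV (mem_subgroupOf.mpr ⟨hsP, hh⟩)
  have hsVV : ∀ x ∈ V, (s : G) * x * (s : G)⁻¹ ∈ V := by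
    intro x hx
    have h1 : (⟨x, hx.1⟩ : P) ∈ V.subgroupOf P := mem_subgroupOf.mpr hx
    have h2 := (mem_normalizer_iff.mp hs _).mp h1
    exact mem_subgroupOf.mp h2
  set U' : Subgroup G := (UU h hD).map (MulAut.conj (s : G)).toMonoidHom with hU'
  have hmemU' : ∀ x, x ∈ UU h hD → (s : G) * x * (s : G)⁻¹ ∈ U' := fun x hx => ⟨x, hx, rfl⟩
  have hU'V : U' ≤ V := by
    rintro _ ⟨x, hx, rfl⟩
    exact hsVV x (hUV hx)
  have hcardU' : Nat.card U' = crr G r m := by
    rw [hU', Subgroup.card_map_of_injective (MulAut.conj (s : G)).injective, card_UU h hRN hD]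
  have hArU' : Ar r N ≤ U' := by
    intro x hx
    have h1 := hmemU' x (Ar_le_UU h hD hx)
    have h2 := mem_center_iff.mp (Ar_le_center hx) (s : G)
    have h3 : (s : G) * x * (s : G)⁻¹ = x := by
      rw [h2]; group
    rwa [h3] at h1
  -- `U ∩ U'` is central
  have hinf : (UU h hD) ⊓ U' ≤ Ar r N := by
    rintro x ⟨hx, x₀, hx₀, rfl⟩
    refine mem_Ar_of hRN ?_ hx.2
    by_contra hxz
    have hx₀z : x₀ ∉ center G := by
      intro hh
      apply hxz
      have h2 := mem_center_iff.mp hh (s : G)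
      have h3 : (MulAut.conj (s : G)).toMonoidHom x₀ = x₀ := by
        show (s : G) * x₀ * (s : G)⁻¹ = x₀
        rw [h2]; group
      rw [h3]
      exact hh
    have h1 := hD.eq h hr.out hx.1.2 hx.1.1 hxz
    have h2 := hD.eq h hr.out hx₀.1.2 hx₀.1.1 hx₀z
    have h3 : C ((s : G) * x₀ * (s : G)⁻¹) = C x₀ := by
      rw [h2]
      exact h1
    have h4 := mem_normalizer_of_C_conj_eq h3
    rw [h2] at h4
    apply hsN
    rw [mem_normalizer_iff]
    intro b
    constructor
    · intro hb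
      exact conj_mem_UU h hD h4 hb
    · intro hb
      have h5 := conj_mem_UU h hD ((normalizer (D : Set G)).inv_mem h4) hb
      have e5 : (s : G)⁻¹ * ((s : G) * b * (s : G)⁻¹) * (s : G)⁻¹⁻¹ = b := by group
      rwa [e5] at h5
  -- `tr ≤ e`
  set e := (UU h hD).relIndex V with he
  have he0 : e ≠ 0 := Subgroup.index_ne_zero_of_finite
  have htre : tr ≤ e := by
    have h1 : (Ar r N).relIndex U' ∣ (UU h hD ⊓ U').relIndex U' := relIndex_dvd_of_le_left U' hinf
    rw [inf_relIndex_right] at h1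
    have h2 : (UU h hD).relIndex U' ≤ e := relIndex_le_of_le_right hU'V he0
    have h3 := card_eq_relIndex_mul hArU'
    rw [hcardU', htr] at h3
    have h4 : (Ar r N).relIndex U' = tr := (Nat.eq_of_mul_eq_mul_left har h3).symm
    rw [h4] at h1
    exact (Nat.le_of_dvd (Nat.pos_of_ne_zero Subgroup.index_ne_zero_of_finite) h1).trans h2
  -- `e ∣ τ - 1`
  have hVp : IsPGroup r V := P.isPGroup'.to_le inf_le_left
  have hVnor : ∀ s' ∈ V, s' ∈ normalizer (D : Set G) := by
    intro s' hs'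
    have h1 : s' * v * s'⁻¹ ∈ UU h hD := (mem_normalizer_iff.mp hs'.2 v).mp hvU
    have h2 := hD.eq h hr.out h1.1.2 h1.1.1 (conj_not_mem_center hvz s')
    have h3 := hD.eq h hr.out hvU.1.2 hvU.1.1 hvz
    have h4 := mem_normalizer_of_C_conj_eq (h2.trans h3.symm)
    rwa [h3] at h4
  have hDV : D ⊓ V = UU h hD := by
    apply le_antisymm
    · intro x hx
      have hxp : PE r x := PE.of_mem_isPGroup P.isPGroup' hx.2.1
      exact ⟨⟨hx.1, hRN x hxp⟩, hxp⟩
    · exact fun x hx => ⟨hx.1.1, hUV hx⟩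
  have htau := dvd_tau h hD V hVp (fun s' hs' x hx => conj_mem_KK h hD (hVnor s' hs') hx) e (by
    rw [he, ← hDV, inf_relIndex_right])
  rw [e2] at htau
  have hle : e ≤ τ - 1 := Nat.le_of_dvd (by omega) htau
  omega

theorem false_of_dvd (h : TS N m) (hRN : ∀ x : G, PE r x → x ∈ N)
    (hnc : ∃ x : G, PE r x ∧ x ∉ center G) (hdiv : r ∣ m) {u : G} (hu : u ∈ N)
    (huz : u ∉ center G) (huc : (orderOf u).Coprime r) : False := by
  have hD := hGood_of h hRN hnc hu huz huc
  obtain ⟨P, hP⟩ := (isPGroup_pU : IsPGroup r (UU h hD)).exists_le_sylow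
  by_cases hA : ∃ y ∈ P, y ∉ center G ∧ (∀ c ∈ P, y * c * y⁻¹ * c⁻¹ ∈ center G) ∧
      ∃ u' ∈ N, u' ∉ center G ∧ (orderOf u').Coprime r ∧ u' ∈ C y
  · obtain ⟨y, hyP, hyz, hy, u', hu', hu'z, hu'c, hu'y⟩ := hA
    exact caseA h hRN hnc hdiv P hyP hyz hy hu' hu'z hu'c hu'y
  · push Not at hA
    exact caseB h hRN hnc P (fun y hy hyz hyc u' hu' hu'z hu'c => hA y hy hyz hyc u' hu' hu'z hu'c) hD hP

/-- Main theorem. -/
theorem main (R : Sylow r G) (hR : ¬ (R : Subgroup G) ≤ center G) (hRN' : (R : Subgroup G) ≤ N)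
    (h : TS N m) : Group.IsNilpotent N := by
  have hRN : ∀ x : G, PE r x → x ∈ N := by
    intro x hx
    obtain ⟨Q, hQ⟩ := (hx.isPGroup_zpowers hr.out).exists_le_sylow
    obtain ⟨g, rfl⟩ := MulAction.exists_smul_eq G R Q
    have h1 := (Cfsg.Agent.Lib.ClassSizes.mem_sylow_smul_iff).mp (hQ (mem_zpowers x))
    have h2 : g⁻¹ * x * g ∈ N := hRN' h1
    have h3 := hNn.conj_mem _ h2 g
    have e : g * (g⁻¹ * x * g) * g⁻¹ = x := by group
    rwa [e] at h3
  have hnc : ∃ x : G, PE r x ∧ x ∉ center G := by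
    obtain ⟨x, hx, hxz⟩ := Set.not_subset.mp hR
    exact ⟨x, PE.of_mem_isPGroup R.isPGroup' hx, hxz⟩
  by_cases hex : ∃ u ∈ N, u ∉ center G ∧ (orderOf u).Coprime r
  · obtain ⟨u, hu, huz, huc⟩ := hex
    by_cases hdiv : r ∣ m
    · exact (false_of_dvd h hRN hnc hdiv hu huz huc).elim
    · have hab := abelian_of_not_dvd h R hRN' hR hdiv hu huz huc
      letI : CommGroup N := { (inferInstance : Group N) with
        mul_comm := fun a b => Subtype.ext (hab a a.2 b b.2) }
      infer_instance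
  · push Not at hex
    refine nilpotent_of_central (r := r) ?_
    intro u hu huc
    by_contra hh
    exact hex u hu hh huc

end Cfsg.Agent.Lib.GS1.NormalIto
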