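import Mathlib
import Cfsg.Agent.Lib.GS1.TwoFrob
import Cfsg.Agent.Lib.Geo.PrimSolvable
import Cfsg.Agent.Lib.Techniques.Bender

/-!
# Solvable groups with disconnected prime graph (Gruenberg-Kegel, solvable case)
-/

set_option autoImplicit false

namespace Cfsg.Agent.Lib.GS1

open Cfsg Subgroup Cfsg.Agent.Lib.Hall Cfsg.Agent.Lib.Core
open scoped Pointwise commutatorElement

/-- No element has order divisible by a `σ`-prime and a `τ`-prime. -/
def NoMixed (σ τ : Set ℕ) (X : Type*) [Group X] : Prop :=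
  ∀ p q : ℕ, p.Prime → q.Prime → p ∈ σ → q ∈ τ → ∀ x : X, ¬ p * q ∣ orderOf x

/-- All prime divisors of `n` lie in `σ`. -/
def IsPi (σ : Set ℕ) (n : ℕ) : Prop := ∀ p : ℕ, p.Prime → p ∣ n → p ∈ σ

section

variable {σ τ : Set ℕ}

theorem NoMixed.symm {X : Type*} [Group X] (h : NoMixed σ τ X) : NoMixed τ σ X :=
  fun p q hp hq hpt hqs x hx => h q p hq hp hqs hpt x (by rwa [mul_comm])

theorem NoMixed.quot {G : Type*} [Group G] (h : NoMixed σ τ G) (N : Subgroup G) [N.Normal] :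
    NoMixed σ τ (G ⧸ N) := by
  intro p q hp hq hps hqt x hx
  obtain ⟨g, rfl⟩ := QuotientGroup.mk_surjective x
  exact h p q hp hq hps hqt g (hx.trans (orderOf_map_dvd (QuotientGroup.mk' N) g))

theorem NoMixed.sub {G : Type*} [Group G] (h : NoMixed σ τ G) (N : Subgroup G) : NoMixed σ τ N := by
  intro p q hp hq hps hqt x hx
  exact h p q hp hq hps hqt x (by rwa [Subgroup.orderOf_coe])

theorem IsPi.of_dvd {m n : ℕ} (h : IsPi σ n) (hd : m ∣ n) : IsPi σ m :=
  fun p hp hpm => h p hp (hpm.trans hd)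

theorem IsPi.coprime (hd : Disjoint σ τ) {m n : ℕ} (hm : IsPi σ m) (hn : IsPi τ n) : m.Coprime n :=
  Nat.Coprime.symm <| Nat.coprime_of_dvd fun k hk hkn hkm =>
    Set.disjoint_left.mp hd (hm k hk hkm) (hn k hk hkn)

theorem no_comm {X : Type*} [Group X] [Finite X] (hd : Disjoint σ τ) (h : NoMixed σ τ X) {x y : X}
    (hxy : Commute x y) (hx1 : x ≠ 1) (hy1 : y ≠ 1) (hx : IsPi σ (orderOf x)) (hy : IsPi τ (orderOf y)) :
    False := by
  have hxo : orderOf x ≠ 1 := fun h => hx1 (orderOf_eq_one_iff.mp h)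
  have hyo : orderOf y ≠ 1 := fun h => hy1 (orderOf_eq_one_iff.mp h)
  obtain ⟨p, hp, hpd⟩ := Nat.exists_prime_and_dvd hxo
  obtain ⟨q, hq, hqd⟩ := Nat.exists_prime_and_dvd hyo
  have hcop : (orderOf x).Coprime (orderOf y) := IsPi.coprime hd hx hy
  apply h p q hp hq (hx p hp hpd) (hy q hq hqd) (x * y)
  rw [hxy.orderOf_mul_eq_mul_orderOf_of_coprime hcop]
  exact mul_dvd_mul hpd hqd

theorem frob_of_complement {X : Type*} [Group X] [Finite X] (N : Subgroup X) [hNn : N.Normal]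
    (hd : Disjoint σ τ) (h : NoMixed σ τ X) (hN1 : N ≠ ⊥) (hNσ : IsPi σ (Nat.card N))
    (hIτ : IsPi τ N.index) (hI1 : N ≠ ⊤) :
    ∃ C : Subgroup X, IsComplement' N C ∧ IsFrobeniusComplement C ∧
      frobeniusKernel C = (N : Set X) := by
  have hcop : (Nat.card N).Coprime N.index := IsPi.coprime hd hNσ hIτ
  obtain ⟨C, hC⟩ := exists_right_complement'_of_coprime hcop
  have hC1 : C ≠ ⊥ := by
    rintro rfl
    exact hI1 (isComplement'_bot_right.mp hC)
  have hcardC : N.index = Nat.card C := hC.symm.index_eq_card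
  have hfp : ∀ c ∈ C, c ≠ 1 → N ⊓ centralizer {c} = ⊥ := by
    intro c hc hc1
    rw [eq_bot_iff]
    rintro x ⟨hxN, hxc⟩
    rw [mem_bot]
    by_contra hx1
    refine no_comm hd h (x := x) (y := c) (mem_centralizer_singleton_iff.mp hxc) hx1 hc1
      (hNσ.of_dvd (Subgroup.orderOf_dvd_natCard N hxN)) (hIτ.of_dvd ?_)
    rw [hcardC]
    exact Subgroup.orderOf_dvd_natCard C hc
  have hF : IsFrobeniusComplement C := (frobenius_iff_fpf N C hC hN1 hC1).mpr hfp
  refine ⟨C, hC, hF, ?_⟩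
  obtain ⟨N', hN', -, hc'⟩ := FrobThm.frobenius_theorem C hF
  have hle : N ≤ N' := by
    intro x hx
    have hx' : x ∈ (N' : Set X) := by
      rw [hN']
      by_cases hx1 : x = 1
      · exact Or.inl hx1
      · refine Or.inr fun g hg => hx1 ?_
        rw [mem_conj_smul_iff] at hg
        have h2 : g⁻¹ * x * g ∈ N := by
          have := hNn.conj_mem x hx g⁻¹
          simpa using this
        have h3 := Subgroup.disjoint_def.mp hC.disjoint h2 hg
        have h4 : x = g * (g⁻¹ * x * g) * g⁻¹ := by group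
        rw [h4, h3]
        group
    exact hx'
  have hcard : Nat.card N' ≤ Nat.card N := by
    rw [← hc'.index_eq_card, hC.index_eq_card]
  have heq : N = N' := Subgroup.eq_of_le_of_card_ge hle hcard
  rw [heq, hN']

theorem fitting_ne_bot {Q : Type*} [Group Q] [Finite Q] [Group.IsSolvable Q] [Nontrivial Q] :
    fittingSubgroup Q ≠ ⊥ := by
  intro h
  have h1 : centralizer (fittingSubgroup Q : Set Q) ≤ fittingSubgroup Q :=
    Cfsg.Agent.Lib.Geo.centralizer_fitting_le_of_solvable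
  rw [h] at h1
  obtain ⟨x, hx⟩ := exists_ne (1 : Q)
  have h2 : x ∈ (⊥ : Subgroup Q) := h1 (by
    rw [mem_centralizer_iff]
    intro y hy
    have hy1 : y = 1 := by simpa using hy
    rw [hy1]; group)
  exact hx (by simpa using h2)

theorem isCyclic_of_odd_nilpotent {L : Type*} [Group L] [Finite L] {N C : Subgroup L} [N.Normal]
    (hc : IsComplement' N C) (hN : N ≠ ⊥) (hf : ∀ h ∈ C, h ≠ 1 → N ⊓ centralizer {h} = ⊥)
    (hodd : Odd (Nat.card C)) (hnil : Group.IsNilpotent C) : IsCyclic C := by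
  haveI hZ : IsZGroup C := by
    refine ⟨fun p hp P => ?_⟩
    haveI : Fact p.Prime := ⟨hp⟩
    rcases sylow_of_fpf_complement hc hN hf p P with h | ⟨rfl, n, ⟨f⟩⟩
    · exact h
    · exfalso
      have h1 : Nat.card P = 4 * 2 ^ n := by
        haveI : NeZero (2 ^ n) := ⟨by positivity⟩
        rw [Nat.card_congr f.toEquiv, Nat.card_eq_fintype_card, QuaternionGroup.card]
      have h2 : Nat.card P ∣ Nat.card C := Subgroup.card_subgroup_dvd_card _
      have h3 : 2 ∣ Nat.card C := dvd_trans (by rw [h1]; exact dvd_mul_of_dvd_left (by norm_num) _) h2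
      exact (Nat.not_even_iff_odd.mpr hodd) (even_iff_two_dvd.mpr h3)
  infer_instance

theorem sol_main {G : Type*} [Group G] [Finite G] [Group.IsSolvable G] (hd : Disjoint σ τ)
    (hcov : ∀ p, p ∈ σ ∨ p ∈ τ) (h : NoMixed σ τ G) (hq : ∃ q : ℕ, q.Prime ∧ q ∈ τ ∧ q ∣ Nat.card G)
    (hM : ∃ M : Subgroup G, M.Normal ∧ M ≠ ⊥ ∧ IsPi σ (Nat.card M)) :
    (∃ C : Subgroup G, IsFrobeniusComplement C) ∨
    (∃ (H K : Subgroup G) (_ : H.Normal), K.Normal ∧ H < K ∧
      (∃ C : Subgroup ↥K, IsFrobeniusComplement C ∧ frobeniusKernel C = (H.subgroupOf K : Set ↥K)) ∧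
      (∃ C : Subgroup (G ⧸ H), IsFrobeniusComplement C ∧
        frobeniusKernel C = (K.map (QuotientGroup.mk' H) : Set (G ⧸ H)))) := by
  classical
  obtain ⟨M, hMn, hM1, hMσ⟩ := hM
  obtain ⟨q, hq, hqτ, hqG⟩ := hq
  let S : Set (Subgroup G) := {N | N.Normal ∧ IsPi σ (Nat.card N)}
  obtain ⟨R, hMR, hR⟩ := (Set.toFinite S).exists_le_maximal (a := M) ⟨hMn, hMσ⟩
  obtain ⟨hRn, hRσ⟩ := hR.prop
  haveI := hRn
  have hR1 : R ≠ ⊥ := fun h' => hM1 (le_bot_iff.mp (h' ▸ hMR))
  have hRq : ¬ q ∣ Nat.card R := fun h' => Set.disjoint_left.mp hd (hRσ q hq h') hqτ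
  have hcardG : Nat.card G = Nat.card R * Nat.card (G ⧸ R) := by
    rw [← Subgroup.index_eq_card, Subgroup.card_mul_index]
  have hqQ : q ∣ Nat.card (G ⧸ R) := by
    rw [hcardG] at hqG
    exact ((Nat.Prime.dvd_mul hq).mp hqG).resolve_left hRq
  have hquot : ∀ N : Subgroup (G ⧸ R), N.Normal → IsPi σ (Nat.card N) → N = ⊥ := by
    intro N hNn hNσ
    have h1 : Nat.card (N.comap (QuotientGroup.mk' R)) = Nat.card R * Nat.card N := by
      rw [card_comap_of_surjective _ (QuotientGroup.mk'_surjective R), QuotientGroup.ker_mk']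
    have h2 : N.comap (QuotientGroup.mk' R) ∈ S := by
      refine ⟨inferInstance, ?_⟩
      rw [h1]
      intro r hr hrd
      rcases (Nat.Prime.dvd_mul hr).mp hrd with h3 | h3
      · exact hRσ r hr h3
      · exact hNσ r hr h3
    have h3 : R ≤ N.comap (QuotientGroup.mk' R) := by
      intro r hr
      rw [mem_comap]
      have : QuotientGroup.mk' R r = 1 := (QuotientGroup.eq_one_iff r).mpr hr
      rw [this]
      exact N.one_mem
    have h4 := hR.le_of_ge h2 h3
    rw [eq_bot_iff]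
    intro x hx
    obtain ⟨g, rfl⟩ := QuotientGroup.mk_surjective x
    have h5 : g ∈ N.comap (QuotientGroup.mk' R) := hx
    exact (QuotientGroup.eq_one_iff g).mpr (h4 h5)
  have hQnt : Nontrivial (G ⧸ R) := by
    apply Finite.one_lt_card_iff_nontrivial.mp
    have := Nat.le_of_dvd Nat.card_pos hqQ
    exact lt_of_lt_of_le hq.one_lt this
  have hT1 : fittingSubgroup (G ⧸ R) ≠ ⊥ := fitting_ne_bot
  have hTτ : IsPi τ (Nat.card (fittingSubgroup (G ⧸ R))) := by
    intro r hr hrT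
    rcases hcov r with h1 | h1
    · exfalso
      haveI : Fact r.Prime := ⟨hr⟩
      apply Cfsg.Agent.Lib.Techniques.pCore_ne_bot_of_dvd hrT
      apply hquot _ inferInstance
      intro r' hr' hr'd
      obtain ⟨n, hn⟩ := IsPGroup.iff_card.mp (pCore_isPGroup r (G ⧸ R))
      rw [hn] at hr'd
      have := (Nat.prime_dvd_prime_iff_eq hr' hr).mp (hr'.dvd_of_dvd_pow hr'd)
      rw [this]
      exact h1
    · exact h1
  by_cases hA : IsPi τ (Nat.card (G ⧸ R))
  · left
    have hnetop : R ≠ ⊤ := by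
      rintro rfl
      rw [← Subgroup.index_eq_card, Subgroup.index_top] at hqQ
      exact hq.one_lt.ne' (Nat.dvd_one.mp hqQ)
    obtain ⟨C, -, hF, -⟩ := frob_of_complement R hd h hR1 hRσ (by exact hA) hnetop
    exact ⟨C, hF⟩
  right
  have hT := fittingSubgroup_normal (G := G ⧸ R)
  obtain ⟨p, hp, hpQ, hpτ⟩ : ∃ p : ℕ, p.Prime ∧ p ∣ Nat.card (G ⧸ R) ∧ p ∉ τ := by
    unfold IsPi at hA
    push Not at hA
    exact hA
  haveI : Fact p.Prime := ⟨hp⟩
  have hpσ : p ∈ σ := (hcov p).resolve_right hpτ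
  let K : Subgroup G := (fittingSubgroup (G ⧸ R)).comap (QuotientGroup.mk' R)
  haveI hKn : K.Normal := inferInstance
  have hRK : R ≤ K := by
    intro r hr
    change QuotientGroup.mk' R r ∈ fittingSubgroup (G ⧸ R)
    have : QuotientGroup.mk' R r = 1 := (QuotientGroup.eq_one_iff r).mpr hr
    rw [this]
    exact one_mem _
  have hmap : K.map (QuotientGroup.mk' R) = fittingSubgroup (G ⧸ R) :=
    Subgroup.map_comap_eq_self_of_surjective (QuotientGroup.mk'_surjective R) _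
  have hcardK : Nat.card K = Nat.card R * Nat.card (fittingSubgroup (G ⧸ R)) := by
    have := card_comap_of_surjective (QuotientGroup.mk' R) (QuotientGroup.mk'_surjective R)
      (fittingSubgroup (G ⧸ R))
    rwa [QuotientGroup.ker_mk'] at this
  have hcardN₁ : Nat.card (R.subgroupOf K) = Nat.card R :=
    Nat.card_congr (subgroupOfEquivOfLe hRK).toEquiv
  have hidx : (R.subgroupOf K).index = Nat.card (fittingSubgroup (G ⧸ R)) := by
    have h1 := Subgroup.card_mul_index (R.subgroupOf K)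
    rw [hcardN₁, hcardK] at h1
    exact Nat.eq_of_mul_eq_mul_left Nat.card_pos h1
  have hT2 : 1 < Nat.card (fittingSubgroup (G ⧸ R)) := by
    have h1 : Nontrivial (fittingSubgroup (G ⧸ R)) := (Subgroup.nontrivial_iff_ne_bot _).mpr hT1
    exact Finite.one_lt_card_iff_nontrivial.mpr h1
  have hN₁1 : R.subgroupOf K ≠ ⊥ := by
    intro h1
    apply hR1
    rw [eq_bot_iff]
    intro r hr
    have h2 : (⟨r, hRK hr⟩ : K) ∈ R.subgroupOf K := by
      rw [mem_subgroupOf]; exact hr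
    rw [h1, mem_bot] at h2
    exact congrArg Subtype.val h2
  have hN₁top : R.subgroupOf K ≠ ⊤ := by
    intro h1
    rw [h1, Subgroup.index_top] at hidx
    omega
  obtain ⟨C, hc1, hF1, hk1⟩ := frob_of_complement (R.subgroupOf K) hd (h.sub K) hN₁1
    (by rw [hcardN₁]; exact hRσ) (by rw [hidx]; exact hTτ) hN₁top
  obtain ⟨-, -, -, hf1, -, -⟩ := frob_pack hF1 hk1
  obtain ⟨e⟩ := exists_iso_kernel hRK hc1
  obtain ⟨x, hx⟩ := exists_prime_orderOf_dvd_card' p hpQ
  have hQM : NoMixed σ τ (G ⧸ R) := h.quot R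
  have hTel : ∀ t ∈ fittingSubgroup (G ⧸ R), IsPi τ (orderOf t) := fun t ht =>
    hTτ.of_dvd (Subgroup.orderOf_dvd_natCard _ ht)
  have hx1 : x ≠ 1 := by
    intro h1
    rw [h1, orderOf_one] at hx
    exact hp.one_lt.ne hx
  have hDne : zpowers x ≠ ⊥ := by
    intro h1
    exact hx1 (zpowers_eq_bot.mp h1)
  haveI hNm : (K.map (QuotientGroup.mk' R)).Normal := by
    rw [hmap]; infer_instance
  have hf₂ : ∀ y ∈ zpowers x, y ≠ 1 → K.map (QuotientGroup.mk' R) ⊓ centralizer {y} = ⊥ := by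
    intro y hy hy1
    rw [eq_bot_iff, hmap]
    rintro t ⟨htT, htc⟩
    rw [mem_bot]
    by_contra ht1
    have hyd : orderOf y ∣ p := by
      rw [← hx]
      exact orderOf_dvd_of_mem_zpowers hy
    refine no_comm hd hQM (x := y) (y := t) (mem_centralizer_singleton_iff.mp htc).symm hy1 ht1 ?_
      (hTel t htT)
    intro r hr hrd
    rw [(Nat.prime_dvd_prime_iff_eq hr hp).mp (hrd.trans hyd)]
    exact hpσ
  have hoddC : Odd (Nat.card C) := odd_card_of_iso hc1 hN₁1 hf1 hDne hf₂ e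
  have hnilm : Group.IsNilpotent (K.map (QuotientGroup.mk' R)) := by
    rw [hmap]; exact isNilpotent_fittingSubgroup _
  have hnilC : Group.IsNilpotent C := nilpotent_of_mulEquiv e.symm
  haveI hcycC : IsCyclic C := isCyclic_of_odd_nilpotent hc1 hN₁1 hf1 hoddC hnilC
  have hcycT : IsCyclic (fittingSubgroup (G ⧸ R)) := by
    have := isCyclic_of_surjective e.toMonoidHom e.surjective
    rw [hmap] at this
    exact this
  -- `Q/T` is abelian
  have hcomm : ∀ a b : G ⧸ R, ⁅a, b⁆ ∈ fittingSubgroup (G ⧸ R) := by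
    intro a b
    have h1 := commutator_mem_centralizer_of_cyclic hcycT (g := a) (h := b)
      (by rw [Subgroup.normalizer_eq_top_iff.mpr hT]; trivial)
      (by rw [Subgroup.normalizer_eq_top_iff.mpr hT]; trivial)
    exact Cfsg.Agent.Lib.Geo.centralizer_fitting_le_of_solvable h1
  have hQTcomm : ∀ a b : (G ⧸ R) ⧸ fittingSubgroup (G ⧸ R), a * b = b * a := by
    intro a b
    obtain ⟨a, rfl⟩ := QuotientGroup.mk_surjective a
    obtain ⟨b, rfl⟩ := QuotientGroup.mk_surjective b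
    rw [← QuotientGroup.mk_mul, ← QuotientGroup.mk_mul, QuotientGroup.eq]
    have h1 := hcomm b⁻¹ a⁻¹
    rw [commutatorElement_def] at h1
    simp only [inv_inv] at h1
    have h2 : (a * b)⁻¹ * (b * a) = b⁻¹ * a⁻¹ * b * a := by group
    rw [h2]
    exact h1
  have hcardQ : Nat.card (G ⧸ R) = Nat.card (fittingSubgroup (G ⧸ R)) *
      (fittingSubgroup (G ⧸ R)).index := (Subgroup.card_mul_index _).symm
  have hpT : ¬ p ∣ Nat.card (fittingSubgroup (G ⧸ R)) := fun h1 =>
    hpτ (hTτ p hp h1)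
  have hpI : p ∣ (fittingSubgroup (G ⧸ R)).index := by
    rw [hcardQ] at hpQ
    exact ((Nat.Prime.dvd_mul hp).mp hpQ).resolve_left hpT
  have hIσ : IsPi σ (fittingSubgroup (G ⧸ R)).index := by
    intro r hr hrI
    rcases hcov r with h1 | h1
    · exact h1
    exfalso
    haveI : Fact r.Prime := ⟨hr⟩
    obtain ⟨u, hu⟩ := exists_prime_orderOf_dvd_card' (G := (G ⧸ R) ⧸ fittingSubgroup (G ⧸ R)) p hpI
    obtain ⟨v, hv⟩ := exists_prime_orderOf_dvd_card' (G := (G ⧸ R) ⧸ fittingSubgroup (G ⧸ R)) r hrI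
    have hu1 : u ≠ 1 := by
      rintro rfl
      rw [orderOf_one] at hu
      exact hp.one_lt.ne hu
    have hv1 : v ≠ 1 := by
      rintro rfl
      rw [orderOf_one] at hv
      exact hr.one_lt.ne hv
    refine no_comm hd (hQM.quot _) (hQTcomm u v) hu1 hv1 ?_ ?_
    · rw [hu]
      intro r' hr' hr'd
      rw [(Nat.prime_dvd_prime_iff_eq hr' hp).mp hr'd]
      exact hpσ
    · rw [hv]
      intro r' hr' hr'd
      rw [(Nat.prime_dvd_prime_iff_eq hr' hr).mp hr'd]
      exact h1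
  have hTtop : fittingSubgroup (G ⧸ R) ≠ ⊤ := by
    intro h1
    rw [h1, Subgroup.index_top] at hpI
    exact hp.one_lt.ne' (Nat.dvd_one.mp hpI)
  obtain ⟨D, -, hFD, hkD⟩ := frob_of_complement (fittingSubgroup (G ⧸ R)) hd.symm hQM.symm hT1 hTτ hIσ hTtop
  refine ⟨R, K, hRn, hKn, lt_of_le_of_ne hRK ?_, ⟨C, hF1, hk1⟩, ⟨D, hFD, ?_⟩⟩
  · intro h1
    apply hT1
    rw [← hmap, ← h1, eq_bot_iff]
    rintro _ ⟨r, hr, rfl⟩
    exact (QuotientGroup.eq_one_iff r).mpr hr
  · rw [hmap]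
    exact hkD

end

/-- **Gruenberg-Kegel, solvable case.** -/
theorem solvable_disconnected {G : Type*} [Group G] [Finite G] (hsol : Group.IsSolvable G)
    (hdisc : (∃ A : Set ℕ, (∃ a ∈ A, a.Prime ∧ a ∣ Nat.card G) ∧ (∃ b ∉ A, b.Prime ∧ b ∣ Nat.card G) ∧
      ∀ a ∈ A, ∀ b ∉ A, a.Prime → b.Prime → a ∣ Nat.card G → b ∣ Nat.card G →
        ¬ ∃ g : G, orderOf g = a * b)) :
    (∃ C : Subgroup G, IsFrobeniusComplement C) ∨
    (∃ (H K : Subgroup G) (_ : H.Normal), K.Normal ∧ H < K ∧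
      (∃ C : Subgroup ↥K, IsFrobeniusComplement C ∧ frobeniusKernel C = (H.subgroupOf K : Set ↥K)) ∧
      (∃ C : Subgroup (G ⧸ H), IsFrobeniusComplement C ∧
        frobeniusKernel C = (K.map (QuotientGroup.mk' H) : Set (G ⧸ H)))) := by
  classical
  obtain ⟨A, ⟨a, haA, ha, haG⟩, ⟨b, hbA, hb, hbG⟩, hno⟩ := hdisc
  have hNM : NoMixed A Aᶜ G := by
    intro p q hp hq hpA hqA x hx
    have hd : orderOf x ∣ Nat.card G := orderOf_dvd_natCard x
    exact hno p hpA q hqA hp hq ((dvd_mul_right _ _).trans (hx.trans hd))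
      ((dvd_mul_left _ _).trans (hx.trans hd))
      ⟨x ^ (orderOf x / (p * q)), orderOf_pow_orderOf_div (orderOf_pos x).ne' hx⟩
  have hnt : Nontrivial G := by
    apply Finite.one_lt_card_iff_nontrivial.mp
    exact lt_of_lt_of_le ha.one_lt (Nat.le_of_dvd Nat.card_pos haG)
  have hF : fittingSubgroup G ≠ ⊥ := fitting_ne_bot
  have hF2 : Nat.card (fittingSubgroup G) ≠ 1 := by
    intro h1
    exact hF (Subgroup.card_eq_one.mp h1)
  obtain ⟨p, hp, hpF⟩ := Nat.exists_prime_and_dvd hF2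
  haveI : Fact p.Prime := ⟨hp⟩
  have hpC := Cfsg.Agent.Lib.Techniques.pCore_ne_bot_of_dvd hpF
  have hpi : ∀ σ : Set ℕ, p ∈ σ → IsPi σ (Nat.card (pCore p G)) := by
    intro σ hσ r hr hrd
    obtain ⟨n, hn⟩ := IsPGroup.iff_card.mp (pCore_isPGroup p G)
    rw [hn] at hrd
    rw [(Nat.prime_dvd_prime_iff_eq hr hp).mp (hr.dvd_of_dvd_pow hrd)]
    exact hσ
  by_cases hpA : p ∈ A
  · exact sol_main disjoint_compl_right (fun q => em _) hNM ⟨b, hb, hbA, hbG⟩
      ⟨pCore p G, inferInstance, hpC, hpi A hpA⟩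
  · exact sol_main disjoint_compl_left (fun q => (em _).symm) hNM.symm ⟨a, ha, by simpa using haA, haG⟩
      ⟨pCore p G, inferInstance, hpC, hpi Aᶜ hpA⟩

end Cfsg.Agent.Lib.GS1
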