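import Mathlib
import Cfsg.Agent.Lib.Classical.QuatHom
import Cfsg.Agent.Lib.GS1.Miller2

/-! A recognition of `GL(2,3)` by relations: two groups of the same order, each generated by a
quaternion subgroup and a complement `S₃` acting in the same way, are isomorphic. -/

set_option autoImplicit false

namespace Cfsg.Agent.Lib.GS1.SyInt

open Subgroup QuaternionGroup
open Cfsg.Agent.Lib.Classical.Quat
open Cfsg.Agent.Lib.GS1.Miller

universe u v w

/-- The relations. -/
structure Rel {A : Type u} [Group A] (i j r s : A) : Prop where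
  hi : i ^ (2 * 2) = 1
  hj : j ^ 2 = i ^ 2
  hji : j * i * j⁻¹ = i⁻¹
  hoi : orderOf i = 2 * 2
  hor : orderOf r = 3
  hou : orderOf s = 2
  hur : s * r * s⁻¹ = r⁻¹
  h1 : r * i * r⁻¹ = j
  h2 : r * j * r⁻¹ = j * i
  h3 : s * i * s⁻¹ = i⁻¹
  h4 : s * j * s⁻¹ = (j * i)⁻¹

theorem hom_ext_QG {A : Type u} [Group A] (f g : QuaternionGroup 2 →* A) (h1 : f (a 1) = g (a 1))
    (h2 : f (xa 0) = g (xa 0)) : f = g := by
  have hA : ∀ t : ZMod (2 * 2), f (a t) = g (a t) := by
    intro t
    have e : (a t : QuaternionGroup 2) = (a 1) ^ t.val := by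
      rw [QuaternionGroup.a_one_pow]
      congr 1
      exact (ZMod.natCast_zmod_val t).symm
    rw [e, map_pow, map_pow, h1]
  ext x
  cases x with
  | a t => exact hA t
  | xa t =>
    have e : (xa t : QuaternionGroup 2) = xa 0 * a t := by
      rw [QuaternionGroup.xa_mul_a, zero_add]
    rw [e, map_mul, map_mul, h2, hA]

section rel

variable {A : Type u} [Group A] {i j r s : A}

/-- The map from the quaternion group. -/
def Rel.e (h : Rel i j r s) : QuaternionGroup 2 →* A := quatHom i j h.hi h.hj h.hji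

theorem Rel.e_a (h : Rel i j r s) : h.e (a 1) = i := by
  show i ^ ((1 : ZMod (2 * 2)).val) = i
  have : ((1 : ZMod (2 * 2))).val = 1 := rfl
  rw [this, pow_one]

theorem Rel.e_xa (h : Rel i j r s) : h.e (xa 0) = j := by
  show j * i ^ ((0 : ZMod (2 * 2)).val) = j
  have : ((0 : ZMod (2 * 2))).val = 0 := rfl
  rw [this, pow_zero, mul_one]

theorem Rel.e_xa1 (h : Rel i j r s) : h.e (xa 1) = j * i := by
  show j * i ^ ((1 : ZMod (2 * 2)).val) = j * i
  have : ((1 : ZMod (2 * 2))).val = 1 := rfl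
  rw [this, pow_one]

theorem Rel.e_inj (h : Rel i j r s) : Function.Injective h.e :=
  quatHom_injective i j h.hi h.hj h.hji h.hoi (by norm_num)

/-- Conjugation by `r`, on the quaternion group. -/
def rhoQ : QuaternionGroup 2 →* QuaternionGroup 2 :=
  quatHom (xa 0) (xa 1) (by decide) (by decide) (by decide)

/-- Conjugation by `s`, on the quaternion group. -/
def muQ : QuaternionGroup 2 →* QuaternionGroup 2 :=
  quatHom (a 3) (xa 3) (by decide) (by decide) (by decide)

theorem Rel.conj_r (h : Rel i j r s) (x : QuaternionGroup 2) : r * h.e x * r⁻¹ = h.e (rhoQ x) := by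
  have key : (MulAut.conj r).toMonoidHom.comp h.e = h.e.comp rhoQ := by
    apply hom_ext_QG
    · show r * h.e (a 1) * r⁻¹ = h.e (rhoQ (a 1))
      have e1 : rhoQ (a 1) = xa 0 := by decide
      rw [e1, h.e_a, h.e_xa, h.h1]
    · show r * h.e (xa 0) * r⁻¹ = h.e (rhoQ (xa 0))
      have e1 : rhoQ (xa 0) = xa 1 := by decide
      rw [e1, h.e_xa, h.e_xa1, h.h2]
  exact congrArg (fun f : QuaternionGroup 2 →* A => f x) key

theorem Rel.conj_s (h : Rel i j r s) (x : QuaternionGroup 2) : s * h.e x * s⁻¹ = h.e (muQ x) := by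
  have key : (MulAut.conj s).toMonoidHom.comp h.e = h.e.comp muQ := by
    apply hom_ext_QG
    · show s * h.e (a 1) * s⁻¹ = h.e (muQ (a 1))
      have e1 : muQ (a 1) = (a 1)⁻¹ := by decide
      rw [e1, map_inv, h.e_a, h.h3]
    · show s * h.e (xa 0) * s⁻¹ = h.e (muQ (xa 0))
      have e1 : muQ (xa 0) = (xa 1)⁻¹ := by decide
      rw [e1, map_inv, h.e_xa, h.e_xa1, h.h4]
  exact congrArg (fun f : QuaternionGroup 2 →* A => f x) key

theorem Rel.hind (h : Rel i j r s) {C : Type w} [Group C] (χ : A →* C) (χi : χ i = 1) (χj : χ j = 1)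
    (χr : χ r = 1) (χs : χ s ≠ 1) (x : QuaternionGroup 2) (p q : ℤ) (hx : h.e x * r ^ p * s ^ q = 1) :
    x = 1 ∧ r ^ p = 1 ∧ s ^ q = 1 := by
  have hχe : ∀ y, χ (h.e y) = 1 := by
    have key : χ.comp h.e = 1 := by
      apply hom_ext_QG
      · show χ (h.e (a 1)) = 1
        rw [h.e_a, χi]
      · show χ (h.e (xa 0)) = 1
        rw [h.e_xa, χj]
    intro y
    exact congrArg (fun f : QuaternionGroup 2 →* C => f y) key
  have hs2 : s ^ (2 : ℤ) = 1 := by
    have : s ^ 2 = 1 := by rw [← h.hou]; exact pow_orderOf_eq_one s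
    exact_mod_cast this
  have hr3 : r ^ 3 = 1 := by rw [← h.hor]; exact pow_orderOf_eq_one r
  have hq : s ^ q = 1 := by
    rcases Int.even_or_odd' q with ⟨c, rfl | rfl⟩
    · rw [zpow_mul, hs2, one_zpow]
    · exfalso
      apply χs
      have h1 := congrArg χ hx
      rw [map_mul, map_mul, hχe, one_mul, map_zpow, χr, one_zpow, one_mul, map_one, zpow_add, zpow_mul, hs2,
        one_zpow, one_mul, zpow_one] at h1
      exact h1
  rw [hq, mul_one] at hx
  have hrp : r ^ p = (h.e x)⁻¹ := (eq_inv_of_mul_eq_one_right hx)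
  have h3 : (r ^ p) ^ 3 = 1 := by
    rw [← zpow_natCast, ← zpow_mul, mul_comm, zpow_mul, zpow_natCast, hr3, one_zpow]
  have h4 : (r ^ p) ^ 4 = 1 := by
    have hall : ∀ y : QuaternionGroup 2, y ^ 4 = 1 := by decide
    rw [hrp, inv_pow, ← map_pow, hall, map_one, inv_one]
  have h5 : r ^ p = 1 := by
    have e : r ^ p = (r ^ p) ^ 4 * ((r ^ p) ^ 3)⁻¹ := by
      rw [pow_succ (r ^ p) 3]
      group
    rw [e, h3, h4]
    group
  refine ⟨?_, h5, hq⟩
  rw [h5, mul_one] at hx
  apply h.e_inj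
  rw [hx, map_one]

end rel

theorem closed_inv {M : Type*} [Group M] [Finite M] {P : M → Prop} {g : M} (hcl : ∀ γ, P γ → P (g * γ)) :
    ∀ γ, P γ → P (g⁻¹ * γ) := by
  intro γ hγ
  have hk : ∀ k : ℕ, ∀ γ, P γ → P (g ^ k * γ) := by
    intro k
    induction k with
    | zero =>
      intro γ hγ
      simpa using hγ
    | succ k ih =>
      intro γ hγ
      rw [pow_succ, mul_assoc]
      exact ih _ (hcl _ hγ)
  have hpos := orderOf_pos g
  have e : g⁻¹ = g ^ (orderOf g - 1) := by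
    rw [inv_eq_iff_mul_eq_one, ← pow_succ']
    have : orderOf g - 1 + 1 = orderOf g := by omega
    rw [this, pow_orderOf_eq_one]
  rw [e]
  exact hk _ _ hγ

/-- Recognition by relations. -/
theorem iso_of_rel {A : Type u} {B : Type v} [Group A] [Group B] [Finite A] [Finite B]
    {i j r s : A} {i' j' r' s' : B} (h : Rel i j r s) (h' : Rel i' j' r' s')
    (hind' : ∀ (x : QuaternionGroup 2) (p q : ℤ), h'.e x * r' ^ p * s' ^ q = 1 → x = 1 ∧ r' ^ p = 1 ∧ s' ^ q = 1)
    (hgen : ∀ g : A, ∃ (x : QuaternionGroup 2) (p q : ℤ), g = h.e x * r ^ p * s ^ q) (hcard : Nat.card A = Nat.card B) :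
    Nonempty (A ≃* B) := by
  let Γ : Subgroup (A × B) := closure {(i, i'), (j, j'), (r, r'), (s, s')}
  have hgI : (i, i') ∈ Γ := subset_closure (by simp)
  have hgJ : (j, j') ∈ Γ := subset_closure (by simp)
  have hgR : (r, r') ∈ Γ := subset_closure (by simp)
  have hgS : (s, s') ∈ Γ := subset_closure (by simp)
  let P : A × B → Prop := fun γ => ∃ (x : QuaternionGroup 2) (p q : ℤ),
    γ = (h.e x * r ^ p * s ^ q, h'.e x * r' ^ p * s' ^ q)
  have stI : ∀ γ, P γ → P ((i, i') * γ) := by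
    rintro _ ⟨x, p, q, rfl⟩
    refine ⟨a 1 * x, p, q, ?_⟩
    rw [map_mul, map_mul, h.e_a, h'.e_a]
    simp only [Prod.mk_mul_mk, mul_assoc]
  have stJ : ∀ γ, P γ → P ((j, j') * γ) := by
    rintro _ ⟨x, p, q, rfl⟩
    refine ⟨xa 0 * x, p, q, ?_⟩
    rw [map_mul, map_mul, h.e_xa, h'.e_xa]
    simp only [Prod.mk_mul_mk, mul_assoc]
  have stR : ∀ γ, P γ → P ((r, r') * γ) := by
    rintro _ ⟨x, p, q, rfl⟩
    refine ⟨rhoQ x, p + 1, q, ?_⟩
    rw [← h.conj_r, ← h'.conj_r]
    simp only [Prod.mk_mul_mk, Prod.mk.injEq]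
    constructor <;> rw [zpow_add_one] <;> group
  have stS : ∀ γ, P γ → P ((s, s') * γ) := by
    rintro _ ⟨x, p, q, rfl⟩
    refine ⟨muQ x, -p, q + 1, ?_⟩
    rw [← h.conj_s, ← h'.conj_s]
    have hsr : s * r ^ p * s⁻¹ = r ^ (-p) := by
      have h5 := conj_zpow_eq (a := r) (b := s) (s := -1) (by rw [h.hur, zpow_neg_one]) p
      rw [h5]
      congr 1
      ring
    have hsr' : s' * r' ^ p * s'⁻¹ = r' ^ (-p) := by
      have h5 := conj_zpow_eq (a := r') (b := s') (s := -1) (by rw [h'.hur, zpow_neg_one]) p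
      rw [h5]
      congr 1
      ring
    simp only [Prod.mk_mul_mk, Prod.mk.injEq]
    constructor
    · rw [← hsr, zpow_add_one]
      group
    · rw [← hsr', zpow_add_one]
      group
  have hform : ∀ γ ∈ Γ, P γ := by
    intro γ hγ
    refine Subgroup.closure_induction_left (p := fun γ _ => P γ) ?_ ?_ ?_ hγ
    · refine ⟨1, 0, 0, ?_⟩
      exact Prod.ext (by simp) (by simp)
    · intro g hg y _ hy
      simp only [Set.mem_insert_iff, Set.mem_singleton_iff] at hg
      rcases hg with rfl | rfl | rfl | rfl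
      · exact stI _ hy
      · exact stJ _ hy
      · exact stR _ hy
      · exact stS _ hy
    · intro g hg y _ hy
      simp only [Set.mem_insert_iff, Set.mem_singleton_iff] at hg
      rcases hg with rfl | rfl | rfl | rfl
      · exact closed_inv stI _ hy
      · exact closed_inv stJ _ hy
      · exact closed_inv stR _ hy
      · exact closed_inv stS _ hy
  have hpow : ∀ (p : ℤ), r ^ p = 1 ↔ r' ^ p = 1 := by
    intro p
    rw [← orderOf_dvd_iff_zpow_eq_one, ← orderOf_dvd_iff_zpow_eq_one, h.hor, h'.hor]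
  have hpows : ∀ (q : ℤ), s ^ q = 1 ↔ s' ^ q = 1 := by
    intro q
    rw [← orderOf_dvd_iff_zpow_eq_one, ← orderOf_dvd_iff_zpow_eq_one, h.hou, h'.hou]
  let π₁ : Γ →* A := (MonoidHom.fst A B).comp Γ.subtype
  let π₂ : Γ →* B := (MonoidHom.snd A B).comp Γ.subtype
  have hinj₂ : Function.Injective π₂ := by
    rw [injective_iff_map_eq_one]
    rintro ⟨γ, hγ⟩ h1
    obtain ⟨x, p, q, rfl⟩ := hform γ hγ
    have h2 : h'.e x * r' ^ p * s' ^ q = 1 := h1
    obtain ⟨rfl, h3, h4⟩ := hind' x p q h2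
    apply Subtype.ext
    show (h.e 1 * r ^ p * s ^ q, h'.e 1 * r' ^ p * s' ^ q) = 1
    rw [(hpow p).2 h3, (hpows q).2 h4, h3, h4]
    simp
  have hpair : ∀ x, (h.e x, h'.e x) ∈ Γ := by
    have hA : ∀ t : ZMod (2 * 2), (h.e (a t), h'.e (a t)) ∈ Γ := by
      intro t
      have e1 : (a t : QuaternionGroup 2) = (a 1) ^ t.val := by
        rw [QuaternionGroup.a_one_pow]
        congr 1
        exact (ZMod.natCast_zmod_val t).symm
      have e2 : (h.e (a t), h'.e (a t)) = (i, i') ^ t.val := by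
        rw [e1, map_pow, map_pow, h.e_a, h'.e_a, Prod.pow_mk]
      rw [e2]
      exact pow_mem hgI _
    intro x
    cases x with
    | a t => exact hA t
    | xa t =>
      have e : (xa t : QuaternionGroup 2) = xa 0 * a t := by
        rw [QuaternionGroup.xa_mul_a, zero_add]
      have e2 : (h.e (xa t), h'.e (xa t)) = (j, j') * (h.e (a t), h'.e (a t)) := by
        rw [e, map_mul, map_mul, h.e_xa, h'.e_xa, Prod.mk_mul_mk]
      rw [e2]
      exact mul_mem hgJ (hA t)
  have hsurj₁ : Function.Surjective π₁ := by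
    intro g
    obtain ⟨x, p, q, rfl⟩ := hgen g
    have hmem : (h.e x * r ^ p * s ^ q, h'.e x * r' ^ p * s' ^ q) ∈ Γ := by
      have e2 : (h.e x * r ^ p * s ^ q, h'.e x * r' ^ p * s' ^ q) =
          (h.e x, h'.e x) * (r, r') ^ p * (s, s') ^ q := by
        exact Prod.ext (by simp) (by simp)
      rw [e2]
      exact mul_mem (mul_mem (hpair x) (zpow_mem hgR p)) (zpow_mem hgS q)
    exact ⟨⟨_, hmem⟩, rfl⟩
  have hΓB : Nat.card Γ ≤ Nat.card B := Nat.card_le_card_of_injective π₂ hinj₂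
  have hAΓ : Nat.card A ≤ Nat.card Γ := Nat.card_le_card_of_surjective π₁ hsurj₁
  have hbij₁ : Function.Bijective π₁ := by
    rw [Nat.bijective_iff_surjective_and_card]
    exact ⟨hsurj₁, by omega⟩
  have hbij₂ : Function.Bijective π₂ := by
    rw [Nat.bijective_iff_injective_and_card]
    exact ⟨hinj₂, by omega⟩
  exact ⟨(MulEquiv.ofBijective π₁ hbij₁).symm.trans (MulEquiv.ofBijective π₂ hbij₂)⟩

end Cfsg.Agent.Lib.GS1.SyInt
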