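import Mathlib
import Cfsg.Agent.Lib.GS1.SyInt2
import Cfsg.Agent.Lib.Classical.Dick.Ident

/-! The automorphism group of the quaternion group of order eight: order `24`, generation, and the
isomorphism with the symmetric group of degree four. -/

set_option autoImplicit false

namespace Cfsg.Agent.Lib.GS1.SyInt

open Subgroup QuaternionGroup

abbrev QE := QuaternionGroup 2

theorem rho3 : ∀ x : QE, rhoQ (rhoQ (rhoQ x)) = x := by decide

theorem mu2 : ∀ x : QE, muQ (muQ x) = x := by decide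

/-- The automorphism of order three. -/
def rhoA : MulAut QE where
  toFun := rhoQ
  invFun := fun x => rhoQ (rhoQ x)
  left_inv := fun x => rho3 x
  right_inv := fun x => rho3 x
  map_mul' := map_mul rhoQ

/-- The automorphism of order two. -/
def muA : MulAut QE where
  toFun := muQ
  invFun := muQ
  left_inv := fun x => mu2 x
  right_inv := fun x => mu2 x
  map_mul' := map_mul muQ

@[simp] theorem rhoA_apply (x : QE) : rhoA x = rhoQ x := rfl

@[simp] theorem muA_apply (x : QE) : muA x = muQ x := rfl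

/-- The pairs of generating images. -/
def pairOK (p : QE × QE) : Prop := p.1 ^ 2 ≠ 1 ∧ p.2 ^ 2 ≠ 1 ∧ p.1 ≠ p.2 ∧ p.1 ≠ p.2⁻¹

instance : DecidablePred pairOK := fun p => by unfold pairOK; infer_instance

theorem pair_card : (Finset.univ.filter pairOK).card = 24 := by decide +kernel

theorem aut_pair (τ : MulAut QE) : pairOK (τ (a 1), τ (xa 0)) := by
  have h1 : (a 1 : QE) ^ 2 ≠ 1 := by decide
  have h2 : (xa 0 : QE) ^ 2 ≠ 1 := by decide
  have h3 : (a 1 : QE) ≠ xa 0 := by decide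
  have h4 : (a 1 : QE) ≠ (xa 0)⁻¹ := by decide
  refine ⟨?_, ?_, ?_, ?_⟩
  · show τ (a 1) ^ 2 ≠ 1
    rw [← map_pow]
    exact fun h => h1 (τ.map_eq_one_iff.mp h)
  · show τ (xa 0) ^ 2 ≠ 1
    rw [← map_pow]
    exact fun h => h2 (τ.map_eq_one_iff.mp h)
  · exact fun h => h3 (τ.injective h)
  · show τ (a 1) ≠ (τ (xa 0))⁻¹
    rw [← map_inv]
    exact fun h => h4 (τ.injective h)

theorem aut_ext {τ σ : MulAut QE} (h1 : τ (a 1) = σ (a 1)) (h2 : τ (xa 0) = σ (xa 0)) : τ = σ := by
  have := hom_ext_QG (τ.toMonoidHom) (σ.toMonoidHom) h1 h2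
  ext x
  exact congrArg (fun f : QE →* QE => f x) this

theorem card_aut_le : Nat.card (MulAut QE) ≤ 24 := by
  classical
  let f : MulAut QE → {p : QE × QE // p ∈ Finset.univ.filter pairOK} := fun τ =>
    ⟨(τ (a 1), τ (xa 0)), by simpa using aut_pair τ⟩
  have hf : Function.Injective f := by
    intro τ σ h
    have h' : (τ (a 1), τ (xa 0)) = (σ (a 1), σ (xa 0)) := congrArg Subtype.val h
    exact aut_ext (congrArg Prod.fst h') (congrArg Prod.snd h')
  have h := Nat.card_le_card_of_injective f hf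
  have h2 : Nat.card {p : QE × QE // p ∈ Finset.univ.filter pairOK} = 24 := by
    rw [Nat.card_eq_fintype_card, Fintype.card_coe, pair_card]
  omega

/-- Every generating pair is reached by an inner automorphism times powers of the two given ones. -/
theorem pair_gen : ∀ p : QE × QE, pairOK p → ∃ (x : QE) (i : Fin 3) (k : Fin 2),
    x * (rhoQ^[i.val] (muQ^[k.val] (a 1))) * x⁻¹ = p.1 ∧
    x * (rhoQ^[i.val] (muQ^[k.val] (xa 0))) * x⁻¹ = p.2 := by
  decide +kernel

/-- The normalizer pairs. -/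
def pairN (p : QE × QE) : Prop :=
  pairOK p ∧ ((p.2 = rhoQ p.1 ∧ p.2 * p.1 = rhoQ p.2) ∨ (p.2 = rhoQ (rhoQ p.1) ∧ p.2 * p.1 = rhoQ (rhoQ p.2)))

instance : DecidablePred pairN := fun p => by unfold pairN; infer_instance

theorem pairN_card : (Finset.univ.filter pairN).card = 6 := by decide +kernel

theorem pairZ : ∀ p : QE × QE, pairOK p → p.2 = rhoQ p.1 → p.2 * p.1 = rhoQ p.2 → p.1 ^ 3 = muQ p.1 →
    p.2 * p.1 ^ 3 = muQ p.2 → p = (a 1, xa 0) := by
  decide +kernel

theorem rhoA_ne : rhoA ≠ 1 := by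
  intro h
  have h1 : rhoA (a 1) = (1 : MulAut QE) (a 1) := by rw [h]
  have h2 : rhoQ (a 1) = a 1 := h1
  exact absurd h2 (by decide)

theorem muA_ne : muA ≠ 1 := by
  intro h
  have h1 : muA (a 1) = (1 : MulAut QE) (a 1) := by rw [h]
  have h2 : muQ (a 1) = a 1 := h1
  exact absurd h2 (by decide)

theorem rhoA_cube : rhoA ^ 3 = 1 := by
  ext x
  show rhoQ (rhoQ (rhoQ x)) = x
  exact rho3 x

theorem muA_sq : muA ^ 2 = 1 := by
  ext x
  show muQ (muQ x) = x
  exact mu2 x

theorem muA_inv : muA⁻¹ = muA := by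
  rw [inv_eq_iff_mul_eq_one, ← pow_two, muA_sq]

theorem muA_conj : muA * rhoA * muA⁻¹ = rhoA ^ 2 := by
  rw [muA_inv]
  ext x
  show muQ (rhoQ (muQ x)) = rhoQ (rhoQ x)
  revert x
  decide

theorem orderOf_rhoA : orderOf rhoA = 3 := by
  haveI : Fact (Nat.Prime 3) := ⟨Nat.prime_three⟩
  exact orderOf_eq_prime rhoA_cube rhoA_ne

theorem orderOf_muA : orderOf muA = 2 := by
  haveI : Fact (Nat.Prime 2) := ⟨Nat.prime_two⟩
  exact orderOf_eq_prime muA_sq muA_ne

theorem mem_D {σ : MulAut QE} (h : σ ∈ zpowers rhoA) : σ = 1 ∨ σ = rhoA ∨ σ = rhoA ^ 2 := by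
  obtain ⟨k, rfl⟩ := h
  have hk : k = 3 * (k / 3) + k % 3 := (Int.mul_ediv_add_emod k 3).symm
  have hc : (rhoA ^ (3 : ℤ)) = 1 := by
    exact_mod_cast rhoA_cube
  have e : rhoA ^ k = rhoA ^ (k % 3) := by
    conv_lhs => rw [hk, zpow_add, zpow_mul, hc, one_zpow, one_mul]
  have h0 : 0 ≤ k % 3 := Int.emod_nonneg _ (by norm_num)
  have h3 : k % 3 < 3 := Int.emod_lt_of_pos _ (by norm_num)
  show rhoA ^ k = 1 ∨ rhoA ^ k = rhoA ∨ rhoA ^ k = rhoA ^ 2
  rw [e]
  obtain h | h | h : k % 3 = 0 ∨ k % 3 = 1 ∨ k % 3 = 2 := by omega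
  · left
    rw [h, zpow_zero]
  · right; left
    rw [h, zpow_one]
  · right; right
    rw [h]
    exact_mod_cast rfl

theorem aut_pairN {τ : MulAut QE} (hτ : τ ∈ Subgroup.normalizer ((zpowers rhoA : Subgroup (MulAut QE)) : Set (MulAut QE))) :
    pairN (τ (a 1), τ (xa 0)) := by
  refine ⟨aut_pair τ, ?_⟩
  have h1 : τ * rhoA * τ⁻¹ ∈ zpowers rhoA := by
    exact (Subgroup.mem_normalizer_iff.1 hτ rhoA).1 (mem_zpowers rhoA)
  have e1 : rhoQ (a 1) = xa 0 := by decide
  have e2 : rhoQ (xa 0) = xa 0 * a 1 := by decide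
  have key : ∀ σ : MulAut QE, τ * rhoA * τ⁻¹ = σ → ∀ y, τ (rhoQ y) = σ (τ y) := by
    intro σ hσ y
    have h2 : τ * rhoA = σ * τ := by rw [← hσ]; group
    exact congrArg (fun f : MulAut QE => f y) h2
  rcases mem_D h1 with h | h | h
  · exfalso
    apply rhoA_ne
    have h2 : τ * rhoA = 1 * τ := by
      have := key
      rw [← h]; group
    rw [one_mul] at h2
    exact mul_left_cancel (a := τ) (by rw [h2, mul_one])
  · left
    have k1 := key _ h (a 1)
    have k2 := key _ h (xa 0)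
    rw [e1] at k1
    rw [e2, map_mul] at k2
    exact ⟨k1, k2⟩
  · right
    have k1 := key _ h (a 1)
    have k2 := key _ h (xa 0)
    rw [e1] at k1
    rw [e2, map_mul] at k2
    exact ⟨k1, k2⟩

theorem card_normalizer_le :
    Nat.card (Subgroup.normalizer ((zpowers rhoA : Subgroup (MulAut QE)) : Set (MulAut QE))) ≤ 6 := by
  classical
  set N := Subgroup.normalizer ((zpowers rhoA : Subgroup (MulAut QE)) : Set (MulAut QE)) with hN
  let f : N → {p : QE × QE // p ∈ Finset.univ.filter pairN} := fun τ =>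
    ⟨((τ : MulAut QE) (a 1), (τ : MulAut QE) (xa 0)), by simpa using aut_pairN τ.2⟩
  have hf : Function.Injective f := by
    intro τ σ h
    have h' : ((τ : MulAut QE) (a 1), (τ : MulAut QE) (xa 0)) = ((σ : MulAut QE) (a 1), (σ : MulAut QE) (xa 0)) :=
      congrArg Subtype.val h
    exact Subtype.ext (aut_ext (congrArg Prod.fst h') (congrArg Prod.snd h'))
  have h := Nat.card_le_card_of_injective f hf
  have h2 : Nat.card {p : QE × QE // p ∈ Finset.univ.filter pairN} = 6 := by
    rw [Nat.card_eq_fintype_card, Fintype.card_coe, pairN_card]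
  omega

theorem muA_mem_normalizer :
    muA ∈ Subgroup.normalizer ((zpowers rhoA : Subgroup (MulAut QE)) : Set (MulAut QE)) := by
  have hf : ∀ σ ∈ zpowers rhoA, muA * σ * muA⁻¹ ∈ zpowers rhoA := by
    rintro _ ⟨k, rfl⟩
    show muA * rhoA ^ k * muA⁻¹ ∈ zpowers rhoA
    rw [← conj_zpow, muA_conj]
    exact zpow_mem (pow_mem (mem_zpowers rhoA) 2) k
  rw [Subgroup.mem_normalizer_iff]
  intro σ
  constructor
  · exact hf σ
  · intro h
    have := hf _ h
    have e : muA * (muA * σ * muA⁻¹) * muA⁻¹ = σ := by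
      rw [muA_inv]
      have h2 : muA * muA = 1 := by rw [← pow_two, muA_sq]
      calc muA * (muA * σ * muA) * muA = (muA * muA) * σ * (muA * muA) := by group
        _ = σ := by rw [h2]; group
    rwa [e] at this

theorem card_normalizer_eq :
    Nat.card (Subgroup.normalizer ((zpowers rhoA : Subgroup (MulAut QE)) : Set (MulAut QE))) = 6 := by
  set N := Subgroup.normalizer ((zpowers rhoA : Subgroup (MulAut QE)) : Set (MulAut QE)) with hN
  have h3 : 3 ∣ Nat.card N := by
    have hle : zpowers rhoA ≤ N := Subgroup.le_normalizer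
    have := Subgroup.card_dvd_of_le hle
    rwa [Nat.card_zpowers, orderOf_rhoA] at this
  have h2 : 2 ∣ Nat.card N := by
    have := Subgroup.orderOf_dvd_natCard N muA_mem_normalizer
    rwa [orderOf_muA] at this
  have h6 : 6 ∣ Nat.card N := by
    have : Nat.Coprime 2 3 := by norm_num
    exact this.mul_dvd_of_dvd_of_dvd h2 h3
  have hle := card_normalizer_le
  have hpos : 0 < Nat.card N := Nat.card_pos
  obtain ⟨c, hc⟩ := h6
  have : c = 1 := by
    rw [hc] at hle hpos
    rcases c with _ | _ | c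
    · omega
    · rfl
    · omega
  rw [hc, this]

theorem aut_center_trivial (τ : MulAut QE) (hτ : τ ≠ 1) : ¬ ∀ σ : MulAut QE, σ * τ * σ⁻¹ = τ := by
  intro h
  apply hτ
  have k1 : ∀ y, τ (rhoQ y) = rhoQ (τ y) := by
    intro y
    have h2 : rhoA * τ = τ * rhoA := by
      have := h rhoA
      rw [mul_inv_eq_iff_eq_mul] at this
      exact this
    exact (congrArg (fun f : MulAut QE => f y) h2).symm
  have k2 : ∀ y, τ (muQ y) = muQ (τ y) := by
    intro y
    have h2 : muA * τ = τ * muA := by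
      have := h muA
      rw [mul_inv_eq_iff_eq_mul] at this
      exact this
    exact (congrArg (fun f : MulAut QE => f y) h2).symm
  have e1 : rhoQ (a 1) = xa 0 := by decide
  have e2 : rhoQ (xa 0) = xa 0 * a 1 := by decide
  have e3 : muQ (a 1) = (a 1) ^ 3 := by decide
  have e4 : muQ (xa 0) = xa 0 * (a 1) ^ 3 := by decide
  have p1 := k1 (a 1)
  have p2 := k1 (xa 0)
  have p3 := k2 (a 1)
  have p4 := k2 (xa 0)
  rw [e1] at p1
  rw [e2, map_mul] at p2
  rw [e3, map_pow] at p3
  rw [e4, map_mul, map_pow] at p4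
  have := pairZ _ (aut_pair τ) p1 p2 p3 p4
  have h1 : τ (a 1) = a 1 := congrArg Prod.fst this
  have h2 : τ (xa 0) = xa 0 := congrArg Prod.snd this
  exact aut_ext h1 h2

theorem aut_S4 (hc : Nat.card (MulAut QE) = 24) : Nonempty (MulAut QE ≃* Equiv.Perm (Fin 4)) := by
  refine Cfsg.Agent.Lib.Classical.Dick.s4_of_card hc (zpowers rhoA) ?_ card_normalizer_eq ?_
  · rw [Nat.card_zpowers, orderOf_rhoA]
  · exact fun z hz => aut_center_trivial z hz

end Cfsg.Agent.Lib.GS1.SyInt
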