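import Mathlib
import Cfsg.Agent.Lib.GS1.SyInt2

/-! The relations inside `GL(2,3)`. -/

set_option autoImplicit false

namespace Cfsg.Agent.Lib.GS1.SyInt

open Subgroup QuaternionGroup Matrix

def iG : GL (Fin 2) (ZMod 3) := ⟨!![0, 1; 2, 0], !![0, 2; 1, 0], by decide +kernel, by decide +kernel⟩

def jG : GL (Fin 2) (ZMod 3) := ⟨!![2, 2; 2, 1], !![1, 1; 1, 2], by decide +kernel, by decide +kernel⟩

def rG : GL (Fin 2) (ZMod 3) := ⟨!![1, 1; 0, 1], !![1, 2; 0, 1], by decide +kernel, by decide +kernel⟩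

def sG : GL (Fin 2) (ZMod 3) := ⟨!![1, 0; 0, 2], !![1, 0; 0, 2], by decide +kernel, by decide +kernel⟩

theorem relG : Rel iG jG rG sG where
  hi := by decide +kernel
  hj := by decide +kernel
  hji := by decide +kernel
  hoi := by
    have : orderOf iG = 2 ^ (1 + 1) := orderOf_eq_prime_pow (p := 2) (by decide +kernel) (by decide +kernel)
    simpa using this
  hor := by
    haveI : Fact (Nat.Prime 3) := ⟨Nat.prime_three⟩
    exact orderOf_eq_prime (by decide +kernel) (by decide +kernel)
  hou := by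
    haveI : Fact (Nat.Prime 2) := ⟨Nat.prime_two⟩
    exact orderOf_eq_prime (by decide +kernel) (by decide +kernel)
  hur := by decide +kernel
  h1 := by decide +kernel
  h2 := by decide +kernel
  h3 := by decide +kernel
  h4 := by decide +kernel

theorem detG (g : GL (Fin 2) (ZMod 3)) (c : (ZMod 3)ˣ)
    (h : (g.val 0 0) * (g.val 1 1) - (g.val 0 1) * (g.val 1 0) = c.val) : Matrix.GeneralLinearGroup.det g = c := by
  apply Units.ext
  show Matrix.det g.val = c.val
  rw [Matrix.det_fin_two, h]

theorem hindG (x : QuaternionGroup 2) (p q : ℤ) (hx : relG.e x * rG ^ p * sG ^ q = 1) :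
    x = 1 ∧ rG ^ p = 1 ∧ sG ^ q = 1 := by
  refine relG.hind (Matrix.GeneralLinearGroup.det) ?_ ?_ ?_ ?_ x p q hx
  · exact detG _ _ (by decide +kernel)
  · exact detG _ _ (by decide +kernel)
  · exact detG _ _ (by decide +kernel)
  · intro h
    have h2 := detG sG (-1) (by decide +kernel)
    rw [h] at h2
    exact absurd h2 (by decide +kernel)

end Cfsg.Agent.Lib.GS1.SyInt
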