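import Mathlib
import Cfsg.Agent.Lib.GS1.SyInt1
import Cfsg.Agent.Lib.GS1.SyInt3

/-! A group whose quaternion normal subgroup of order eight contains its centralizer. -/

set_option autoImplicit false

namespace Cfsg.Agent.Lib.GS1.SyInt

open Subgroup QuaternionGroup
open Cfsg.Agent.Lib.Classical.Quat

universe u

variable {Q : Type u} [Group Q] [Finite Q]

theorem normal_sylow_of (N : Subgroup Q) [hN : N.Normal] (hp : IsPGroup 2 N) (hi : ¬ 2 ∣ N.index) :
    ∃ P : Sylow 2 Q, (P : Subgroup Q).Normal := by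
  haveI : Fact (Nat.Prime 2) := ⟨Nat.prime_two⟩
  refine ⟨hp.toSylow hi, ?_⟩
  rw [IsPGroup.toSylow_coe]
  exact hN

theorem card_GL_two_three : Nat.card (GL (Fin 2) (ZMod 3)) = 48 := by
  have : Fact (Nat.Prime 3) := ⟨Nat.prime_three⟩
  rw [Matrix.card_GL_field, ZMod.card, Fin.prod_univ_two]
  norm_num

theorem rhoA_pow (i : ℕ) (u : QE) : (rhoA ^ i) u = rhoQ^[i] u := by
  induction i generalizing u with
  | zero => rfl
  | succ i ih =>
    rw [pow_succ', MulAut.mul_apply, ih, Function.iterate_succ_apply']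
    rfl

theorem muA_pow (i : ℕ) (u : QE) : (muA ^ i) u = muQ^[i] u := by
  induction i generalizing u with
  | zero => rfl
  | succ i ih =>
    rw [pow_succ', MulAut.mul_apply, ih, Function.iterate_succ_apply']
    rfl

/-- The conclusion. -/
def Concl (Q : Type u) [Group Q] : Prop :=
  (∃ P : Sylow 2 Q, (P : Subgroup Q).Normal) ∨ Nonempty (Q ≃* GL (Fin 2) (ZMod 3)) ∨
    (Nat.card Q = 48 ∧ Nat.card ↥(Subgroup.center Q) = 2 ∧
      Nonempty (Q ⧸ Subgroup.center Q ≃* Equiv.Perm (Fin 4)) ∧
      ∀ P : Sylow 2 Q, Nonempty (↥(P : Subgroup Q) ≃* QuaternionGroup 4))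

theorem q8_main (ι : QE →* Q) (hι : Function.Injective ι) (Φ : Q →* MulAut QE)
    (hΦ : ∀ t y, t * ι y * t⁻¹ = ι (Φ t y)) (hC : ∀ t, (∀ y, t * ι y * t⁻¹ = ι y) → ∃ w, t = ι w) :
    Concl Q := by
  haveI : Fact (Nat.Prime 2) := ⟨Nat.prime_two⟩
  haveI : Fact (Nat.Prime 3) := ⟨Nat.prime_three⟩
  set z : Q := ι (a 2) with hz
  have hz2 : z ^ 2 = 1 := by
    rw [hz, ← map_pow]
    have : (a 2 : QE) ^ 2 = 1 := by decide
    rw [this, map_one]
  have hz1 : z ≠ 1 := by
    intro h
    have : (a 2 : QE) = 1 := hι (by rw [map_one]; exact h)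
    exact absurd this (by decide)
  have hoz : orderOf z = 2 := orderOf_eq_prime hz2 hz1
  -- centre of `QE`
  have hq1 : ∀ w : QE, (∀ y : QE, w * y = y * w) → w = 1 ∨ w = a 2 := by decide
  have hq2 : ∀ y : QE, y ^ 2 = 1 → y ≠ 1 → y = a 2 := by decide
  have hq3 : ∀ y : QE, a 2 * y = y * a 2 := by decide
  have hker : ∀ t, (∀ y, t * ι y * t⁻¹ = ι y) → t = 1 ∨ t = z := by
    intro t ht
    obtain ⟨w, rfl⟩ := hC t ht
    have h1 : ∀ y : QE, w * y = y * w := by
      intro y
      apply hι
      have h2 := ht y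
      rw [mul_inv_eq_iff_eq_mul] at h2
      rw [map_mul, map_mul, h2]
    rcases hq1 w h1 with rfl | rfl
    · left
      exact map_one ι
    · right
      rfl
  have hkerΦ : ∀ t, Φ t = 1 → t = 1 ∨ t = z := by
    intro t ht
    apply hker
    intro y
    rw [hΦ, ht]
    rfl
  have hzact : ∀ y, z * ι y * z⁻¹ = ι y := by
    intro y
    rw [mul_inv_eq_iff_eq_mul, hz, ← map_mul, ← map_mul, hq3]
  have hΦz : Φ z = 1 := by
    ext y
    apply hι
    rw [← hΦ, hzact]
    rfl
  have hzc : ∀ t, t * z * t⁻¹ = z := by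
    intro t
    rw [hz, hΦ]
    congr 1
    have h0 : (a 2 : QE) ^ 2 = 1 := by decide
    have h00 : (a 2 : QE) ≠ 1 := by decide
    apply hq2
    · rw [← map_pow, h0, map_one]
    · intro h
      exact h00 ((Φ t).map_eq_one_iff.mp h)
  have hzcomm : ∀ t, z * t = t * z := by
    intro t
    have := hzc t
    rw [mul_inv_eq_iff_eq_mul] at this
    exact this.symm
  -- kernel
  have hkerEq : Φ.ker = zpowers z := by
    apply le_antisymm
    · intro t ht
      rcases hkerΦ t ht with rfl | rfl
      · exact one_mem _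
      · exact mem_zpowers _
    · rw [zpowers_le]
      exact hΦz
  have hckZ : Nat.card (zpowers z) = 2 := by rw [Nat.card_zpowers, hoz]
  have hcQ : Nat.card Q = 2 * Nat.card Φ.range := by
    have h1 := Subgroup.card_mul_index Φ.ker
    rw [hkerEq, hckZ, ← hkerEq, Subgroup.index_ker] at h1
    exact h1.symm
  have hrange : Nat.card Φ.range ≤ 24 :=
    le_trans (Nat.card_le_card_of_injective _ Subtype.val_injective) card_aut_le
  have hWn : (ι.range).Normal := by
    constructor
    rintro _ ⟨y, rfl⟩ t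
    exact ⟨Φ t y, (hΦ t y).symm⟩
  have hcE : Nat.card QE = 8 := by
    rw [Nat.card_eq_fintype_card]
    decide
  have hcW : Nat.card ι.range = 8 := by
    rw [← hcE]
    exact (Nat.card_congr (MonoidHom.ofInjective hι).toEquiv).symm
  have h8 : 8 ∣ Nat.card Q := by
    rw [← hcW]
    exact Subgroup.card_subgroup_dvd_card _
  by_cases h48 : Nat.card Q = 48
  swap
  · left
    obtain ⟨c, hc⟩ := h8
    have hpos : 0 < Nat.card Q := Nat.card_pos
    have hc5 : c ≤ 5 ∧ 1 ≤ c := by omega
    have hidx : ι.range.index = c := by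
      have h1 := Subgroup.card_mul_index ι.range
      rw [hcW, hc] at h1
      exact Nat.eq_of_mul_eq_mul_left (by norm_num) h1
    have hpW : IsPGroup 2 ι.range := by
      apply IsPGroup.of_card (n := 3)
      rw [hcW]
      norm_num
    obtain h | h | h | h | h : c = 1 ∨ c = 2 ∨ c = 3 ∨ c = 4 ∨ c = 5 := by omega
    · exact normal_sylow_of ι.range hpW (by rw [hidx, h]; norm_num)
    · refine normal_sylow_of (⊤ : Subgroup Q) ?_ (by rw [Subgroup.index_top]; norm_num)
      apply IsPGroup.of_card (n := 4)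
      rw [Subgroup.card_top, hc, h]
      norm_num
    · exact normal_sylow_of ι.range hpW (by rw [hidx, h]; norm_num)
    · refine normal_sylow_of (⊤ : Subgroup Q) ?_ (by rw [Subgroup.index_top]; norm_num)
      apply IsPGroup.of_card (n := 5)
      rw [Subgroup.card_top, hc, h]
      norm_num
    · exact normal_sylow_of ι.range hpW (by rw [hidx, h]; norm_num)
  right
  have hcR : Nat.card Φ.range = 24 := by omega
  have hcA : Nat.card (MulAut QE) = 24 := by
    apply le_antisymm card_aut_le
    rw [← hcR]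
    exact Nat.card_le_card_of_injective _ Subtype.val_injective
  have hsurj : Function.Surjective Φ := by
    rw [← MonoidHom.range_eq_top]
    apply Subgroup.eq_top_of_card_eq
    rw [hcR, hcA]
  obtain ⟨r₀, hr₀⟩ := hsurj rhoA
  obtain ⟨s, hs⟩ := hsurj muA
  -- the element of order three
  set r : Q := r₀ ^ 4 with hrdef
  have hΦr : Φ r = rhoA := by
    rw [hrdef, map_pow, hr₀, pow_succ, rhoA_cube, one_mul]
  have hr3 : r ^ 3 = 1 := by
    have h1 : Φ (r₀ ^ 3) = 1 := by rw [map_pow, hr₀, rhoA_cube]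
    have h2 : (r₀ ^ 3) ^ 2 = 1 := by
      rcases hkerΦ _ h1 with h | h
      · rw [h, one_pow]
      · rw [h, hz2]
    have e : r ^ 3 = ((r₀ ^ 3) ^ 2) ^ 2 := by
      rw [hrdef, ← pow_mul, ← pow_mul, ← pow_mul]
    rw [e, h2, one_pow]
  have hr1 : r ≠ 1 := by
    intro h
    apply rhoA_ne
    rw [← hΦr, h, map_one]
  have hor : orderOf r = 3 := orderOf_eq_prime hr3 hr1
  have hs1 : s ≠ 1 := by
    intro h
    apply muA_ne
    rw [← hs, h, map_one]
  have hs2 : s ^ 2 = 1 ∨ s ^ 2 = z := by
    apply hkerΦ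
    rw [map_pow, hs, muA_sq]
  have hur : s * r * s⁻¹ = r⁻¹ := by
    have h1 : Φ (s * r * s⁻¹ * r) = 1 := by
      rw [map_mul, map_mul, map_mul, map_inv, hs, hΦr, muA_conj, ← pow_succ, rhoA_cube]
    rcases hkerΦ _ h1 with h | h
    · exact eq_inv_of_mul_eq_one_left h
    · exfalso
      apply hz1
      have e1 : s * r * s⁻¹ = z * r⁻¹ := by
        rw [← h]
        group
      have e2 : (s * r * s⁻¹) ^ 3 = 1 := by
        rw [conj_pow, hr3]
        group
      rw [e1] at e2
      have hcm : Commute z r⁻¹ := hzcomm _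
      rw [hcm.mul_pow, inv_pow, hr3, inv_one, mul_one, pow_succ, hz2, one_mul] at e2
      exact e2
  have hrc : ∀ y, r * ι y * r⁻¹ = ι (rhoQ y) := by
    intro y
    rw [hΦ, hΦr]
    rfl
  have hsc : ∀ y, s * ι y * s⁻¹ = ι (muQ y) := by
    intro y
    rw [hΦ, hs]
    rfl
  set i : Q := ι (a 1) with hi
  set j : Q := ι (xa 0) with hj
  rcases hs2 with hs2 | hs2
  · -- the linear group
    left
    have hrel : Rel i j r s :=
      { hi := by
          rw [hi, ← map_pow]
          have : (a 1 : QE) ^ (2 * 2) = 1 := by decide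
          rw [this, map_one]
        hj := by
          rw [hi, hj, ← map_pow, ← map_pow]
          congr 1
        hji := by
          rw [hi, hj, ← map_inv, ← map_inv, ← map_mul, ← map_mul]
          congr 1
        hoi := by
          rw [hi, orderOf_injective ι hι, QuaternionGroup.orderOf_a_one]
        hor := hor
        hou := orderOf_eq_prime hs2 hs1
        hur := hur
        h1 := by
          rw [hi, hrc]
          congr 1
        h2 := by
          rw [hj, hrc, hi, ← map_mul]
          congr 1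
        h3 := by
          rw [hi, hsc, ← map_inv]
          congr 1
        h4 := by
          rw [hj, hsc, hi, ← map_mul, ← map_inv]
          congr 1 }
    have he : hrel.e = ι := hom_ext_QG _ _ hrel.e_a hrel.e_xa
    refine iso_of_rel hrel relG hindG ?_ (by rw [h48, card_GL_two_three])
    intro g
    rw [he]
    obtain ⟨x, p, k, h1, h2⟩ := pair_gen (Φ g (a 1), Φ g (xa 0)) (aut_pair (Φ g))
    set t : Q := ι x * r ^ p.val * s ^ k.val with ht
    have hΦι : ∀ u, Φ (ι x) u = x * u * x⁻¹ := by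
      intro u
      apply hι
      rw [← hΦ, map_mul, map_mul, map_inv]
    have hΦt : ∀ y, Φ t y = x * (rhoQ^[p.val] (muQ^[k.val] y)) * x⁻¹ := by
      intro y
      rw [ht, map_mul, map_mul, map_pow Φ r, map_pow Φ s, hΦr, hs, MulAut.mul_apply, MulAut.mul_apply, hΦι,
        rhoA_pow, muA_pow]
    have hΦg : Φ t = Φ g := aut_ext (by rw [hΦt]; exact h1) (by rw [hΦt]; exact h2)
    have hk : Φ (t⁻¹ * g) = 1 := by rw [map_mul, map_inv, hΦg, inv_mul_cancel]
    rcases hkerΦ _ hk with h | h
    · refine ⟨x, (p.val : ℤ), (k.val : ℤ), ?_⟩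
      rw [zpow_natCast, zpow_natCast]
      exact (inv_mul_eq_one.mp h).symm
    · refine ⟨x * a 2, (p.val : ℤ), (k.val : ℤ), ?_⟩
      have h3 : g = t * z := inv_mul_eq_iff_eq_mul.mp h
      rw [zpow_natCast, zpow_natCast, h3, ht, map_mul, ← hz]
      have c1 := hzcomm (s ^ k.val)
      have c2 := hzcomm (r ^ p.val)
      calc ι x * r ^ p.val * s ^ k.val * z = ι x * r ^ p.val * (s ^ k.val * z) := by simp only [mul_assoc]
        _ = ι x * r ^ p.val * (z * s ^ k.val) := by rw [c1]
        _ = ι x * (r ^ p.val * z) * s ^ k.val := by simp only [mul_assoc]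
        _ = ι x * (z * r ^ p.val) * s ^ k.val := by rw [c2]
        _ = ι x * z * r ^ p.val * s ^ k.val := by simp only [mul_assoc]
  · right
    have hcenter : Subgroup.center Q = Φ.ker := by
      apply le_antisymm
      · intro t ht
        rw [MonoidHom.mem_ker]
        ext y
        apply hι
        rw [← hΦ]
        show t * ι y * t⁻¹ = ι y
        rw [mul_inv_eq_iff_eq_mul]
        exact ((Subgroup.mem_center_iff.1 ht) (ι y)).symm
      · intro t ht
        rw [Subgroup.mem_center_iff]
        rcases hkerΦ t ht with rfl | rfl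
        · intro g
          simp
        · intro g
          exact (hzcomm g).symm
    refine ⟨h48, ?_, ?_, ?_⟩
    · rw [hcenter, hkerEq, hckZ]
    · obtain ⟨e⟩ := aut_S4 hcA
      exact ⟨(QuotientGroup.quotientMulEquivOfEq hcenter).trans
        ((QuotientGroup.quotientKerEquivOfSurjective Φ hsurj).trans e)⟩
    · intro P
      set x₀ : Q := s * j with hx₀
      have hx2 : x₀ ^ 2 = i := by
        rw [hx₀, pow_two]
        have e : s * j * (s * j) = (s * j * s⁻¹) * s ^ 2 * j := by group
        rw [e, hj, hsc, hs2, hz, ← map_mul, ← map_mul, hi]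
        have e4 : muQ (xa 0) * a 2 * xa 0 = a 1 := by decide
        rw [e4]
      have hx4 : x₀ ^ 4 = z := by
        have e : x₀ ^ 4 = (x₀ ^ 2) ^ 2 := by rw [← pow_mul]
        rw [e, hx2, hi, ← map_pow]
        have e4 : (a 1 : QE) ^ 2 = a 2 := by decide
        rw [e4]
      have hx8 : x₀ ^ 2 ^ (2 + 1) = 1 := by
        have e : x₀ ^ 2 ^ (2 + 1) = (x₀ ^ 4) ^ 2 := by
          rw [← pow_mul]
          exact congrArg (fun m => x₀ ^ m) (by norm_num : 2 ^ (2 + 1) = 4 * 2)
        rw [e, hx4, hz2]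
      have hx4' : ¬ x₀ ^ 2 ^ 2 = 1 := by
        have e : x₀ ^ 2 ^ 2 = x₀ ^ 4 := congrArg (fun m => x₀ ^ m) (by norm_num : 2 ^ 2 = 4)
        rw [e, hx4]
        exact hz1
      have hox : orderOf x₀ = 2 * 4 := by
        have := orderOf_eq_prime_pow (p := 2) hx4' hx8
        rw [this]
        norm_num
      have hw : s ^ 2 = x₀ ^ 4 := by rw [hs2, hx4]
      have hwt : s * x₀ * s⁻¹ = x₀⁻¹ := by
        rw [eq_inv_iff_mul_eq_one]
        have e : s * x₀ * s⁻¹ * x₀ = s ^ 2 * j ^ 2 := by
          rw [hx₀, pow_two, pow_two]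
          simp only [mul_assoc, inv_mul_cancel_left]
        have hj2 : j ^ 2 = z := by
          rw [hj, ← map_pow]
          have e4 : (xa 0 : QE) ^ 2 = a 2 := by decide
          rw [e4]
        rw [e, hs2, hj2, ← pow_two, hz2]
      obtain ⟨H, hH, ⟨eH⟩⟩ := exists_quat_subgroup (n := 4) x₀ s hw hwt hox (by norm_num)
      have hpH : IsPGroup 2 H := by
        apply IsPGroup.of_card (n := 4)
        rw [hH]
        norm_num
      have hiH : ¬ 2 ∣ H.index := by
        have h1 := Subgroup.card_mul_index H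
        rw [hH, h48] at h1
        have : H.index = 3 := by omega
        rw [this]
        norm_num
      let P₀ := hpH.toSylow hiH
      have hP₀ : (P₀ : Subgroup Q) = H := IsPGroup.toSylow_coe hpH hiH
      exact ⟨(P.equiv P₀).trans ((MulEquiv.subgroupCongr hP₀).trans eH)⟩

end Cfsg.Agent.Lib.GS1.SyInt
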