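import Mathlib
import Cfsg.Agent.Lib.GS1.SyInt4
import Cfsg.Agent.Lib.Invol.AutOdd
import Cfsg.Agent.Lib.Classical.Dick.SLp2
import Cfsg.Agent.Lib.LBal.Std
import Cfsg.Agent.Lib.Geo.PrimSolvable
import Cfsg.Agent.Lib.Core.Basic

/-! Solvable groups with trivial odd core whose distinct Sylow `2`-subgroups meet in `2`-rank at most one. -/

set_option autoImplicit false

namespace Cfsg.Agent.Lib.GS1.SyInt

open Subgroup QuaternionGroup
open Cfsg Cfsg.Agent.Lib.Core

universe u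

theorem cyclic_of_unique_invol {U : Type*} [Group U] [Finite U] (hU : IsPGroup 2 U) (hc : ∀ x y : U, x * y = y * x)
    (hu : ∀ a b : U, a ^ 2 = 1 → b ^ 2 = 1 → a ≠ 1 → b ≠ 1 → a = b) : IsCyclic U := by
  classical
  haveI : Fact (Nat.Prime 2) := ⟨Nat.prime_two⟩
  letI : CommGroup U := { ‹Group U› with mul_comm := hc }
  obtain ⟨g, hg⟩ := Monoid.exists_orderOf_eq_exponent (G := U) Monoid.ExponentExists.of_finite
  have hall : ∀ y : U, y ^ orderOf g = 1 := by
    intro y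
    rw [hg]
    exact Monoid.pow_exponent_eq_one y
  have hord : ∀ y : U, ∃ n, orderOf y = 2 ^ n := by
    intro y
    obtain ⟨k, hk⟩ := hU y
    obtain ⟨j, -, hj⟩ := (Nat.dvd_prime_pow Nat.prime_two).1 (orderOf_dvd_of_pow_eq_one hk)
    exact ⟨j, hj⟩
  obtain ⟨n, hn⟩ := hord g
  have htop : ∀ m : ℕ, ∀ y : U, orderOf y = m → y ∈ zpowers g := by
    intro m
    induction m using Nat.strong_induction_on with
    | _ m ih =>
      intro y hy
      by_cases hy1 : y = 1
      · rw [hy1]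
        exact one_mem _
      obtain ⟨b, hb⟩ := hord y
      obtain ⟨b', rfl⟩ : ∃ b', b = b' + 1 := by
        refine ⟨b - 1, ?_⟩
        have : b ≠ 0 := by
          rintro rfl
          exact hy1 (orderOf_eq_one_iff.1 (by simpa using hb))
        omega
      have hy2 : orderOf (y ^ 2) = 2 ^ b' := Cfsg.Agent.Lib.GS1.Miller.order_sq hb
      have hlt : orderOf (y ^ 2) < m := by
        rw [hy2, ← hy, hb, pow_succ]
        have : 0 < 2 ^ b' := by positivity
        omega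
      obtain ⟨c, hc'⟩ := ih _ hlt (y ^ 2) rfl
      simp only at hc'
      obtain ⟨n', rfl⟩ : ∃ n', n = n' + 1 := by
        refine ⟨n - 1, ?_⟩
        have : n ≠ 0 := by
          rintro rfl
          have := hall y
          rw [hn, pow_zero, pow_one] at this
          exact absurd this hy1
        omega
      have hc2 : (2 : ℤ) ∣ c := by
        have h1 : g ^ (c * (2 ^ n' : ℕ)) = 1 := by
          rw [zpow_mul, hc', zpow_natCast, ← pow_mul]
          have := hall y
          rw [hn, pow_succ'] at this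
          exact this
        have h2 := orderOf_dvd_iff_zpow_eq_one.2 h1
        rw [hn] at h2
        have h3 : ((2 ^ (n' + 1) : ℕ) : ℤ) = 2 * (2 ^ n' : ℕ) := by
          push_cast
          ring
        rw [h3] at h2
        have hne : ((2 ^ n' : ℕ) : ℤ) ≠ 0 := by positivity
        exact (mul_dvd_mul_iff_right hne).1 h2
      obtain ⟨d, rfl⟩ := hc2
      set w : U := y * g ^ (-d) with hw
      have hw2 : w ^ 2 = 1 := by
        rw [hw, mul_pow, ← zpow_natCast (g ^ (-d)), ← zpow_mul, ← hc']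
        have e1 : (-d * ((2 : ℕ) : ℤ)) = -(2 * d) := by
          push_cast
          ring
        rw [e1, zpow_neg, mul_inv_cancel]
      set g₂ : U := g ^ 2 ^ n' with hg₂
      have hg₂2 : g₂ ^ 2 = 1 := by
        rw [hg₂, ← pow_mul, ← pow_succ, ← hn, pow_orderOf_eq_one]
      have hg₂1 : g₂ ≠ 1 := by
        intro h
        have h1 := orderOf_dvd_of_pow_eq_one h
        rw [hn] at h1
        have := Nat.le_of_dvd (by positivity) h1
        rw [pow_succ] at this
        have : 0 < 2 ^ n' := by positivity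
        omega
      have hyw : y = w * g ^ d := by
        rw [hw, mul_assoc, zpow_neg, inv_mul_cancel, mul_one]
      rw [hyw]
      by_cases hw1 : w = 1
      · rw [hw1, one_mul]
        exact zpow_mem_zpowers g d
      · have := hu w g₂ hw2 hg₂2 hw1 hg₂1
        rw [this]
        exact mul_mem (pow_mem (mem_zpowers g) _) (zpow_mem_zpowers g d)
  exact ⟨g, fun y => htop _ y rfl⟩

theorem aut_two_of_quat (k : ℕ) (hk : 2 ≤ k) : IsPGroup 2 (MulAut (QuaternionGroup (2 ^ k))) := by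
  haveI : NeZero (2 ^ k) := ⟨by positivity⟩
  have ho : orderOf (a 1 : QuaternionGroup (2 ^ k)) = 2 ^ (k + 1) := by
    rw [QuaternionGroup.orderOf_a_one, pow_succ]
    ring
  have hcard : Nat.card (QuaternionGroup (2 ^ k)) = 4 * 2 ^ k := Cfsg.Agent.Lib.Classical.Quat.card_quaternion
  refine Cfsg.Agent.Lib.Invol.isPGroup_aut_of_cyclic ho ?_ ?_
  · have h1 := Subgroup.card_mul_index (zpowers (a 1 : QuaternionGroup (2 ^ k)))
    rw [Nat.card_zpowers, ho, hcard, pow_succ] at h1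
    have hpos : 0 < 2 ^ k := by positivity
    have : (zpowers (a 1 : QuaternionGroup (2 ^ k))).index = 2 := by
      have h2 : 2 ^ k * 2 * (zpowers (a 1 : QuaternionGroup (2 ^ k))).index = 2 ^ k * 2 * 2 := by
        rw [h1]
        ring
      exact Nat.eq_of_mul_eq_mul_left (by positivity) h2
    omega
  · intro t ht
    rw [ho]
    cases t with
    | a i =>
      exfalso
      apply ht
      refine ⟨(i.val : ℤ), ?_⟩
      show (a 1 : QuaternionGroup (2 ^ k)) ^ (i.val : ℤ) = a i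
      rw [zpow_natCast, QuaternionGroup.a_one_pow]
      congr 1
      exact ZMod.natCast_zmod_val i
    | xa i =>
      rw [QuaternionGroup.orderOf_xa]
      have : 2 ^ 3 ≤ 2 ^ (k + 1) := Nat.pow_le_pow_right (by norm_num) (by omega)
      omega

section main

variable {Q : Type u} [Group Q] [Finite Q]

theorem two_of_aut (W : Subgroup Q) [W.Normal] (hp : IsPGroup 2 W)
    (hA : IsPGroup 2 (MulAut W)) (hC : ∀ t, (∀ w ∈ W, t * w * t⁻¹ = w) → t ∈ W) : IsPGroup 2 Q := by
  apply Cfsg.Agent.Lib.Invol.isPGroup_of_odd_trivial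
  intro x hx
  have hxc : ∀ k : ℕ, Nat.Coprime (2 ^ k) (orderOf x) := fun k =>
    Nat.Coprime.pow_left k (Nat.coprime_two_left.2 hx)
  have h1 : MulAut.conjNormal x = (1 : MulAut W) := by
    obtain ⟨k, hk⟩ := hA (MulAut.conjNormal x)
    have h2 : orderOf (MulAut.conjNormal x : MulAut W) ∣ 2 ^ k := orderOf_dvd_of_pow_eq_one hk
    have h3 : orderOf (MulAut.conjNormal x : MulAut W) ∣ orderOf x := orderOf_map_dvd _ _
    exact orderOf_eq_one_iff.1 (Nat.eq_one_of_dvd_coprimes (hxc k) h2 h3)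
  have h4 : x ∈ W := by
    apply hC
    intro w hw
    have h5 := congrArg (fun f : MulAut W => ((f ⟨w, hw⟩ : W) : Q)) h1
    simpa [MulAut.conjNormal_apply] using h5
  obtain ⟨k, hk⟩ := hp ⟨x, h4⟩
  have h6 : x ^ 2 ^ k = 1 := congrArg Subtype.val hk
  have h7 := orderOf_dvd_of_pow_eq_one h6
  exact orderOf_eq_one_iff.1 (Nat.eq_one_of_dvd_coprimes (hxc k) h7 dvd_rfl)

theorem q8_of_W (W : Subgroup Q) [hW : W.Normal] (e : W ≃* QE) (hC : ∀ t, (∀ w ∈ W, t * w * t⁻¹ = w) → t ∈ W) :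
    Concl Q := by
  refine q8_main (W.subtype.comp e.symm.toMonoidHom) ?_
    ((MulAut.congr e).toMonoidHom.comp MulAut.conjNormal) ?_ ?_
  · intro x y h
    have h1 : ((e.symm x : W) : Q) = ((e.symm y : W) : Q) := h
    exact e.symm.injective (Subtype.ext h1)
  · intro t y
    show t * ((e.symm y : W) : Q) * t⁻¹ = ((e.symm (e (MulAut.conjNormal t (e.symm y))) : W) : Q)
    rw [MulEquiv.symm_apply_apply, MulAut.conjNormal_apply]
  · intro t ht
    have h1 : t ∈ W := by
      apply hC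
      intro w hw
      have h2 := ht (e ⟨w, hw⟩)
      have h3 : ((e.symm (e ⟨w, hw⟩) : W) : Q) = w := by rw [MulEquiv.symm_apply_apply]
      exact (by simpa [h3] using h2 : t * w * t⁻¹ = w)
    refine ⟨e ⟨t, h1⟩, ?_⟩
    show t = ((e.symm (e ⟨t, h1⟩) : W) : Q)
    rw [MulEquiv.symm_apply_apply]

theorem main_Q (hs : Group.IsSolvable Q) (hO : pPrimeCore 2 Q = ⊥)
    (hI : ∀ S T : Sylow 2 Q, S ≠ T → PRankLE 2 1 ↥((S : Subgroup Q) ⊓ (T : Subgroup Q))) : Concl Q := by
  classical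
  haveI : Fact (Nat.Prime 2) := ⟨Nat.prime_two⟩
  by_cases hN : ∃ P : Sylow 2 Q, (P : Subgroup Q).Normal
  · exact Or.inl hN
  obtain ⟨S, T, hne⟩ : ∃ S T : Sylow 2 Q, S ≠ T := by
    by_contra hcon
    push Not at hcon
    haveI : Subsingleton (Sylow 2 Q) := ⟨hcon⟩
    exact hN ⟨default, Sylow.normal_of_subsingleton _⟩
  set W := pCore 2 Q with hW
  have hWp : IsPGroup 2 W := pCore_isPGroup 2 Q
  have hWS : W ≤ (S : Subgroup Q) ⊓ (T : Subgroup Q) := le_inf (pCore_le_sylow S) (pCore_le_sylow T)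
  have huq : ∀ a ∈ W, ∀ b ∈ W, a ^ 2 = 1 → b ^ 2 = 1 → a ≠ 1 → b ≠ 1 → a = b := by
    intro a ha b hb ha2 hb2 ha1 hb1
    exact Cfsg.Agent.Lib.LBal.unique_involution_of_rank_one (hI S T hne) hWS hWp ha hb ha2 hb2 ha1 hb1
  have hF : fittingSubgroup Q ≤ W := by
    rw [fittingSubgroup_eq_iSup_pCore]
    apply iSup_le
    intro q
    by_cases hq : (q : ℕ) = 2
    · rw [hq]
    · haveI : Fact (q : ℕ).Prime := ⟨q.2⟩
      have hcop : (Nat.card (pCore (q : ℕ) Q)).Coprime 2 := by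
        obtain ⟨n, hn⟩ := IsPGroup.iff_card.1 (pCore_isPGroup (q : ℕ) Q)
        rw [hn]
        exact Nat.Coprime.pow_left n ((Nat.coprime_primes q.2 Nat.prime_two).2 hq)
      have h1 : pCore (q : ℕ) Q ≤ pPrimeCore 2 Q := le_pPrimeCore (pCore_normal _ _) hcop
      rw [hO] at h1
      exact h1.trans bot_le
  have hCW : ∀ t, (∀ w ∈ W, t * w * t⁻¹ = w) → t ∈ W := by
    intro t ht
    apply hF
    haveI := hs
    apply Cfsg.Agent.Lib.Geo.centralizer_fitting_le_of_solvable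
    rw [Subgroup.mem_centralizer_iff]
    intro h hh
    have h1 := ht h (hF hh)
    rw [mul_inv_eq_iff_eq_mul] at h1
    exact h1.symm
  have hfin : IsPGroup 2 (MulAut W) → Concl Q := by
    intro hA
    have h2 := two_of_aut W hWp hA hCW
    exact Or.inl (normal_sylow_of (⊤ : Subgroup Q) (h2.to_subgroup _) (by rw [Subgroup.index_top]; norm_num))
  by_cases hna : IsMulCommutative W
  · apply hfin
    haveI : IsCyclic W := by
      refine cyclic_of_unique_invol hWp (fun x y => hna.is_comm.comm x y) ?_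
      intro a b ha hb ha1 hb1
      exact Subtype.ext (huq _ a.2 _ b.2 (congrArg Subtype.val ha) (congrArg Subtype.val hb)
        (fun h => ha1 (Subtype.ext h)) (fun h => hb1 (Subtype.ext h)))
    exact Cfsg.Agent.Lib.Invol.isPGroup_aut_of_isCyclic hWp
  · have hU : ∃! x : W, orderOf x = 2 := by
      have h2 : 2 ∣ Nat.card W := by
        obtain ⟨n, hn⟩ := IsPGroup.iff_card.1 hWp
        rw [hn]
        apply dvd_pow_self
        rintro rfl
        apply hna
        rw [pow_zero] at hn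
        haveI : Subsingleton W := (Nat.card_eq_one_iff_unique.1 hn).1
        exact ⟨⟨fun a b => Subsingleton.elim _ _⟩⟩
      obtain ⟨x, hx⟩ := exists_prime_orderOf_dvd_card' (G := W) 2 h2
      refine ⟨x, hx, ?_⟩
      intro y hy
      have hne1 : ∀ u : W, orderOf u = 2 → ((u : W) : Q) ≠ 1 := by
        intro u hu h
        have : u = 1 := Subtype.ext h
        rw [this, orderOf_one] at hu
        omega
      have hp2 : ∀ u : W, orderOf u = 2 → ((u : W) : Q) ^ 2 = 1 := by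
        intro u hu
        have : u ^ 2 = 1 := by rw [← hu]; exact pow_orderOf_eq_one u
        exact congrArg Subtype.val this
      exact Subtype.ext (huq _ y.2 _ x.2 (hp2 y hy) (hp2 x hx) (hne1 y hy) (hne1 x hx))
    obtain ⟨k, hk, ⟨e⟩⟩ := Cfsg.Agent.Lib.Classical.Dick.quat_of_unique_involution hWp hna hU
    by_cases hk1 : k = 1
    · subst hk1
      exact q8_of_W W e hCW
    · apply hfin
      have h3 := aut_two_of_quat k (by omega)
      exact h3.of_injective (MulAut.congr e).toMonoidHom (MulAut.congr e).injective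

end main

section descend

variable {G : Type u} [Group G] [Finite G]

theorem descend (hI : ∀ S T : Sylow 2 G, S ≠ T → PRankLE 2 1 ↥((S : Subgroup G) ⊓ (T : Subgroup G)))
    (Sb Tb : Sylow 2 (G ⧸ oddCore G)) (hne : Sb ≠ Tb) (B : Subgroup (G ⧸ oddCore G))
    (hBS : B ≤ Sb) (hBT : B ≤ Tb) (hc : ∀ x ∈ B, ∀ y ∈ B, x * y = y * x) (he : ∀ x ∈ B, x ^ 2 = 1) :
    Nat.card B ≤ 2 := by
  classical
  haveI : Fact (Nat.Prime 2) := ⟨Nat.prime_two⟩
  set O := oddCore G with hO
  let π : G →* G ⧸ O := QuotientGroup.mk' O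
  have hπ : Function.Surjective π := QuotientGroup.mk'_surjective O
  have hπO : ∀ x, π x = 1 → x ∈ O := fun x hx => (QuotientGroup.eq_one_iff x).1 hx
  obtain ⟨S₀, hS₀⟩ := Sylow.mapSurjective_surjective hπ 2 Sb
  obtain ⟨T₀, hT₀⟩ := Sylow.mapSurjective_surjective hπ 2 Tb
  have hSc : (Sb : Subgroup (G ⧸ O)) = (S₀ : Subgroup G).map π := by rw [← hS₀]; rfl
  have hTc : (Tb : Subgroup (G ⧸ O)) = (T₀ : Subgroup G).map π := by rw [← hT₀]; rfl
  have hOodd : (Nat.card O).Coprime 2 := pPrimeCore_coprime 2 G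
  have hdisj : ∀ x ∈ (T₀ : Subgroup G), π x = 1 → x = 1 := by
    intro x hx hx1
    obtain ⟨k, hk⟩ := T₀.isPGroup' ⟨x, hx⟩
    have h6 : x ^ 2 ^ k = 1 := congrArg Subtype.val hk
    have h7 := orderOf_dvd_of_pow_eq_one h6
    have h8 : orderOf x ∣ Nat.card O := Subgroup.orderOf_dvd_natCard O (hπO x hx1)
    exact orderOf_eq_one_iff.1 (Nat.eq_one_of_dvd_coprimes (Nat.Coprime.pow_left k hOodd.symm) h7 h8)
  let A₂ : Subgroup G := (T₀ : Subgroup G) ⊓ B.comap π
  have hA₂p : IsPGroup 2 A₂ := T₀.isPGroup'.to_le inf_le_left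
  have hA₂B : ∀ x ∈ A₂, π x ∈ B := fun x hx => hx.2
  have hA₂T : ∀ x ∈ A₂, x ∈ (T₀ : Subgroup G) := fun x hx => hx.1
  have hBA : ∀ b ∈ B, ∃ x ∈ A₂, π x = b := by
    intro b hb
    have h1 : b ∈ (Tb : Subgroup (G ⧸ O)) := hBT hb
    rw [hTc] at h1
    obtain ⟨x, hx, rfl⟩ := h1
    exact ⟨x, ⟨hx, hb⟩, rfl⟩
  let E : Subgroup G := (Sb : Subgroup (G ⧸ O)).comap π
  have hS₀E : (S₀ : Subgroup G) ≤ E := by
    intro x hx
    show π x ∈ (Sb : Subgroup (G ⧸ O))
    rw [hSc]
    exact ⟨x, hx, rfl⟩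
  have hA₂E : A₂ ≤ E := fun x hx => hBS (hA₂B x hx)
  let P₀ : Sylow 2 E := S₀.subtype hS₀E
  have hA₂p' : IsPGroup 2 (A₂.subgroupOf E) := by
    intro x
    obtain ⟨k, hk⟩ := hA₂p ⟨((x : E) : G), x.2⟩
    refine ⟨k, Subtype.ext (Subtype.ext ?_)⟩
    have h : ((x : E) : G) ^ 2 ^ k = 1 := congrArg Subtype.val hk
    exact h
  obtain ⟨R, hR⟩ := hA₂p'.exists_le_sylow
  obtain ⟨e, he'⟩ := MulAction.exists_smul_eq E P₀ R
  let S₁ : Sylow 2 G := (e : G) • S₀
  have hA₂S₁ : ∀ x ∈ A₂, x ∈ (S₁ : Subgroup G) := by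
    intro x hx
    have h1 : (⟨x, hA₂E hx⟩ : E) ∈ (R : Subgroup E) := hR (show _ ∈ A₂.subgroupOf E from hx)
    rw [← he'] at h1
    have h2 := Cfsg.Agent.Lib.ClassSizes.mem_sylow_smul_iff.1 h1
    exact Cfsg.Agent.Lib.ClassSizes.mem_sylow_smul_iff.2 h2
  have hneS : S₁ ≠ T₀ := by
    intro h
    apply hne
    have hle : (Tb : Subgroup (G ⧸ O)) ≤ Sb := by
      intro y hy
      rw [hTc] at hy
      obtain ⟨x, hx, rfl⟩ := hy
      have h1 : x ∈ (S₁ : Subgroup G) := by
        rw [h]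
        exact hx
      have h2 : (e : G)⁻¹ * x * e ∈ (S₀ : Subgroup G) := Cfsg.Agent.Lib.ClassSizes.mem_sylow_smul_iff.1 h1
      have h3 : π ((e : G)⁻¹ * x * e) ∈ (Sb : Subgroup (G ⧸ O)) := hS₀E h2
      have h4 : π (e : G) ∈ (Sb : Subgroup (G ⧸ O)) := e.2
      have e5 : π x = π (e : G) * π ((e : G)⁻¹ * x * e) * (π (e : G))⁻¹ := by
        rw [map_mul, map_mul, map_inv]
        group
      show π x ∈ _
      rw [e5]
      exact mul_mem (mul_mem h4 h3) (inv_mem h4)
    exact Sylow.ext (Tb.3 Sb.2 hle)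
  let H : Subgroup G := (S₁ : Subgroup G) ⊓ (T₀ : Subgroup G)
  have hA₂H : A₂ ≤ H := fun x hx => ⟨hA₂S₁ x hx, hA₂T x hx⟩
  have hcomm : ∀ x ∈ A₂, ∀ y ∈ A₂, x * y = y * x := by
    intro x hx y hy
    have h1 : x * y * x⁻¹ * y⁻¹ = 1 := by
      apply hdisj
      · have hx' := hA₂T x hx
        have hy' := hA₂T y hy
        exact mul_mem (mul_mem (mul_mem hx' hy') (inv_mem hx')) (inv_mem hy')
      · rw [map_mul, map_mul, map_mul, map_inv, map_inv, hc _ (hA₂B x hx) _ (hA₂B y hy)]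
        group
    have h2 : x * y * x⁻¹ = y := mul_inv_eq_one.1 h1
    exact mul_inv_eq_iff_eq_mul.1 h2
  have hexp : ∀ x ∈ A₂, x ^ 2 = 1 := by
    intro x hx
    apply hdisj _ (pow_mem (hA₂T x hx) 2)
    rw [map_pow]
    exact he _ (hA₂B x hx)
  have h9 := hI S₁ T₀ hneS (A₂.subgroupOf H)
    ⟨⟨fun a b => Subtype.ext (Subtype.ext (hcomm _ a.2 _ b.2))⟩⟩ (fun a ha => Subtype.ext (hexp _ ha))
  have h10 : Nat.card (A₂.subgroupOf H) = Nat.card A₂ :=
    Nat.card_congr (Subgroup.subgroupOfEquivOfLe hA₂H).toEquiv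
  let f : A₂ → B := fun x => ⟨π x, hA₂B x x.2⟩
  have hf : Function.Surjective f := by
    rintro ⟨b, hb⟩
    obtain ⟨x, hx, rfl⟩ := hBA b hb
    exact ⟨⟨x, hx⟩, rfl⟩
  have h11 := Nat.card_le_card_of_surjective f hf
  rw [h10] at h9
  omega

theorem result_aux (hs : Group.IsSolvable G)
    (hI : ∀ S T : Sylow 2 G, S ≠ T → PRankLE 2 1 ↥((S : Subgroup G) ⊓ (T : Subgroup G))) :
    Concl (G ⧸ oddCore G) := by
  haveI := hs
  refine main_Q inferInstance pPrimeCore_quotient_eq_bot ?_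
  intro Sb Tb hne A hAc hAe
  have h1 := descend hI Sb Tb hne (A.map (Subgroup.subtype _)) ?_ ?_ ?_ ?_
  · rw [Subgroup.card_map_of_injective (Subgroup.subtype_injective _)] at h1
    simpa using h1
  · rintro _ ⟨x, -, rfl⟩
    exact x.2.1
  · rintro _ ⟨x, -, rfl⟩
    exact x.2.2
  · rintro _ ⟨x, hx, rfl⟩ _ ⟨y, hy, rfl⟩
    have := hAc.is_comm.comm (⟨x, hx⟩ : A) ⟨y, hy⟩
    have h2 := congrArg Subtype.val (congrArg Subtype.val this)
    exact h2
  · rintro _ ⟨x, hx, rfl⟩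
    have := hAe x hx
    exact congrArg Subtype.val this

end descend

end Cfsg.Agent.Lib.GS1.SyInt
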